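import Cfsg.Agent.H42.PcDefs

/-! Project PC, piece U. -/

set_option autoImplicit false

namespace Cfsg.Agent.H20.PcU

open Subgroup Cfsg.Agent.H42.Pc

universe u

theorem cen {Q : Type*} [Group Q] [Finite Q] {M : Subgroup Q} (hM : IsPGroup 2 M) (h : M ≠ ⊥) :
    ∃ z ∈ M, z ≠ 1 ∧ z * z = 1 ∧ ∀ m ∈ M, Commute z m := by
  have : Fact (Nat.Prime 2) := ⟨Nat.prime_two⟩
  have : Nontrivial M := (nontrivial_iff_ne_bot M).mpr h
  have := hM.center_nontrivial
  obtain ⟨n, n0, hn⟩ := (hM.to_subgroup (center M)).nontrivial_iff_card.mp this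
  obtain ⟨z, hz⟩ := exists_prime_orderOf_dvd_card' (G := center M) 2
    (by rw [hn]; exact dvd_pow_self 2 n0.ne')
  refine ⟨z.1.1, z.1.2, fun e => ?_, ?_, fun m hm => ?_⟩
  · have : z = 1 := Subtype.ext (Subtype.ext e)
    rw [this, orderOf_one] at hz
    exact absurd hz (by decide)
  · have := pow_orderOf_eq_one z
    rw [hz, pow_two] at this
    exact congrArg (fun w : center M => w.1.1) this
  · exact (congrArg Subtype.val (mem_center_iff.mp z.2 ⟨m, hm⟩)).symm

theorem uu : UStmt.{u} := by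
  intro G _ _ T M cf nM pM hM
  have := cf.nT
  let π := QuotientGroup.mk' T
  have k : ∀ y : G, π y = 1 ↔ y ∈ T := fun y => QuotientGroup.eq_one_iff y
  have key : ∀ a b : G, a * a ∈ T → b * b ∈ T → Commute (π a) (π b) := by
    intro a b ha hb
    by_cases aT : a ∈ T
    · rw [(k a).mpr aT]; exact Commute.one_left _
    have ne : M.map π ≠ ⊥ := fun e => by
      have := mem_map_of_mem π (hM a ha)
      rw [e, mem_bot] at this
      exact aT ((k a).mp this)
    obtain ⟨_, ⟨z, -, rfl⟩, z1, zz, zc⟩ := cen (pM.map π) ne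
    obtain ⟨g, hg⟩ := cf.cc z a (fun h => z1 ((k z).mpr h)) aT
      ((k _).mp (by rw [map_mul, zz])) ha
    obtain ⟨n, hn⟩ : a ∈ zpowers (g * z * g⁻¹) := hg ▸ mem_zpowers a
    have h1 := zc _ (mem_map_of_mem π (nM.conj_mem b (hM b hb) g⁻¹))
    have h2 : Commute (π (g * z * g⁻¹)) (π b) := by
      have := h1.eq
      simp only [map_mul, map_inv, inv_inv] at this ⊢
      calc π g * π z * (π g)⁻¹ * π b = π g * (π z * ((π g)⁻¹ * π b * π g)) * (π g)⁻¹ := by group
        _ = π g * (((π g)⁻¹ * π b * π g) * π z) * (π g)⁻¹ := by rw [this]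
        _ = π b * (π g * π z * (π g)⁻¹) := by group
    rw [← hn]
    simp only [map_zpow]
    exact h2.zpow_left n
  refine ⟨{ carrier := {y | y * y ∈ T}
            one_mem' := by simp
            inv_mem' := fun {a} ha => by
              show a⁻¹ * a⁻¹ ∈ T
              rw [← mul_inv_rev]; exact inv_mem ha
            mul_mem' := fun {a b} ha hb => ?_ }, fun y => Iff.rfl⟩
  show a * b * (a * b) ∈ T
  rw [← k]
  have h1 := (k _).mpr ha
  have h2 := (k _).mpr hb
  simp only [map_mul] at h1 h2 ⊢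
  calc π a * π b * (π a * π b) = π a * (π b * π a) * π b := by group
    _ = (π a * π a) * (π b * π b) := by rw [← (key a b ha hb).eq]; group
    _ = 1 := by rw [h1, h2, one_mul]

end Cfsg.Agent.H20.PcU
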