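import Mathlib
import Cfsg.Agent.H9.C3Defs

/-!
The facts that are read off the centralizers `Z₃ × Z₃` and `Z₃ × A₄`.
-/

set_option autoImplicit false
set_option maxRecDepth 100000
set_option synthInstance.maxSize 2000

namespace Cfsg.Agent.H20.C3

open Subgroup Cfsg.Agent.H9.C3

universe u

/-- The facts on the two models. -/
structure Md (M : Type*) [Group M] : Prop where
  six : ∀ g : M, g ^ 6 = 1
  mul : ∀ a : M, a * a = 1 → ∀ b : M, b * b = 1 → a * b * (a * b) = 1
  card : (Nat.card M = 9 ∧ Nat.card {a : M // a * a = 1} = 1) ∨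
    (Nat.card M = 36 ∧ Nat.card {a : M // a * a = 1} = 4)
  fpf : ∀ x : M, (∀ g, g * x = x * g) → x ≠ 1 → ∀ y : M, y ^ 3 = 1 → y ≠ 1 → y ≠ x → y ≠ x * x →
    ∀ v : M, v * v = 1 → v * y = y * v → v = 1

theorem md9 : Md (Multiplicative (ZMod 3) × Multiplicative (ZMod 3)) :=
  ⟨by decide +kernel, by decide +kernel, .inl (by
    rw [Nat.card_eq_fintype_card, Nat.card_eq_fintype_card]; decide +kernel), by decide +kernel⟩

theorem md36 : Md (Multiplicative (ZMod 3) × ↥(alternatingGroup (Fin 4))) :=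
  ⟨by decide +kernel, by decide +kernel, .inr (by
    rw [Nat.card_eq_fintype_card, Nat.card_eq_fintype_card]; decide +kernel), by decide +kernel⟩

theorem Md.of_equiv {M N : Type*} [Group M] [Group N] (f : N ≃* M) (h : Md M) : Md N where
  six g := f.injective (by rw [map_pow, h.six, map_one])
  mul a ha b hb := f.injective (by
    simp only [map_mul, map_one]
    exact h.mul _ (by rw [← map_mul, ha, map_one]) _ (by rw [← map_mul, hb, map_one]))
  card := by
    rw [Nat.card_congr f.toEquiv, Nat.card_congr (f.toEquiv.subtypeEquiv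
      (p := fun a => a * a = 1) (q := fun a => a * a = 1) fun a => by
        rw [MulEquiv.toEquiv_eq_coe, EquivLike.coe_coe, ← map_mul, f.map_eq_one_iff])]
    exact h.card
  fpf x h1 h2 y h3 h4 h5 h6 v h7 h8 := f.map_eq_one_iff.1 (h.fpf (f x)
    (fun g => by obtain ⟨g, rfl⟩ := f.surjective g; rw [← map_mul, h1, map_mul])
    (f.map_eq_one_iff.not.2 h2) (f y) (by rw [← map_pow, h3, map_one]) (f.map_eq_one_iff.not.2 h4)
    (f.injective.ne h5) (by rw [← map_mul]; exact f.injective.ne h6) (f v)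
    (by rw [← map_mul, h7, map_one]) (by rw [← map_mul, h8, map_mul]))

variable {G : Type u} [Group G]

theorem mem_C1 {x g : G} : g ∈ C1 x ↔ g * x = x * g := mem_centralizer_singleton_iff

theorem md (h : Hyp G) {x : G} (hx : orderOf x = 3) : Md (C1 x) :=
  (h.2 x hx).elim (fun ⟨f⟩ => md9.of_equiv f) fun ⟨f⟩ => md36.of_equiv f

theorem six (h : Hyp G) {x : G} (hx : orderOf x = 3) {g : G} (hg : g * x = x * g) : g ^ 6 = 1 :=
  congrArg Subtype.val ((md h hx).six ⟨g, mem_C1.2 hg⟩)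

theorem mem (h : Hyp G) (x : G) (hx : orderOf x = 3) (g : G) :
    g ∈ VV x ↔ g * g = 1 ∧ g * x = x * g := by
  refine ⟨fun hg => ?_, fun hg => subset_closure hg⟩
  induction hg using closure_induction with
  | mem g hg => exact hg
  | one => simp
  | mul a b _ _ ha hb =>
    exact ⟨congrArg Subtype.val ((md h hx).mul ⟨a, mem_C1.2 ha.2⟩ (Subtype.ext ha.1)
      ⟨b, mem_C1.2 hb.2⟩ (Subtype.ext hb.1)), mem_C1.1 (mul_mem (mem_C1.2 ha.2) (mem_C1.2 hb.2))⟩
  | inv a _ ha => rwa [inv_eq_of_mul_eq_one_right ha.1]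

theorem card_VV (h : Hyp G) {x : G} (hx : orderOf x = 3) :
    Nat.card (VV x) = Nat.card {a : C1 x // a * a = 1} :=
  Nat.card_congr
    { toFun := fun v => ⟨⟨v, mem_C1.2 ((mem h x hx v).1 v.2).2⟩, Subtype.ext ((mem h x hx v).1 v.2).1⟩
      invFun := fun a => ⟨a.1.1, (mem h x hx _).2 ⟨congrArg Subtype.val a.2, mem_C1.1 a.1.2⟩⟩
      left_inv := fun _ => rfl
      right_inv := fun _ => rfl }

theorem fpf (h : Hyp G) (x y : G) (hx : orderOf x = 3) (hy : orderOf y = 3) (e : x * y = y * x)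
    (hn : y ∉ zpowers x) (v : G) (hv : v ∈ VV x) (hc : v * y = y * v) : v = 1 := by
  obtain ⟨h1, h2⟩ := (mem h x hx v).1 hv
  refine congrArg Subtype.val ((md h hx).fpf ⟨x, mem_C1.2 rfl⟩ (fun g => Subtype.ext (mem_C1.1 g.2))
    (fun e => ?_) ⟨y, mem_C1.2 e.symm⟩ (Subtype.ext ?_) (fun e => hn ?_) (fun e => hn ?_)
    (fun e => hn ?_) ⟨v, mem_C1.2 h2⟩ (Subtype.ext h1) (Subtype.ext hc))
  · rw [show x = 1 from congrArg Subtype.val e, orderOf_one] at hx
    omega
  · exact hy ▸ pow_orderOf_eq_one y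
  · rw [show y = 1 from congrArg Subtype.val e]
    exact one_mem _
  · rw [show y = x from congrArg Subtype.val e]
    exact mem_zpowers x
  · rw [show y = x * x from congrArg Subtype.val e]
    exact mul_mem (mem_zpowers x) (mem_zpowers x)

theorem conj_VV (h : Hyp G) {x : G} (hx : orderOf x = 3) {g v : G} (hg : g * x = x * g)
    (hv : v ∈ VV x) : g * v * g⁻¹ ∈ VV x := by
  obtain ⟨h1, h2⟩ := (mem h x hx v).1 hv
  refine (mem h x hx _).2 ⟨by rw [conj_mul, h1, mul_one, mul_inv_cancel], mem_C1.1 ?_⟩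
  exact mul_mem (mul_mem (mem_C1.2 hg) (mem_C1.2 h2)) (inv_mem (mem_C1.2 hg))

variable [Finite G]

theorem o6 (h : Hyp G) (g : G) (hg : 3 ∣ orderOf g) : orderOf g = 3 ∨ orderOf g = 6 := by
  have h1 := six h (orderOf_pow_orderOf_div (orderOf_pos g).ne' hg) (g := g)
    (Commute.self_pow g _).eq
  have h2 := orderOf_dvd_of_pow_eq_one h1
  have h3 := Nat.le_of_dvd (by norm_num) h2
  generalize orderOf g = n at *
  interval_cases n <;> omega

omit [Finite G] in
theorem d9 (h : Hyp G) : 9 ∣ Nat.card G := by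
  obtain ⟨s, hs⟩ := h.1
  refine Dvd.dvd.trans ?_ (card_subgroup_dvd_card (C1 s))
  rcases (md h hs).card with e | e <;> rw [e.1] <;> norm_num

theorem c9 (h : Hyp G) (P : Sylow 3 G) : Nat.card (P : Subgroup G) = 9 := by
  have : Fact (Nat.Prime 3) := ⟨Nat.prime_three⟩
  have h1 : 3 ^ 2 ∣ Nat.card (P : Subgroup G) := P.pow_dvd_card_of_pow_dvd_card (d9 h)
  have : Nontrivial (P : Subgroup G) := Finite.one_lt_card_iff_nontrivial.1
    (lt_of_lt_of_le (by norm_num) (Nat.le_of_dvd Nat.card_pos h1))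
  have h2 := P.isPGroup'.center_nontrivial
  obtain ⟨n, hn⟩ := (P.isPGroup'.to_subgroup (center P)).exists_card_eq
  have h3 : 3 ∣ Nat.card (center (P : Subgroup G)) := by
    rw [hn]
    refine dvd_pow_self 3 fun e => ?_
    rw [e, pow_zero] at hn
    exact Finite.one_lt_card.ne' hn
  obtain ⟨z, hz⟩ := exists_prime_orderOf_dvd_card' 3 h3
  rw [← Subgroup.orderOf_coe, ← Subgroup.orderOf_coe] at hz
  have h4 : (P : Subgroup G) ≤ C1 (z.1.1 : G) := fun g hg =>
    mem_C1.2 (congrArg Subtype.val (mem_center_iff.1 z.2 ⟨g, hg⟩))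
  have h5 : Nat.card (P : Subgroup G) ∣ 36 := by
    refine (card_dvd_of_le h4).trans ?_
    rcases (md h hz).card with e | e <;> rw [e.1] <;> norm_num
  obtain ⟨m, hm⟩ := P.isPGroup'.exists_card_eq
  rw [hm] at h1 h5 ⊢
  have h6 : 2 ≤ m := (Nat.pow_dvd_pow_iff_le_right (by norm_num)).1 h1
  have h7 : m < 3 := by
    by_contra h8
    exact absurd ((pow_dvd_pow 3 (not_lt.1 h8)).trans h5) (by norm_num)
  interval_cases m
  rfl

theorem cube (h : Hyp G) (P : Sylow 3 G) (x : G) (hx : x ∈ (P : Subgroup G)) : x ^ 3 = 1 := by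
  have h1 := (P : Subgroup G).orderOf_dvd_natCard hx
  rw [c9 h] at h1
  refine orderOf_dvd_iff_pow_eq_one.1 ?_
  have h2 := o6 h x
  have h3 := Nat.le_of_dvd (by norm_num) h1
  generalize orderOf x = n at *
  interval_cases n <;> omega

theorem ord3 (h : Hyp G) (P : Sylow 3 G) {x : G} (hx : x ∈ (P : Subgroup G)) (x1 : x ≠ 1) :
    orderOf x = 3 :=
  have : Fact (Nat.Prime 3) := ⟨Nat.prime_three⟩
  orderOf_eq_prime (cube h P x hx) x1

theorem comm (h : Hyp G) (P : Sylow 3 G) : Cm (P : Subgroup G) P := fun a ha b hb => by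
  have : Fact (Nat.Prime 3) := ⟨Nat.prime_three⟩
  exact congrArg Subtype.val
    (IsPGroup.commutative_of_card_eq_prime_sq (p := 3) (c9 h P) ⟨a, ha⟩ ⟨b, hb⟩)

theorem VP (h : Hyp G) (P : Sylow 3 G) {x : G} (hx : orderOf x = 3) {v : G} (hv : v ∈ VV x)
    (hP : v ∈ (P : Subgroup G)) : v = 1 := by
  have h1 := cube h P v hP
  rwa [pow_succ, pow_two, ((mem h x hx v).1 hv).1, one_mul] at h1

theorem cx (h : Hyp G) (P : Sylow 3 G) (x : G) (hx : x ∈ (P : Subgroup G)) (x1 : x ≠ 1) (g : G)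
    (hg : g * x = x * g) : ∃ v ∈ VV x, ∃ p ∈ (P : Subgroup G), g = v * p := by
  have h3 := ord3 h P hx x1
  let f : VV x × (P : Subgroup G) → C1 x := fun a =>
    ⟨a.1 * a.2, mul_mem (mem_C1.2 ((mem h x h3 _).1 a.1.2).2) (mem_C1.2 (comm h P _ a.2.2 x hx))⟩
  have hf : Function.Injective f := by
    rintro ⟨v, p⟩ ⟨v', p'⟩ e
    have e1 : (v : G) * p = v' * p' := congrArg Subtype.val e
    have e2 : (v' : G)⁻¹ * v = p' * (p : G)⁻¹ := by
      rw [inv_mul_eq_iff_eq_mul, ← mul_assoc, ← e1, mul_inv_cancel_right]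
    have e3 := VP h P h3 (mul_mem (inv_mem v'.2) v.2) (e2 ▸ mul_mem p'.2 (inv_mem p.2))
    obtain rfl : v' = v := Subtype.ext (inv_mul_eq_one.1 e3)
    exact Prod.ext rfl (Subtype.ext (mul_left_cancel e1))
  obtain ⟨⟨v, p⟩, e⟩ := (hf.bijective_of_nat_card_le (by
    rw [Nat.card_prod, c9 h, card_VV h h3]
    rcases (md h h3).card with e | e <;> rw [e.1, e.2])).2 ⟨g, mem_C1.2 hg⟩
  exact ⟨v, v.2, p, p.2, (congrArg Subtype.val e).symm⟩

theorem sr (h : Hyp G) (P : Sylow 3 G) (n : G) (hn : n ∈ Nm (P : Subgroup G)) (x : G)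
    (hx : x ∈ (P : Subgroup G)) (x1 : x ≠ 1) (e : n * x = x * n) : n ∈ (P : Subgroup G) := by
  have h3 := ord3 h P hx x1
  obtain ⟨v, hv, p, hp, rfl⟩ := cx h P x hx x1 n e
  have h1 : v ∈ Nm (P : Subgroup G) := (mul_mem_cancel_right (le_normalizer hp)).1 hn
  obtain ⟨y, hy, hy'⟩ : ∃ y ∈ (P : Subgroup G), y ∉ zpowers x := by
    by_contra hc
    push Not at hc
    have := card_le_of_le (show (P : Subgroup G) ≤ zpowers x from hc)
    rw [c9 h, Nat.card_zpowers, h3] at this
    omega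
  have h2 := VP h P h3 (v := v * (y * v⁻¹ * y⁻¹))
    (mul_mem hv (conj_VV h h3 (comm h P y hy x hx) (inv_mem hv))) (by
      rw [← mul_assoc, ← mul_assoc]
      exact mul_mem ((mem_normalizer_iff.1 h1 y).1 hy) (inv_mem hy))
  rw [fpf h x y h3 (ord3 h P hy fun e => hy' (e ▸ one_mem _)) (comm h P x hx y hy) hy' v hv (by
    rw [← mul_assoc, ← mul_assoc, mul_inv_eq_one, mul_inv_eq_iff_eq_mul] at h2
    exact h2), one_mul]
  exact hp

theorem np (h : Hyp G) (P : Sylow 3 G) : Nat.card (Nm (P : Subgroup G)) ∣ 72 := by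
  classical
  let Ω := {y : (P : Subgroup G) // y ≠ 1}
  let act : MulAction (Nm (P : Subgroup G)) Ω :=
    { smul := fun n y => ⟨⟨n * y.1 * (n : G)⁻¹, (mem_normalizer_iff.1 n.2 _).1 y.1.2⟩, fun e =>
        y.2 (Subtype.ext (by simpa using congrArg Subtype.val e))⟩
      one_smul := fun y => Subtype.ext (Subtype.ext (by
        change ((1 : G) * y.1 * (1 : G)⁻¹) = _
        simp))
      mul_smul := fun a b y => Subtype.ext (Subtype.ext (by
        change ((a : G) * b * y.1 * ((a : G) * b)⁻¹) = a * (b * y.1 * (b : G)⁻¹) * (a : G)⁻¹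
        group)) }
  have h1 : Nat.card Ω = 8 := by
    have := Fintype.ofFinite (P : Subgroup G)
    rw [Nat.card_eq_fintype_card, Fintype.card_subtype_compl, Fintype.card_subtype_eq,
      ← Nat.card_eq_fintype_card, c9 h]
  have h2 : ∀ y : Ω, Nat.card (MulAction.orbit (Nm (P : Subgroup G)) y) * 9 =
      Nat.card (Nm (P : Subgroup G)) := fun y => by
    have e : MulAction.stabilizer (Nm (P : Subgroup G)) y =
        (P : Subgroup G).subgroupOf (Nm (P : Subgroup G)) := by
      ext n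
      rw [MulAction.mem_stabilizer_iff, mem_subgroupOf]
      constructor
      · intro e
        exact sr h P n n.2 y.1 y.1.2 (fun e => y.2 (Subtype.ext e))
          (mul_inv_eq_iff_eq_mul.1 (congrArg (fun z : Ω => (z.1 : G)) e))
      · intro hn
        exact Subtype.ext (Subtype.ext (mul_inv_eq_iff_eq_mul.2 (comm h P _ hn _ y.1.2)))
    rw [← c9 h P, ← Nat.card_congr (subgroupOfEquivOfLe (le_normalizer (H := (P : Subgroup G)))).toEquiv,
      ← e, ← Nat.card_prod]
    exact Nat.card_congr (MulAction.orbitProdStabilizerEquivGroup _ y)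
  have := Fintype.ofFinite (MulAction.orbitRel.Quotient (Nm (P : Subgroup G)) Ω)
  rw [Nat.card_congr (MulAction.selfEquivSigmaOrbits (Nm (P : Subgroup G)) Ω), Nat.card_sigma] at h1
  rw [show 72 = 8 * 9 from rfl, ← h1, Finset.sum_mul]
  exact Finset.dvd_sum fun y _ => (h2 _).symm ▸ dvd_rfl

theorem k1 : K1Stmt.{u} := fun G _ _ h =>
  { ord := ⟨o6 h, d9 h, fun h27 => by
      have : Fact (Nat.Prime 3) := ⟨Nat.prime_three⟩
      obtain ⟨P⟩ : Nonempty (Sylow 3 G) := inferInstance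
      have := P.pow_dvd_card_of_pow_dvd_card (n := 3) h27
      rw [c9 h] at this
      norm_num at this, np h⟩
    mem := mem h
    card := fun x hx => by
      rw [← card_eq_one, card_VV h hx]
      exact (md h hx).card.imp And.right And.right
    two := fun x hx g k hg hk => (mem h x hx g).2 ⟨by
      rw [← pow_two, ← orderOf_dvd_iff_pow_eq_one]
      refine Nat.Coprime.dvd_of_dvd_mul_right (k := orderOf g) (n := 3) ?_
        (orderOf_dvd_of_pow_eq_one (six h hx hg))
      exact Nat.Coprime.coprime_dvd_left (orderOf_dvd_of_pow_eq_one hk)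
        (Nat.Coprime.pow_left k (by norm_num)), hg⟩
    c9 := c9 h
    cube := cube h
    comm := comm h
    sr := sr h
    cx := cx h
    fpf := fpf h }

end Cfsg.Agent.H20.C3
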