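import Cfsg.Agent.H20.CyLwA
import Cfsg.Agent.H77.Psl4

/-! Project CY, chapter LP, piece LW. -/

set_option autoImplicit false

namespace Cfsg.Agent.H20.CyLw

open Cfsg.Agent.H11.Cy Cfsg.Agent.H11.Cy.Lp

theorem fact4_of_equiv {M N : Type} [Group M] [Group N] (e : M ≃* N) (h : Fact4 N) : Fact4 M := by
  intro a b aa bb a1 b1 ab c
  obtain ⟨f1, w, w1, w2⟩ := h (e a) (e b) (by rw [← map_mul, aa, map_one])
    (by rw [← map_mul, bb, map_one]) (by simpa using a1) (by simpa using b1)
    (by simpa using ab) (c.map e)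
  refine ⟨fun l h1 h2 => ?_, e.symm w, e.injective (by simpa using w1),
    e.injective (by simpa using w2)⟩
  rcases f1 (e l) (h1.map e) (h2.map e) with h | h | h | h
  · exact Or.inl (by simpa using h)
  · exact Or.inr (Or.inl (e.injective h))
  · exact Or.inr (Or.inr (Or.inl (e.injective h)))
  · exact Or.inr (Or.inr (Or.inr (e.injective (by simpa using h))))

theorem fact4 (M : Type) [Group M] (p : ℕ) (pp : p.Prime) (p2 : p ≠ 2) (h : IsL2 M p) :
    Fact4 M := by
  obtain ⟨F, _, _, hc, ⟨e⟩⟩ := h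
  have h2 : (2 : F) ≠ 0 := by
    intro h0
    have hp : (p : F) = 0 := by rw [← hc]; exact FiniteField.cast_card_eq_zero F
    obtain ⟨k, hk⟩ := pp.odd_of_ne_two p2
    rw [hk] at hp
    push_cast at hp
    rw [h0, zero_mul, zero_add] at hp
    exact one_ne_zero hp
  exact fact4_of_equiv e fun a b ha hb a1 b1 ab c =>
    Cfsg.Agent.H77.Psl4.fact h2 a b ha hb a1 b1 ab c

theorem lw : LWStmt := lw_of fact4

end Cfsg.Agent.H20.CyLw
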