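import Cfsg.Agent.H11.CyLp

/-! Project CY, chapter LP, piece LW: the group part. -/

set_option autoImplicit false

namespace Cfsg.Agent.H20.CyLw

open Subgroup MulAction Cfsg.Agent.H11.Cy Cfsg.Agent.H11.Cy.Lp
open Cfsg.Agent.H11.EL (Nm Ct C1 cj Ex)

/-- four-groups are self-centralising and normalised by an element of order three -/
def Fact4 (M : Type) [Group M] : Prop := ∀ a b : M, a * a = 1 → b * b = 1 → a ≠ 1 → b ≠ 1 →
  a ≠ b → Commute a b → (∀ l, Commute a l → Commute b l → l = 1 ∨ l = a ∨ l = b ∨ l = a * b) ∧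
    ∃ w, w * a * w⁻¹ = b ∧ w * b * w⁻¹ = a * b

section
variable {G : Type} [Group G] {Ω : Type} [MulAction G Ω] {p : ℕ} {A : Ω → Subgroup G}

theorem nmL {L : Subgroup G} {g l : G} (hg : g ∈ Nm L) (hl : l ∈ L) : g * l * g⁻¹ ∈ L :=
  (mem_normalizer_iff.mp hg l).mp hl

theorem ctL {L : Subgroup G} {k l : G} (hk : k ∈ Ct L) (hl : l ∈ L) : Commute l k :=
  mem_centralizer_iff.mp hk l hl

theorem nmK {L : Subgroup G} {g k : G} (hg : g ∈ Nm L) (hk : k ∈ Ct L) : g * k * g⁻¹ ∈ Ct L := by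
  refine mem_centralizer_iff.mpr fun l hl => ?_
  have h1 : g⁻¹ * l * g⁻¹⁻¹ ∈ L := nmL (inv_mem hg) hl
  have h2 := (ctL hk h1).eq
  calc l * (g * k * g⁻¹) = g * ((g⁻¹ * l * g⁻¹⁻¹) * k) * g⁻¹ := by group
    _ = g * (k * (g⁻¹ * l * g⁻¹⁻¹)) * g⁻¹ := by rw [h2]
    _ = g * k * g⁻¹ * l := by group

/-- `c` commuting with `k l` commutes with `l` -/
theorem comm_part {L : Subgroup G} (ctr : ∀ g ∈ L, g ∈ Ct L → g = 1) {c k l : G} (hc : c ∈ Nm L)
    (hk : k ∈ Ct L) (hl : l ∈ L) (h : Commute (k * l) c) : Commute l c := by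
  have e : c * l * c⁻¹ * l⁻¹ = (c * k * c⁻¹)⁻¹ * k := by
    have := h.eq
    calc c * l * c⁻¹ * l⁻¹ = (c * k * c⁻¹)⁻¹ * (c * (k * l)) * c⁻¹ * l⁻¹ := by group
      _ = (c * k * c⁻¹)⁻¹ * (k * l * c) * c⁻¹ * l⁻¹ := by rw [this]
      _ = (c * k * c⁻¹)⁻¹ * k := by group
  have h1 : c * l * c⁻¹ * l⁻¹ = 1 := ctr _ (mul_mem (nmL hc hl) (inv_mem hl))
    (e ▸ mul_mem (inv_mem (nmK hc hk)) hk)
  have : c * l = l * c := by
    calc c * l = (c * l * c⁻¹ * l⁻¹) * l * c := by group
      _ = l * c := by rw [h1]; group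
  exact this.symm

theorem sq_part {L : Subgroup G} (ctr : ∀ g ∈ L, g ∈ Ct L → g = 1) {k l : G}
    (hk : k ∈ Ct L) (hl : l ∈ L) (h : k * l * (k * l) ∈ Ct L) : l * l = 1 := by
  refine ctr _ (mul_mem hl hl) ?_
  have e : l * l = (k * k)⁻¹ * (k * l * (k * l)) := by
    have := (ctL hk hl).eq
    calc l * l = (k * k)⁻¹ * (k * (k * l) * l) := by group
      _ = (k * k)⁻¹ * (k * (l * k) * l) := by rw [this]
      _ = _ := by group
  rw [e]
  exact mul_mem (inv_mem (mul_mem hk hk)) h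

/-- the inner case -/
theorem inner {L : Subgroup G} (F4 : Fact4 L) (ctr : ∀ g ∈ L, g ∈ Ct L → g = 1) {a b c k l : G}
    (ha : a ∈ L) (hb : b ∈ L) (aa : a * a = 1) (bb : b * b = 1) (a1 : a ≠ 1) (b1 : b ≠ 1)
    (ab : a ≠ b) (cab : Commute a b) (hc : c ∈ Nm L) (ac : Commute a c) (bc : Commute b c)
    (hk : k ∈ Ct L) (hl : l ∈ L) (e : c * c = k * l) : l = 1 := by
  obtain ⟨f1, ⟨w, hw⟩, w1, w2⟩ := F4 ⟨a, ha⟩ ⟨b, hb⟩ (Subtype.ext aa) (Subtype.ext bb)
    (fun h => a1 (congrArg Subtype.val h)) (fun h => b1 (congrArg Subtype.val h))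
    (fun h => ab (congrArg Subtype.val h)) (Subtype.ext cab.eq)
  have w1' : w * a * w⁻¹ = b := congrArg Subtype.val w1
  have w2' : w * b * w⁻¹ = a * b := congrArg Subtype.val w2
  have f : ∀ m ∈ L, Commute a m → Commute b m → m = 1 ∨ m = a ∨ m = b ∨ m = a * b := by
    intro m hm h1 h2
    rcases f1 ⟨m, hm⟩ (Subtype.ext h1.eq) (Subtype.ext h2.eq) with h | h | h | h
    · exact Or.inl (congrArg Subtype.val h)
    · exact Or.inr (Or.inl (congrArg Subtype.val h))
    · exact Or.inr (Or.inr (Or.inl (congrArg Subtype.val h)))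
    · exact Or.inr (Or.inr (Or.inr (congrArg Subtype.val h)))
  have ca : c * a * c⁻¹ = a := by rw [← ac.eq]; group
  have cb : c * b * c⁻¹ = b := by rw [← bc.eq]; group
  have ca' : c⁻¹ * a * c = a := by rw [mul_assoc, ac.eq]; group
  have cb' : c⁻¹ * b * c = b := by rw [mul_assoc, bc.eq]; group
  set v := w⁻¹ * (c * w * c⁻¹) with hv
  have vL : v ∈ L := mul_mem (inv_mem hw) (nmL hc hw)
  have va : Commute a v := by
    have : v * a * v⁻¹ = a := by
      calc v * a * v⁻¹ = w⁻¹ * (c * (w * (c⁻¹ * a * c) * w⁻¹) * c⁻¹) * w := by rw [hv]; group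
        _ = w⁻¹ * b * w := by rw [ca', w1', cb]
        _ = a := by rw [← w1']; group
    calc a * v = (v * a * v⁻¹) * v := by rw [this]
      _ = v * a := by group
  have vb : Commute b v := by
    have : v * b * v⁻¹ = b := by
      calc v * b * v⁻¹ = w⁻¹ * (c * (w * (c⁻¹ * b * c) * w⁻¹) * c⁻¹) * w := by rw [hv]; group
        _ = w⁻¹ * ((c * a * c⁻¹) * (c * b * c⁻¹)) * w := by rw [cb', w2']; group
        _ = w⁻¹ * (w * b * w⁻¹) * w := by rw [ca, cb, w2']
        _ = b := by group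
    calc b * v = (v * b * v⁻¹) * v := by rw [this]
      _ = v * b := by group
  have vv : v * v = 1 ∧ Commute v c := by
    rcases f v vL va vb with h | h | h | h <;> rw [h]
    · simp
    · exact ⟨aa, ac⟩
    · exact ⟨bb, bc⟩
    · refine ⟨?_, ac.mul_left bc⟩
      calc a * b * (a * b) = a * (b * a) * b := by group
        _ = a * (a * b) * b := by rw [cab.eq]
        _ = (a * a) * (b * b) := by group
        _ = 1 := by rw [aa, bb, one_mul]
  have cw : c * w * c⁻¹ = w * v := by rw [hv]; group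
  have cv : c * v * c⁻¹ = v := by rw [← vv.2.eq]; group
  have ccw : Commute (c * c) w := by
    have : c * c * w * (c * c)⁻¹ = w := by
      calc c * c * w * (c * c)⁻¹ = c * (c * w * c⁻¹) * c⁻¹ := by group
        _ = c * (w * v) * c⁻¹ := by rw [cw]
        _ = (c * w * c⁻¹) * (c * v * c⁻¹) := by group
        _ = w * (v * v) := by rw [cw, cv]; group
        _ = w := by rw [vv.1, mul_one]
    calc c * c * w = (c * c * w * (c * c)⁻¹) * (c * c) := by group
      _ = w * (c * c) := by rw [this]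
  have key : ∀ m ∈ L, Commute (c * c) m → Commute l m := fun m hm h =>
    comm_part ctr (le_normalizer hm) hk hl (e ▸ h)
  have lw := key w hw ccw
  have la := key a ha (ac.symm.mul_left ac.symm)
  have lb := key b hb (bc.symm.mul_left bc.symm)
  have wl : w * l * w⁻¹ = l := by rw [← lw.eq]; group
  rcases f l hl la.symm lb.symm with h | h | h | h
  · exact h
  · rw [h, w1'] at wl; exact absurd wl.symm ab
  · rw [h, w2'] at wl; exact absurd (by simpa using wl) a1
  · exfalso
    rw [h] at wl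
    have : w * (a * b) * w⁻¹ = a := by
      calc w * (a * b) * w⁻¹ = (w * a * w⁻¹) * (w * b * w⁻¹) := by group
        _ = b * (a * b) := by rw [w1', w2']
        _ = (b * a) * b := by group
        _ = a * (b * b) := by rw [← cab.eq]; group
        _ = a := by rw [bb, mul_one]
    rw [this] at wl
    exact b1 (by simpa using wl.symm)

theorem exists_ne_one (h : St p A) (x : Ω) : ∃ a ∈ A x, a ≠ 1 := by
  by_contra hc
  push Not at hc
  have : A x = ⊥ := (eq_bot_iff_forall _).mpr hc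
  have h1 := h.card x
  rw [this, card_bot] at h1
  exact h.pp.one_lt.ne h1

theorem ord_p (h : St p A) {x : Ω} {a : G} (ha : a ∈ A x) (a1 : a ≠ 1) : orderOf a = p := by
  have : orderOf a ∣ p := by rw [← h.card x]; exact (A x).orderOf_dvd_natCard ha
  rcases (Nat.dvd_prime h.pp).mp this with h1 | h1
  · exact absurd (orderOf_eq_one_iff.mp h1) a1
  · exact h1

theorem pow_p (h : St p A) {x : Ω} {a : G} (ha : a ∈ A x) : a ^ p = 1 := by
  rw [← h.card x]; exact orderOf_dvd_iff_pow_eq_one.mp ((A x).orderOf_dvd_natCard ha)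

theorem sq_ne (h : St p A) (p2 : p ≠ 2) {x : Ω} {a : G} (ha : a ∈ A x) (aa : a * a = 1) : a = 1 := by
  by_contra a1
  have h1 : orderOf a ∣ 2 := orderOf_dvd_of_pow_eq_one (by rw [pow_two, aa])
  rw [ord_p h ha a1] at h1
  exact p2 ((Nat.prime_dvd_prime_iff_eq h.pp Nat.prime_two).mp h1)

/-- an element fixing `x` with square in `K` lies in `K` or inverts `A x` -/
theorem inv_or (h : St p A) (p2 : p ≠ 2) {x y : Ω} (la : LA p A x y) {d : G}
    (dN : d ∈ Nm (Fl A x y)) (dx : d • x = x) (dd : d * d ∈ Kl A x y) (dK : d ∉ Kl A x y) :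
    ∀ a ∈ A x, d * a * d⁻¹ = a⁻¹ := by
  obtain ⟨i, hi, -⟩ := la.ex d dx
  obtain ⟨a0, h0, n0⟩ := exists_ne_one h x
  have aL : ∀ a ∈ A x, a ∈ Fl A x y := fun a ha => mem_sup_left ha
  have e1 : a0 ^ (i * i) = a0 := by
    have h1 := (ctL dd (aL a0 h0)).eq
    calc a0 ^ (i * i) = (a0 ^ i) ^ i := by rw [zpow_mul]
      _ = d * (a0 ^ i) * d⁻¹ := (hi _ (zpow_mem h0 i)).symm
      _ = d * (d * a0 * d⁻¹) * d⁻¹ := by rw [hi a0 h0]
      _ = (d * d * a0) * (d * d)⁻¹ := by group
      _ = a0 := by rw [← h1]; group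
  have e2 : (p : ℤ) ∣ (i - 1) * (i + 1) := by
    have : a0 ^ ((i - 1) * (i + 1)) = 1 := by
      rw [show (i - 1) * (i + 1) = i * i - 1 by ring, zpow_sub, e1]; simp
    rw [← ord_p h h0 n0]
    exact orderOf_dvd_iff_zpow_eq_one.mpr this
  have zp : ∀ a ∈ A x, ∀ n : ℤ, (p : ℤ) ∣ n → a ^ n = 1 := by
    rintro a ha n ⟨m, rfl⟩
    rw [zpow_mul, zpow_natCast, pow_p h ha, one_zpow]
  rcases (Nat.prime_iff_prime_int.mp h.pp).dvd_or_dvd e2 with h1 | h1
  · exfalso
    have dc : d ∈ Ct (A x) := by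
      refine mem_centralizer_iff.mpr fun a ha => ?_
      have : a ^ i = a := by
        have := zp a ha _ h1
        rw [zpow_sub] at this
        simpa [mul_inv_eq_one] using this
      have h2 := hi a ha
      rw [this] at h2
      calc a * d = (d * a * d⁻¹) * d := by rw [h2]
        _ = d * a := by group
    obtain ⟨k, hk, a, ha, rfl⟩ := la.CM d dc dN
    have := sq_ne h p2 ha (sq_part la.ctr hk (aL a ha) dd)
    rw [this, mul_one] at dK
    exact dK hk
  · intro a ha
    have := zp a ha _ h1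
    rw [zpow_add, zpow_one] at this
    rw [hi a ha]
    exact eq_inv_of_mul_eq_one_left this

/-- the case of a fixed point, at the pair `(x, y)` with `e x = y` -/
theorem fixed2 (ep : Eps A) {x y : Ω} (hxy : x ≠ y) (la : LA p A x y) {f : G} (lt : LT p A x y f)
    {c d e : G} (cN : c ∈ Nm (Fl A x y)) (dK : d ∉ Kl A x y) (ee : e * e ∈ Kl A x y)
    (dx : d • x = x) (ex : e • x = y) (de : Commute d e) (dc : Commute d c) (ec : Commute e c) :
    c * c ∈ Kl A x y := by
  have ey : e • y = x := by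
    rw [← ex, ← mul_smul]; exact (ep.kfix x y hxy _).mp ee x la.mx
  have dy : d • y = y := by rw [← ex, ← mul_smul, de.eq, mul_smul, dx]
  have dcx : d • c • x = c • x := by rw [← mul_smul, dc.eq, mul_smul, dx]
  have cy : c • y = e • c • x := by rw [← ex, ← mul_smul, ← ec.eq, mul_smul]
  have cm : c • x ∈ Ln A x y := (ep.nrm x y hxy c).mp cN x la.mx
  by_cases h1 : c • x = x
  · have := lt.inv e ex ey c ⟨h1, show c • y = y by rw [cy, h1, ex]⟩
    rwa [ec.eq, mul_inv_cancel_right] at this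
  by_cases h2 : c • x = y
  · exact lt.sq c h2 (by rw [cy, h2, ey])
  exact absurd (la.three d x la.mx y la.my _ cm hxy (Ne.symm h2) (Ne.symm h1) dx dy dcx) dK

theorem fixed (h : St p A) (l0 : L0 p A) (la : ∀ x y, x ≠ y → LA p A x y)
    (lct : ∀ x y, x ≠ y → ∃ f s, LC p A x y f s ∧ LT p A x y f) {x y : Ω} (hxy : x ≠ y)
    {c d e : G} (cN : c ∈ Nm (Fl A x y)) (dN : d ∈ Nm (Fl A x y)) (eN : e ∈ Nm (Fl A x y))
    (dd : d * d ∈ Kl A x y) (ee : e * e ∈ Kl A x y) (dK : d ∉ Kl A x y) (eK : e ∉ Kl A x y)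
    (deK : d * e ∉ Kl A x y) (de : Commute d e) (dc : Commute d c) (ec : Commute e c)
    {z : Ω} (hz : z ∈ Ln A x y) (dz : d • z = z) : c * c ∈ Kl A x y := by
  have ep := l0.mc.ep
  by_cases ez : e • z = z
  · exfalso
    obtain ⟨w, hw, zw⟩ : ∃ w ∈ Ln A x y, z ≠ w := by
      by_cases hx : z = x
      · exact ⟨y, (la x y hxy).my, hx ▸ hxy⟩
      · exact ⟨x, (la x y hxy).mx, hx⟩
    have sp := ep.span x y hxy z hz w hw zw
    have l := la z w zw
    simp only [Kl] at dd ee dK eK deK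
    rw [← sp] at dN eN dd ee dK eK deK
    have i1 := inv_or h l0.mc.p2 l dN dz dd dK
    have i2 := inv_or h l0.mc.p2 l eN ez ee eK
    have dede : d * e * (d * e) ∈ Kl A z w := by
      have : d * e * (d * e) = (d * d) * (e * e) := by
        calc d * e * (d * e) = d * (e * d) * e := by group
          _ = d * (d * e) * e := by rw [de.eq]
          _ = _ := by group
      rw [this]; exact mul_mem dd ee
    have i3 := inv_or h l0.mc.p2 l (mul_mem dN eN) (by rw [mul_smul, ez, dz]) dede deK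
    obtain ⟨a, ha, a1⟩ := exists_ne_one h z
    refine a1 (sq_ne h l0.mc.p2 ha ?_)
    have e1 := i3 a ha
    have e2 : d * e * a * (d * e)⁻¹ = a := by
      calc d * e * a * (d * e)⁻¹ = d * (e * a * e⁻¹) * d⁻¹ := by group
        _ = a⁻¹⁻¹ := by rw [i2 a ha, i1 _ (inv_mem ha)]
        _ = a := inv_inv a
    rw [e2] at e1
    exact mul_eq_one_iff_eq_inv.mpr e1
  · have hw : e • z ∈ Ln A x y := (ep.nrm x y hxy e).mp eN z hz
    have zw : z ≠ e • z := Ne.symm ez
    have sp := ep.span x y hxy z hz _ hw zw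
    obtain ⟨f, s, -, lt⟩ := lct z _ zw
    simp only [Kl] at dK ee ⊢
    rw [← sp] at cN dK ee ⊢
    exact fixed2 ep zw (la z _ zw) lt cN dK ee dz rfl de dc ec

theorem v4 (h : St p A) (l0 : L0 p A) (la : ∀ x y, x ≠ y → LA p A x y)
    (lct : ∀ x y, x ≠ y → ∃ f s, LC p A x y f s ∧ LT p A x y f) {x y : Ω} (hxy : x ≠ y)
    (lv : LV p A x y) (F4 : Fact4 (Fl A x y)) :
    ∀ a ∈ Nm (Fl A x y), ∀ b ∈ Nm (Fl A x y), ∀ c ∈ Nm (Fl A x y), a * a ∈ Kl A x y →
    b * b ∈ Kl A x y → a ∉ Kl A x y → b ∉ Kl A x y → a * b ∉ Kl A x y → Commute a b →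
    Commute a c → Commute b c → c * c ∈ Kl A x y := by
  intro a aN b bN c cN aa bb aK bK abK ab ac bc
  have l := la x y hxy
  obtain ⟨f, s, -, lt⟩ := lct x y hxy
  have baK : b * a ∉ Kl A x y := by rw [← ab.eq]; exact abK
  have abab : a * b * (a * b) ∈ Kl A x y := by
    have : a * b * (a * b) = (a * a) * (b * b) := by
      calc a * b * (a * b) = a * (b * a) * b := by group
        _ = a * (a * b) * b := by rw [ab.eq]
        _ = _ := by group
    rw [this]; exact mul_mem aa bb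
  have abaK : a * b * a ∉ Kl A x y := by
    intro hh
    have : b = (a * a)⁻¹ * (a * b * a) := by
      calc b = (a * a)⁻¹ * (a * (a * b)) := by group
        _ = (a * a)⁻¹ * (a * (b * a)) := by rw [ab.eq]
        _ = _ := by group
    exact bK (this ▸ mul_mem (inv_mem aa) hh)
  have fa : (∃ z ∈ Ln A x y, a • z = z) → c * c ∈ Kl A x y := fun ⟨z, hz, e⟩ =>
    fixed h l0 la lct hxy cN aN bN aa bb aK bK abK ab ac bc hz e
  have fb : (∃ z ∈ Ln A x y, b • z = z) → c * c ∈ Kl A x y := fun ⟨z, hz, e⟩ =>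
    fixed h l0 la lct hxy cN bN aN bb aa bK aK baK ab.symm bc ac hz e
  have fab : (∃ z ∈ Ln A x y, (a * b) • z = z) → c * c ∈ Kl A x y := fun ⟨z, hz, e⟩ =>
    fixed h l0 la lct hxy cN (mul_mem aN bN) aN abab aa abK aK abaK
      ((Commute.refl a).mul_left ab.symm) (ac.mul_left bc) ac hz e
  have pa := lv.par a aN aa aK
  have pb := lv.par b bN bb bK
  have pab := lv.par _ (mul_mem aN bN) abab abK
  have hi := lt.idx a aN b bN
  by_cases ia : a ∈ Kl A x y ⊔ Fl A x y
  · by_cases ib : b ∈ Kl A x y ⊔ Fl A x y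
    · obtain ⟨k1, hk1, a', ha', rfl⟩ := l.dec a ia
      obtain ⟨k2, hk2, b', hb', rfl⟩ := l.dec b ib
      have ic : c * c ∈ Kl A x y ⊔ Fl A x y := by
        by_cases ic : c ∈ Kl A x y ⊔ Fl A x y
        · exact mul_mem ic ic
        · exact lt.idx c cN c cN ic ic
      obtain ⟨k, hk, m, hm, e⟩ := l.dec _ ic
      have a2 := sq_part l.ctr hk1 ha' aa
      have b2 := sq_part l.ctr hk2 hb' bb
      have c1 : Commute a' (k2 * b') := comm_part l.ctr bN hk1 ha' ab
      have c2 : Commute b' a' := comm_part l.ctr (le_normalizer ha') hk2 hb' c1.symm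
      have := inner F4 l.ctr ha' hb' a2 b2 (fun e => aK (by rw [e, mul_one]; exact hk1))
        (fun e => bK (by rw [e, mul_one]; exact hk2)) ?_ c2.symm cN
        (comm_part l.ctr cN hk1 ha' ac) (comm_part l.ctr cN hk2 hb' bc) hk hm e
      · rw [e, this, mul_one]; exact hk
      · rintro rfl
        apply abK
        have : k1 * a' * (k2 * a') = k1 * k2 := by
          calc k1 * a' * (k2 * a') = k1 * (a' * k2) * a' := by group
            _ = k1 * (k2 * a') * a' := by rw [(ctL hk2 ha').eq]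
            _ = k1 * k2 * (a' * a') := by group
            _ = _ := by rw [a2, mul_one]
        rw [this]; exact mul_mem hk1 hk2
    · by_cases p1 : p % 4 = 1
      · exact fa ((pa.mpr p1).mp ia)
      · apply fb; by_contra hn; exact p1 (pb.mp (iff_of_false ib hn))
  · by_cases p1 : p % 4 = 1
    · by_cases ib : b ∈ Kl A x y ⊔ Fl A x y
      · exact fb ((pb.mpr p1).mp ib)
      · exact fab ((pab.mpr p1).mp (hi ia ib))
    · apply fa; by_contra hn; exact p1 (pa.mp (iff_of_false ia hn))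

theorem sqs [Finite G] (h : St p A) (l0 : L0 p A) {x y : Ω} (hxy : x ≠ y) (l : LA p A x y)
    {f s : G} (lc : LC p A x y f s) (lt : LT p A x y f) (lv : LV p A x y) :
    p % 4 = 3 → ∀ t ∈ Hs G x y, t * t = 1 → Ex t (A x) (-1) → ∀ s ∈ Fl A x y, orderOf s = 2 →
    ∃ u ∈ Fl A x y ⊔ zpowers t, u * u = s := by
  intro p3 t tH tt te s1 hs1 o1
  have ep := l0.mc.ep
  have tN := l.hN tH
  have ti : t⁻¹ = t := inv_eq_of_mul_eq_one_right tt
  have tK : t ∉ Kl A x y := by
    intro hk
    obtain ⟨a, ha, a1⟩ := exists_ne_one h x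
    refine a1 (sq_ne h l0.mc.p2 ha ?_)
    have e1 := te a ha
    rw [← (ctL hk (mem_sup_left ha : a ∈ Fl A x y)).eq, mul_inv_cancel_right, zpow_neg_one] at e1
    exact mul_eq_one_iff_eq_inv.mpr e1
  have ss : s * s = 1 := by rw [← pow_two, ← lc.so, pow_orderOf_eq_one]
  have si : s⁻¹ = s := inv_eq_of_mul_eq_one_right ss
  have st : Commute s t := by
    have h1 := lt.inv s lc.sx lc.sy t tH
    have h2 : s * t * s⁻¹ * t ∈ Fl A x y := by
      have : s * t * s⁻¹ * t = s * (t * s⁻¹ * t⁻¹) := by rw [ti]; group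
      rw [this]; exact mul_mem lc.sL (nmL tN (inv_mem lc.sL))
    have h3 := l.ctr _ h2 h1
    calc s * t = (s * t * s⁻¹ * t) * (t⁻¹ * s) := by group
      _ = t * s := by rw [h3, ti, one_mul]
  have odd : ∀ g ∈ Fl A x y, g ∈ Hs G x y → g * g = 1 → g = 1 := by
    intro g gL gH gg
    have d1 : orderOf g ∣ orderOf f := orderOf_dvd_of_mem_zpowers (lc.TL g gL gH)
    have d2 : orderOf g ∣ 2 := orderOf_dvd_of_pow_eq_one (by rw [pow_two, gg])
    rcases (Nat.dvd_prime Nat.prime_two).mp d2 with h1 | h1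
    · exact orderOf_eq_one_iff.mp h1
    · rw [h1] at d1; have := lc.fo; omega
  have noW : ∀ g ∈ Fl A x y, g * g = 1 → Commute g t → Commute g s → g = 1 ∨ g = s := by
    intro g gL gg gt gs
    have gN : g ∈ Nm (Fl A x y) := le_normalizer gL
    have pt : ∀ z ∈ Ln A x y, t • z = z → g • z = x ∨ g • z = y := by
      intro z hz tz
      by_contra hn
      push Not at hn
      refine tK (l.three t x l.mx y l.my _ ((ep.nrm x y hxy g).mp gN z hz) hxy (Ne.symm hn.2)
        (Ne.symm hn.1) tH.1 tH.2 ?_)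
      rw [← mul_smul, ← gt.eq, mul_smul, tz]
    have ne : g • x ≠ g • y := fun e => hxy (smul_left_cancel g e)
    rcases pt x l.mx tH.1 with h1 | h1
    · rcases pt y l.my tH.2 with h2 | h2
      · exact absurd (h1.trans h2.symm) ne
      · exact Or.inl (odd g gL ⟨h1, h2⟩ gg)
    · rcases pt y l.my tH.2 with h2 | h2
      · right
        have : g * s = 1 := by
          refine odd _ (mul_mem gL lc.sL) ⟨?_, ?_⟩ ?_
          · show (g * s) • x = x
            rw [mul_smul, lc.sx, h2]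
          · show (g * s) • y = y
            rw [mul_smul, lc.sy, h1]
          · calc g * s * (g * s) = g * (s * g) * s := by group
              _ = g * (g * s) * s := by rw [gs.eq]
              _ = (g * g) * (s * s) := by group
              _ = 1 := by rw [gg, ss, one_mul]
        rw [← si]; exact eq_inv_of_mul_eq_one_left this
      · exact absurd (h1.trans h2.symm) ne
  obtain ⟨w, wL, wo, ws, sw⟩ := lv.four s lc.sL lc.so
  have ww : w * w = 1 := by rw [← pow_two, ← wo, pow_orderOf_eq_one]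
  have wi : w⁻¹ = w := inv_eq_of_mul_eq_one_right ww
  have w1 : w ≠ 1 := by rintro rfl; simp at wo
  have nwt : ¬ Commute w t := fun c => by
    rcases noW w wL ww c sw.symm with e | e
    · exact w1 e
    · exact ws e
  set u := t * w with hu
  have uX : u ∈ Fl A x y ⊔ zpowers t := mul_mem (mem_sup_right (mem_zpowers t)) (mem_sup_left wL)
  have yL : u ^ 2 ∈ Fl A x y := by
    have : u ^ 2 = (t * w * t⁻¹) * w := by rw [hu, ti, pow_two]; group
    rw [this]; exact mul_mem (nmL tN wL) wL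
  have n0 : orderOf (u ^ 2) ≠ 0 := (orderOf_pos _).ne'
  rcases Nat.even_or_odd (orderOf (u ^ 2)) with ⟨k, hk⟩ | ⟨j, hj⟩
  · have o2 : orderOf ((u ^ 2) ^ (orderOf (u ^ 2) / 2)) = 2 :=
      orderOf_pow_orderOf_div n0 ⟨k, by omega⟩
    obtain ⟨g, gL, e⟩ := lv.cls _ (pow_mem yL _) s1 hs1 o2 o1
    refine ⟨g * u ^ (orderOf (u ^ 2) / 2) * g⁻¹,
      mul_mem (mul_mem (mem_sup_left gL) (pow_mem uX _)) (inv_mem (mem_sup_left gL)), ?_⟩
    rw [← e, ← pow_mul, two_mul, pow_add]; group
  · exfalso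
    set z := u ^ (2 * j + 1) with hz
    have zz : z * z = 1 := by
      rw [hz, ← pow_add, ← two_mul, pow_mul, ← hj, pow_orderOf_eq_one]
    have zi : z⁻¹ = z := inv_eq_of_mul_eq_one_right zz
    have ui : u⁻¹ = w * t := by rw [hu, mul_inv_rev, wi, ti]
    have cz : ∀ r : G, r * u * r⁻¹ = u⁻¹ → Commute r z := by
      intro r hr
      have : r * z * r⁻¹ = z := by rw [hz, ← conj_pow, hr, inv_pow, ← hz, zi]
      calc r * z = (r * z * r⁻¹) * r := by group
        _ = z * r := by rw [this]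
    have tz : Commute t z := cz t (by rw [ui, hu, ti, ← mul_assoc, tt, one_mul])
    have wz : Commute w z := cz w (by rw [ui, hu, wi, mul_assoc, mul_assoc, ww, mul_one])
    have sz : Commute s z := (st.mul_right sw).pow_right _
    have gL : t * z ∈ Fl A x y := by
      have : t * z = w * (u ^ 2) ^ j := by
        rw [hz, pow_succ', ← pow_mul, ← mul_assoc]
        congr 1
        rw [hu, ← mul_assoc, tt, one_mul]
      rw [this]; exact mul_mem wL (pow_mem yL _)
    have gg : t * z * (t * z) = 1 := by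
      calc t * z * (t * z) = t * (z * t) * z := by group
        _ = t * (t * z) * z := by rw [tz.eq]
        _ = (t * t) * (z * z) := by group
        _ = 1 := by rw [tt, zz, one_mul]
    rcases noW _ gL gg ((Commute.refl t).mul_left tz.symm) (st.symm.mul_left sz.symm) with e | e
    · have : t = z := by rw [← zi]; exact eq_inv_of_mul_eq_one_left e
      exact nwt (this ▸ wz)
    · have : t = s * z := by rw [← e, mul_assoc, zz, mul_one]
      exact nwt (this ▸ sw.symm.mul_right wz)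

end

theorem lw_of (F : ∀ (M : Type) [Group M] (p : ℕ), p.Prime → p ≠ 2 → IsL2 M p → Fact4 M) :
    LWStmt := by
  intro G _ _ Ω _ _ p A h l0 la lct lv x y hxy
  obtain ⟨f, s, lc, lt⟩ := lct x y hxy
  exact ⟨v4 h l0 la lct hxy (lv x y hxy) (F _ p h.pp l0.mc.p2 (l0.ty.2 x y hxy).1),
    sqs h l0 hxy (la x y hxy) lc lt (lv x y hxy)⟩

end Cfsg.Agent.H20.CyLw
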