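import Mathlib
import Cfsg.Agent.H50.E72Defs

/-! The root elements and the torus elements of `E₇` on the module of dimension 56. -/

set_option autoImplicit false
set_option maxRecDepth 100000

namespace Cfsg.Agent.H20.E72R

open Equiv Cfsg.Lie H37 H40 H34 H29 Module Cfsg.Agent.H50.E72 Matrix

variable {F : Type} [Field F]

theorem xg_rel {D : ChevalleyDatum} (C : Cert D) {n : ℕ} {H E : ℕ → List (Tm0 n)} {r : ℕ}
    (hr : r < D.nroots) (h : chkR D H E r = true) (t : F) :
    (t • evT0 F (E r)) * (t • evT0 F (E r)) = 0 ∧ ∀ v, (1 + t • evT0 F (E r)) * rhoT D H E F v =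
      rhoT D H E F ((C.xg F r t).1.1 *ᵥ v) * (1 + t • evT0 F (E r)) := by
  simp only [chkR, List.all_eq_true, List.mem_range, Bool.and_eq_true] at h
  have h0 := eqT_sound h.1.1 t
  simp only [evT_mulT, evT_upT, evT_nil, Int.cast_one, one_mul, pow_one] at h0
  refine ⟨h0, ?_⟩
  have key : (C.xg F r t, (⟨1 + t • evT0 F (E r), 1 - t • evT0 F (E r),
      by rw [mul_sub, mul_one, add_mul, h0]; simp,
      by rw [sub_mul, one_mul, mul_add, h0]; simp⟩ : GL (Fin n) F)) ∈ relG (rhoT D H E F) := by
    refine mem_relG (fun i hi => ?_) fun s hs => ?_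
    · have := eqT_sound (h.1.2 i hi) t
      simp only [evT_mulT, evT_upT, evT_append, Int.cast_one, one_mul, pow_one, pow_zero,
        one_smul] at this
      rw [Cert.coe_xg, C.V.coe_xG, x_hV hr t hi, map_sub, map_smul, rhoT_hV hi, rhoT_eV hr]
      simp only [add_mul, mul_add, sub_mul, one_mul, mul_one, this]
      simp only [mul_smul, smul_mul_assoc (D.cartan i r : F), h0]
      simp [sub_eq_add_neg, add_assoc]
    · have := eqT_sound (h.2 s hs) t
      simp only [evT_mulT, evT_upT, evT_append, Int.cast_one, one_mul, pow_one, pow_zero,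
        one_smul] at this
      rw [Cert.coe_xg, C.V.coe_xG, rhoT_x_eV C.V.basic hr hs, rhoT_eV hs]
      simp only [add_mul, mul_add, one_mul, mul_one, this]
  exact key

theorem tg_rel {D : ChevalleyDatum} (C : Cert D) {n : ℕ} {H E : ℕ → List (Tm0 n)}
    (μ : Fin n → ℕ → ℤ) (h1 : ∀ i < D.rank, ∀ e ∈ H i, e.1 = e.2.1)
    (h2 : ∀ s < D.nroots, ∀ e ∈ E s, ∀ i < D.rank, μ e.1 i = D.cartan i s + μ e.2.1 i)
    (c : Fin D.rank → Fˣ) : ∀ v, (diagonal fun a => ((evw c fun i => μ a i : Fˣ) : F)) *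
      rhoT D H E F v = rhoT D H E F ((C.tg F c).1.1 *ᵥ v) *
        diagonal fun a => ((evw c fun i => μ a i : Fˣ) : F) := by
  let d : Fin n → Fˣ := fun a => evw c fun i => μ a i
  have key : (C.tg F c, (⟨diagonal fun a => d a, diagonal fun a => (d a)⁻¹, by simp, by simp⟩ :
      GL (Fin n) F)) ∈ relG (rhoT D H E F) := by
    refine mem_relG (fun i hi => ?_) fun s hs => ?_
    · rw [show (C.tg F c).1.1 = D.charDiag F (torChar D c) from rfl, charDiag_hV, rhoT_hV hi,
        diag_mul_evT0 _ 1 _ fun e he => by rw [h1 i hi e he, one_mul], one_smul]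
    · rw [show (C.tg F c).1.1 = D.charDiag F (torChar D c) from rfl, charDiag_eV, map_smul,
        rhoT_eV hs]
      refine diag_mul_evT0 _ _ _ fun e he => ?_
      rw [torChar_eq_evw, ← Units.val_mul, ← evw_add]
      exact congrArg (fun v => (evw c v).1) (funext fun i => h2 s hs e he i i.2)
  exact key

theorem mul_J (M : M56 F) (a b : Fin 56) : (M * J56 F) a b = M a (Fin.rev b) := by
  rw [Matrix.mul_apply, Finset.sum_eq_single (Fin.rev b)]
  · simp [J56]
  · intro c _ hc
    have : b ≠ Fin.rev c := fun e => hc (by rw [e, Fin.rev_rev])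
    simp [J56, this]
  · simp

theorem J_mul (M : M56 F) (a b : Fin 56) : (J56 F * M) a b = M (Fin.rev a) b := by
  rw [Matrix.mul_apply, Finset.sum_eq_single (Fin.rev a)]
  · simp [J56]
  · intro c _ hc
    simp [J56, hc]
  · simp

/-- The positions of the entries. -/
def posL (L : List (Tm0 56)) : List (Fin 56 × Fin 56) := L.map fun e => (e.1, e.2.1)

theorem evT0_apply [CharP F 2] (L : List (Tm0 56)) (h : ∀ e ∈ L, e.2.2 = 1 ∨ e.2.2 = -1)
    (a b : Fin 56) : evT0 F L a b = ((posL L).count (a, b) : F) := by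
  induction L with
  | nil => simp [posL]
  | cons e L ih =>
    have h1 : (e.2.2 : F) = 1 := by
      rcases h e (by simp) with h1 | h1
      · simp [h1]
      · simp [h1, CharTwo.neg_eq]
    rw [evT0_cons, Matrix.add_apply, ih fun e he => h e (by simp [he]), h1]
    simp only [posL, List.map_cons, List.count_cons, single_apply, beq_iff_eq, Prod.mk.injEq,
      Nat.cast_add]
    rw [add_comm]
    congr 1
    split_ifs <;> simp

theorem sym_E : ∀ r ∈ sr14, (∀ e ∈ E56 r, e.2.2 = 1 ∨ e.2.2 = -1) ∧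
    (posL (E56 r)).Perm ((posL (E56 r)).map fun p => (Fin.rev p.2, Fin.rev p.1)) := by
  decide +kernel

theorem tr_E [CharP F 2] {r : ℕ} (hr : r ∈ sr14) :
    (evT0 F (E56 r))ᵀ * J56 F = J56 F * evT0 F (E56 r) := by
  ext a b
  obtain ⟨h1, h2⟩ := sym_E r hr
  rw [mul_J, J_mul, transpose_apply, evT0_apply _ h1, evT0_apply _ h1, h2.count_eq]
  have hi : Function.Injective fun p : Fin 56 × Fin 56 => (Fin.rev p.2, Fin.rev p.1) :=
    fun p q e => by
      simp only [Prod.mk.injEq, Fin.rev_inj] at e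
      exact Prod.ext e.2 e.1
  rw [← List.count_map_of_injective (posL (E56 r)) _ hi (Fin.rev a, b), Fin.rev_rev]

theorem relX (h1 : Chk1Stmt) (h2 : Chk2Stmt) : RelXStmt := by
  intro F _ _ r hr t
  have hc : chkR chevE7 H56 E56 r = true := by
    rw [← List.take_append_drop 7 sr14, List.mem_append] at hr
    exact hr.elim (h1 r) (h2 r)
  have hlt : r < chevE7.nroots := (by decide +kernel : ∀ r ∈ sr14, r < chevE7.nroots) r hr
  obtain ⟨h0, h3⟩ := xg_rel C7 hlt hc t
  refine ⟨h3, ?_⟩
  have h4 : (t • evT0 F (E56 r))ᵀ * J56 F = J56 F * (t • evT0 F (E56 r)) := by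
    rw [transpose_smul, Matrix.smul_mul, Matrix.mul_smul, tr_E hr]
  have h5 : ∀ M : M56 F, M + M = 0 := fun M => by
    ext a b
    exact CharTwo.add_self_eq_zero _
  generalize t • evT0 F (E56 r) = N at h0 h4
  rw [transpose_add, transpose_one, add_mul, one_mul, h4, add_mul, mul_assoc, mul_add, mul_add,
    h0, mul_one, mul_one, add_zero, add_assoc, h5, add_zero]

theorem wt_rev : ∀ a : Fin 56, ∀ i < 7, gt wtT (Fin.rev a) i = -gt wtT a i := by decide +kernel

theorem relT : RelTStmt := by
  intro F _ c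
  refine ⟨tg_rel C7 (fun a i => gt wtT a i) (by decide +kernel) (by decide +kernel) c, ?_⟩
  ext a b
  rw [diagonal_transpose, mul_diagonal, diagonal_mul]
  by_cases h : b = Fin.rev a
  · have h1 : evw c (wt a) * evw c (wt b) = 1 := by
      rw [← evw_add, show wt a + wt b = 0 from funext fun i => by
        rw [Pi.add_apply, wt, wt, h, wt_rev a i i.2, add_neg_cancel, Pi.zero_apply]]
      simp [evw]
    simp only [J56, of_apply, if_pos h, mul_one]
    rw [← Units.val_mul, h1, Units.val_one]
  · simp [J56, h]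

end Cfsg.Agent.H20.E72R
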