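import Mathlib
import Cfsg.Agent.H7.PBasic
import Cfsg.Agent.H9.Taussky

/-!
Small lemmas on `3`-groups with an element whose centralizer has order nine.
-/

set_option autoImplicit false

namespace Cfsg.Agent.H20.FX

open Subgroup

universe u

/-- Fibres of `a ↦ a⁻¹ s a s⁻¹` are cosets of the centralizer. -/
theorem card_le_delta {X : Type*} [Group X] [Finite X] (s : X) (B : Subgroup X) (A Y : Set X)
    (hA : A ⊆ B) (hY : ∀ a ∈ A, a⁻¹ * s * a * s⁻¹ ∈ Y) :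
    A.ncard ≤ Nat.card ↥(B ⊓ centralizer ({s} : Set X)) * Y.ncard := by
  classical
  have hr : ∀ y : X, ∃ r : X, (∃ a ∈ A, a⁻¹ * s * a * s⁻¹ = y) →
      r ∈ A ∧ r⁻¹ * s * r * s⁻¹ = y := by
    intro y
    by_cases h : ∃ a ∈ A, a⁻¹ * s * a * s⁻¹ = y
    · obtain ⟨a, ha, hay⟩ := h
      exact ⟨a, fun _ => ⟨ha, hay⟩⟩
    · exact ⟨1, fun h' => absurd h' h⟩
  choose r hr using hr
  let F : A → ↥(B ⊓ centralizer ({s} : Set X)) × Y := fun a =>
    (⟨a.1 * (r (a.1⁻¹ * s * a.1 * s⁻¹))⁻¹, by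
      obtain ⟨h1, h2⟩ := hr _ ⟨a.1, a.2, rfl⟩
      refine ⟨B.mul_mem (hA a.2) (B.inv_mem (hA h1)), ?_⟩
      refine mem_centralizer_singleton_iff.2 ?_
      set b := r (a.1⁻¹ * s * a.1 * s⁻¹)
      have h3 : b⁻¹ * s * b = a.1⁻¹ * s * a.1 := mul_right_cancel h2
      calc a.1 * b⁻¹ * s = a.1 * (b⁻¹ * s * b) * b⁻¹ := by group
        _ = s * (a.1 * b⁻¹) := by rw [h3]; group⟩,
     ⟨a.1⁻¹ * s * a.1 * s⁻¹, hY _ a.2⟩)
  have hF : Function.Injective F := by
    intro a b hab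
    have h1 : a.1 * (r (a.1⁻¹ * s * a.1 * s⁻¹))⁻¹ = b.1 * (r (b.1⁻¹ * s * b.1 * s⁻¹))⁻¹ :=
      congrArg (fun z => (z.1 : X)) hab
    have h2 : a.1⁻¹ * s * a.1 * s⁻¹ = b.1⁻¹ * s * b.1 * s⁻¹ := congrArg (fun z => (z.2 : X)) hab
    rw [h2] at h1
    exact Subtype.ext (mul_right_cancel h1)
  have := Nat.card_le_card_of_injective F hF
  rwa [Nat.card_prod, Nat.card_coe_set_eq, Nat.card_coe_set_eq] at this

theorem ncard_coe {X : Type*} [Group X] (B : Subgroup X) : (B : Set X).ncard = Nat.card B :=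
  (Nat.card_coe_set_eq _).symm

/-- Centralizers shrink in quotients. -/
theorem card_cent_map_le {X H : Type*} [Group X] [Group H] [Finite X] (f : X →* H)
    (hf : Function.Surjective f) (s : X) :
    Nat.card (centralizer ({f s} : Set H)) ≤ Nat.card (centralizer ({s} : Set X)) := by
  have h1 := card_le_delta s ⊤ ((centralizer ({f s} : Set H)).comap f) f.ker
    (fun _ _ => mem_top _) (by
      intro a ha
      have ha' : f a * f s = f s * f a := mem_centralizer_singleton_iff.1 ha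
      show f (a⁻¹ * s * a * s⁻¹) = 1
      simp only [map_mul, map_inv]
      calc (f a)⁻¹ * f s * f a * (f s)⁻¹ = (f a)⁻¹ * (f s * f a) * (f s)⁻¹ := by group
        _ = 1 := by rw [← ha']; group)
  rw [ncard_coe, ncard_coe, top_inf_eq] at h1
  have h2 : Nat.card ((centralizer ({f s} : Set H)).comap f) =
      Nat.card (centralizer ({f s} : Set H)) * Nat.card f.ker := by
    have hk : f.ker ≤ (centralizer ({f s} : Set H)).comap f := ker_le_comap _ _
    have h3 := relIndex_ker ((centralizer ({f s} : Set H)).comap f) f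
    rw [map_comap_eq_self_of_surjective hf] at h3
    have h4 := (f.ker.subgroupOf ((centralizer ({f s} : Set H)).comap f)).card_mul_index
    rw [Nat.card_congr (subgroupOfEquivOfLe hk).toEquiv] at h4
    rw [← h4, ← h3, mul_comm]
    rfl
  rw [h2] at h1
  exact Nat.le_of_mul_le_mul_right h1 Nat.card_pos

theorem card_cent_sub {G : Type*} [Group G] (H K : Subgroup G) (hK : K ≤ H) (x : G) (hx : x ∈ H) :
    Nat.card ↥(K.subgroupOf H ⊓ centralizer ({(⟨x, hx⟩ : H)} : Set H)) =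
      Nat.card ↥(K ⊓ centralizer ({x} : Set G)) := by
  have h1 : K.subgroupOf H ⊓ centralizer ({(⟨x, hx⟩ : H)} : Set H) =
      (K ⊓ centralizer ({x} : Set G)).subgroupOf H := by
    ext y
    simp only [mem_inf, mem_subgroupOf, mem_centralizer_singleton_iff, Subtype.ext_iff, coe_mul]
  rw [h1]
  exact Nat.card_congr (subgroupOfEquivOfLe (inf_le_left.trans hK)).toEquiv

/-- The commutator calculation: no central extension of this shape. -/
theorem core3 {X : Type*} [Group X] [Finite X] (Z B : Subgroup X) [B.Normal] (s : X)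
    (hZc : Z ≤ center X) (hZ : Nat.card Z = 3) (hZB : Z ≤ B) (hB : Nat.card B = 81)
    (hi : B.index = 3) (hcomm : ∀ a ∈ B, ∀ b ∈ B, a⁻¹ * b⁻¹ * a * b ∈ Z)
    (hcube : ∀ a ∈ B, a ^ 3 ∈ Z) (hs : Nat.card (centralizer ({s} : Set X)) ≤ 9) : False := by
  classical
  have hBn : B.Normal := inferInstance
  have hcen : ∀ z ∈ Z, ∀ g : X, g * z = z * g := fun z hz g => mem_center_iff.1 (hZc hz) g
  have hz3 : ∀ z ∈ Z, z ^ 3 = 1 := by
    intro z hz
    have := pow_card_eq_one' (x := (⟨z, hz⟩ : Z))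
    rw [hZ] at this
    exact congrArg Subtype.val this
  have hδB : ∀ a ∈ B, a⁻¹ * s * a * s⁻¹ ∈ B := by
    intro a ha
    have := B.mul_mem (B.inv_mem ha) (hBn.conj_mem a ha s)
    simpa only [mul_assoc] using this
  -- `s ∉ B`
  have hsB : s ∉ B := by
    intro hsB
    have h1 := card_le_delta s B B Z (fun _ h => h) (by
      intro a ha
      have := hcomm a ha s⁻¹ (B.inv_mem hsB)
      rw [inv_inv] at this
      exact this)
    rw [ncard_coe, ncard_coe, hB, hZ] at h1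
    have h2 : Nat.card ↥(B ⊓ centralizer ({s} : Set X)) ≤ 9 :=
      (card_le_of_le inf_le_right).trans hs
    omega
  -- `C_B(s) = Z`
  have hCB : Nat.card ↥(B ⊓ centralizer ({s} : Set X)) ≤ 3 := by
    have h1 : B.relIndex (centralizer ({s} : Set X)) ∣ 3 := hi ▸ relIndex_dvd_index_of_normal B _
    have h2 : B.relIndex (centralizer ({s} : Set X)) ≠ 1 := by
      intro h
      exact hsB (relIndex_eq_one.1 h (mem_centralizer_singleton_iff.2 rfl))
    have h3 : B.relIndex (centralizer ({s} : Set X)) = 3 :=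
      ((Nat.dvd_prime Nat.prime_three).1 h1).resolve_left h2
    have h4 := (B.subgroupOf (centralizer ({s} : Set X))).card_mul_index
    have h5 : (B.subgroupOf (centralizer ({s} : Set X))).index = 3 := h3
    rw [h5, ← inf_subgroupOf_right,
      Nat.card_congr (subgroupOfEquivOfLe (inf_le_right : B ⊓ centralizer ({s} : Set X) ≤ _)).toEquiv]
      at h4
    omega
  have hZle : Z ≤ B ⊓ centralizer ({s} : Set X) :=
    le_inf hZB (fun z hz => mem_centralizer_singleton_iff.2 (hcen z hz s).symm)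
  have hZeq : Z = B ⊓ centralizer ({s} : Set X) :=
    eq_of_le_of_card_ge hZle (by rw [hZ]; exact hCB)
  have hs3 : s ^ 3 ∈ Z := by
    rw [hZeq]
    refine ⟨?_, mem_centralizer_singleton_iff.2 (by group)⟩
    have := B.pow_index_mem s
    rwa [hi] at this
  -- an element with non-central second commutator
  obtain ⟨s1, h1B, h1⟩ : ∃ s1 ∈ B,
      (s1⁻¹ * s * s1 * s⁻¹)⁻¹ * s * (s1⁻¹ * s * s1 * s⁻¹) * s⁻¹ ∉ Z := by
    by_contra hne
    push Not at hne
    have e1 := card_le_delta s B B {b : X | b ∈ B ∧ b⁻¹ * s * b * s⁻¹ ∈ Z} (fun _ h => h)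
      (fun a ha => ⟨hδB a ha, hne a ha⟩)
    have e2 := card_le_delta s B {b : X | b ∈ B ∧ b⁻¹ * s * b * s⁻¹ ∈ Z} Z (fun _ h => h.1)
      (fun a ha => ha.2)
    rw [ncard_coe, hB] at e1
    rw [ncard_coe, hZ] at e2
    have e3 := e2.trans (Nat.mul_le_mul_right 3 hCB)
    have e4 := e1.trans (Nat.mul_le_mul hCB e3)
    omega
  obtain ⟨s2, hs2⟩ : ∃ s2, s2 = s1⁻¹ * s * s1 * s⁻¹ := ⟨_, rfl⟩
  rw [← hs2] at h1
  obtain ⟨s3, hs3'⟩ : ∃ s3, s3 = s2⁻¹ * s * s2 * s⁻¹ := ⟨_, rfl⟩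
  rw [← hs3'] at h1
  obtain ⟨s4, hs4⟩ : ∃ s4, s4 = s3⁻¹ * s * s3 * s⁻¹ := ⟨_, rfl⟩
  have h2B : s2 ∈ B := hs2 ▸ hδB s1 h1B
  have h3B : s3 ∈ B := hs3' ▸ hδB s2 h2B
  have h4B : s4 ∈ B := hs4 ▸ hδB s3 h3B
  have c1 : s * s1 * s⁻¹ = s1 * s2 := by rw [hs2]; group
  have c2 : s * s2 * s⁻¹ = s2 * s3 := by rw [hs3']; group
  have c3 : s * s3 * s⁻¹ = s3 * s4 := by rw [hs4]; group
  -- the identity for the third conjugate
  have hid : s2 * (s2 * s3) * (s2 * s3 * (s3 * s4)) = 1 := by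
    have e1 : s ^ 3 * s1 * (s ^ 3)⁻¹ = s1 := by rw [← hcen _ hs3 s1]; group
    have e2 : s ^ 3 * s1 * (s ^ 3)⁻¹ = s * (s * (s * s1 * s⁻¹) * s⁻¹) * s⁻¹ := by
      simp only [pow_succ, pow_zero, one_mul, mul_assoc, mul_inv_rev]
    have e3 : s * (s1 * s2) * s⁻¹ = s1 * s2 * (s2 * s3) := by
      calc s * (s1 * s2) * s⁻¹ = (s * s1 * s⁻¹) * (s * s2 * s⁻¹) := by group
        _ = _ := by rw [c1, c2]
    have e4 : s * (s1 * s2 * (s2 * s3)) * s⁻¹ =
        s1 * s2 * (s2 * s3) * (s2 * s3 * (s3 * s4)) := by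
      calc s * (s1 * s2 * (s2 * s3)) * s⁻¹ =
          (s * s1 * s⁻¹) * (s * s2 * s⁻¹) * ((s * s2 * s⁻¹) * (s * s3 * s⁻¹)) := by group
        _ = _ := by rw [c1, c2, c3]
    rw [e2, c1, e3, e4] at e1
    have e5 : s1 * (s2 * (s2 * s3) * (s2 * s3 * (s3 * s4))) = s1 * 1 := by
      rw [mul_one]
      exact (by group : _ = s1 * s2 * (s2 * s3) * (s2 * s3 * (s3 * s4))).trans e1
    exact mul_left_cancel e5
  -- commutation in `B`
  have hsw : ∀ a ∈ B, ∀ b ∈ B, a * b = b * a * (a⁻¹ * b⁻¹ * a * b) := fun a _ b _ => by group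
  have hcu : ∀ a ∈ B, ∀ b ∈ B, (a * b) ^ 3 = a ^ 3 * b ^ 3 := by
    intro a ha b hb
    obtain ⟨w, hw⟩ : ∃ w, w = b⁻¹ * a⁻¹ * b * a := ⟨_, rfl⟩
    have hwZ : w ∈ Z := hw ▸ hcomm b hb a ha
    have e1 : b * a = a * b * w := by rw [hw]; group
    have ea : ∀ t, w * (a * t) = a * (w * t) := fun t => by
      rw [← mul_assoc, ← hcen w hwZ a, mul_assoc]
    have eb : ∀ t, w * (b * t) = b * (w * t) := fun t => by
      rw [← mul_assoc, ← hcen w hwZ b, mul_assoc]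
    have e2 : ∀ t, b * (a * t) = a * (b * (w * t)) := fun t => by
      rw [← mul_assoc, e1]; simp only [mul_assoc]
    have eb' : w * b = b * w := (hcen w hwZ b).symm
    calc (a * b) ^ 3 = a ^ 3 * b ^ 3 * w ^ 3 := by
          simp only [pow_succ, pow_zero, one_mul, mul_assoc, e2, ea, eb, eb']
      _ = a ^ 3 * b ^ 3 := by rw [hz3 w hwZ, mul_one]
  have hc0 : ∀ a ∈ B, ∀ b ∈ B, s * a * s⁻¹ = a * b → b ^ 3 = 1 := by
    intro a ha b hb h
    have e1 : (a * b) ^ 3 = a ^ 3 := by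
      rw [← h, conj_pow, hcen _ (hcube a ha) s]; group
    rw [hcu a ha b hb] at e1
    exact mul_eq_left.1 e1
  have q2 : s2 ^ 3 = 1 := hc0 s1 h1B s2 h2B c1
  have q3 : s3 ^ 3 = 1 := hc0 s2 h2B s3 h3B c2
  -- `s4` is central
  obtain ⟨w, hw⟩ : ∃ w, w = s3⁻¹ * s2⁻¹ * s3 * s2 := ⟨_, rfl⟩
  have hwZ : w ∈ Z := hw ▸ hcomm s3 h3B s2 h2B
  have ew : s3 * s2 = s2 * s3 * w := by rw [hw]; group
  have h4w : w * s4 = 1 := by
    have e1 : s2 * (s2 * s3) * (s2 * s3 * (s3 * s4)) = s2 ^ 3 * s3 ^ 3 * (w * s4) := by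
      calc s2 * (s2 * s3) * (s2 * s3 * (s3 * s4)) = s2 * s2 * (s3 * s2) * s3 * s3 * s4 := by group
        _ = s2 * s2 * s2 * s3 * (w * (s3 * s3)) * s4 := by rw [ew]; group
        _ = _ := by
          rw [← hcen w hwZ (s3 * s3)]; simp only [pow_succ, pow_zero, one_mul, mul_assoc]
    rw [e1, q2, q3, one_mul, one_mul] at hid
    exact hid
  have h4Z : s4 ∈ Z := by
    rw [eq_inv_of_mul_eq_one_right h4w]
    exact Z.inv_mem hwZ
  -- `s2` and `s3` commute
  have hw1 : w = 1 := by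
    obtain ⟨v, hv⟩ : ∃ v, v = s3⁻¹ * s1⁻¹ * s3 * s1 := ⟨_, rfl⟩
    have hvZ : v ∈ Z := hv ▸ hcomm s3 h3B s1 h1B
    have ev : s3 * s1 = s1 * s3 * v := by rw [hv]; group
    have e1 : s * (s3 * s1) * s⁻¹ = s3 * s4 * (s1 * s2) := by rw [← c3, ← c1]; group
    have e2 : s * (s1 * s3 * v) * s⁻¹ = s1 * s2 * (s3 * s4) * v := by
      rw [← c3, ← c1]
      calc s * (s1 * s3 * v) * s⁻¹ = s * s1 * s3 * (v * s⁻¹) := by group
        _ = _ := by rw [← hcen v hvZ s⁻¹]; group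
    have e3 : s3 * s4 * (s1 * s2) = s1 * s2 * (s3 * s4) * v * w := by
      calc s3 * s4 * (s1 * s2) = s3 * (s4 * (s1 * s2)) := by group
        _ = s3 * s1 * s2 * s4 := by rw [← hcen s4 h4Z (s1 * s2)]; group
        _ = s1 * s3 * (v * (s2 * s4)) := by rw [ev]; group
        _ = s1 * (s3 * s2) * s4 * v := by rw [← hcen v hvZ (s2 * s4)]; group
        _ = s1 * s2 * s3 * (w * (s4 * v)) := by rw [ew]; group
        _ = _ := by rw [← hcen w hwZ (s4 * v)]; group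
    rw [ev, e2, e3] at e1
    exact (mul_eq_left.1 e1.symm)
  rw [hw1, one_mul] at h4w
  apply h1
  rw [hZeq]
  refine ⟨h3B, mem_centralizer_singleton_iff.2 ?_⟩
  rw [h4w, mul_one] at c3
  exact (mul_inv_eq_iff_eq_mul.1 c3).symm

end Cfsg.Agent.H20.FX
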