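import Mathlib
import Cfsg.Agent.H20.FX2
import Cfsg.Agent.H9.FXDefs
import Cfsg.Agent.S2807

/-!
Sylow `3`-subgroups with an element whose centralizer has order nine.
-/

set_option autoImplicit false

namespace Cfsg.Agent.H20.FX

open Subgroup

universe u

/-- translations of the three blocks -/
def blockHom : Multiplicative (Fin 3 → ZMod 3) →* Equiv.Perm (Fin 3 × ZMod 3) :=
  MonoidHom.mk' (fun v => Equiv.prodCongrRight (fun i => Equiv.addRight (v.toAdd i))) (by
    intro a b
    ext ⟨i, t⟩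
    · simp
    · simp only [Equiv.prodCongrRight_apply, Equiv.coe_addRight, toAdd_mul, Pi.add_apply,
        Equiv.Perm.coe_mul, Function.comp_apply]
      ring)

theorem blockHom_inj : Function.Injective blockHom := by
  refine (injective_iff_map_eq_one _).2 fun v hv => ?_
  apply Multiplicative.toAdd.injective
  funext i
  have := congrArg (fun e : Equiv.Perm (Fin 3 × ZMod 3) => (e (i, 0)).2) hv
  simpa [blockHom] using this

theorem card_syl9 (T : Sylow 3 (Equiv.Perm (Fin 9))) :
    Nat.card (T : Subgroup (Equiv.Perm (Fin 9))) = 81 := by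
  rw [T.card_eq_multiplicity, Nat.card_perm, Nat.card_eq_fintype_card, Fintype.card_fin]
  have h : Nat.factorial 9 = 3 ^ 4 * 4480 := by decide
  rw [h, Nat.factorization_mul (by norm_num) (by norm_num), Finsupp.add_apply,
    Nat.prime_three.factorization_pow, Nat.factorization_eq_zero_of_not_dvd (by norm_num)]
  simp

theorem exists_e27 (T : Sylow 3 (Equiv.Perm (Fin 9))) :
    ∃ E : Subgroup (T : Subgroup (Equiv.Perm (Fin 9))), Nat.card E = 27 ∧
      (∀ a ∈ E, ∀ b ∈ E, a * b = b * a) ∧ ∀ a ∈ E, a ^ 3 = 1 := by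
  have hM : Nat.card (Multiplicative (Fin 3 → ZMod 3)) = 27 := by
    rw [Nat.card_eq_fintype_card]; simp
  let e : Fin 3 × ZMod 3 ≃ Fin 9 := Fintype.equivFinOfCardEq (by simp)
  let j0 : Multiplicative (Fin 3 → ZMod 3) →* Equiv.Perm (Fin 9) :=
    (Equiv.permCongrHom e).toMonoidHom.comp blockHom
  have hj0 : Function.Injective j0 := (Equiv.permCongrHom e).injective.comp blockHom_inj
  have hp : IsPGroup 3 j0.range :=
    (IsPGroup.of_card (n := 3) (by rw [hM]; norm_num)).of_surjective _ j0.rangeRestrict_surjective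
  obtain ⟨T', hT'⟩ := hp.exists_le_sylow
  let j : Multiplicative (Fin 3 → ZMod 3) →* (T : Subgroup (Equiv.Perm (Fin 9))) :=
    (Sylow.equiv T' T).toMonoidHom.comp
      (j0.codRestrict (T' : Subgroup (Equiv.Perm (Fin 9))) (fun v => hT' ⟨v, rfl⟩))
  have hj : Function.Injective j := by
    refine (Sylow.equiv T' T).injective.comp ?_
    intro a b hab
    exact hj0 (congrArg Subtype.val hab)
  refine ⟨j.range, ?_, ?_, ?_⟩
  · rw [← Nat.card_congr (MonoidHom.ofInjective hj).toEquiv, hM]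
  · rintro _ ⟨a, rfl⟩ _ ⟨b, rfl⟩
    rw [← map_mul, ← map_mul, mul_comm]
  · rintro _ ⟨a, rfl⟩
    rw [← map_pow]
    have : a ^ 3 = 1 := by
      apply Multiplicative.toAdd.injective
      funext i
      simp only [toAdd_pow, Pi.smul_apply, toAdd_one, Pi.zero_apply, nsmul_eq_mul]
      have h3 : ((3 : ℕ) : ZMod 3) = 0 := rfl
      rw [h3, zero_mul]
    rw [this, map_one]

/-- A `3`-group with a centralizer of order at most nine mapping onto `T` is `T`. -/
theorem inj_of_surj {T : Type*} [Group T] (hT : Nat.card T = 81) (E : Subgroup T)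
    (hE : Nat.card E = 27) (hEc : ∀ a ∈ E, ∀ b ∈ E, a * b = b * a) (hE3 : ∀ a ∈ E, a ^ 3 = 1) :
    ∀ (n : ℕ) (Q : Type u) [Group Q] [Finite Q], Nat.card Q = n → IsPGroup 3 Q → ∀ (s : Q),
      Nat.card (centralizer ({s} : Set Q)) ≤ 9 → ∀ f : Q →* T, Function.Surjective f →
      Function.Injective f := by
  intro n
  induction n using Nat.strong_induction_on with
  | _ n ih =>
  intro Q _ _ hn hQ s hs f hf
  by_contra hinj
  have hk : f.ker ≠ ⊥ := fun h => hinj ((MonoidHom.ker_eq_bot_iff f).1 h)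
  obtain ⟨z, hzk, hzc, hz3⟩ := H7.exists_mem_center_orderOf hQ hk
  have hZc : zpowers z ≤ center Q := zpowers_le.2 hzc
  have hZn : (zpowers z).Normal := ⟨fun a ha g => by
    rw [mem_center_iff.1 (hZc ha) g, mul_inv_cancel_right]; exact ha⟩
  have hZ : Nat.card (zpowers z) = 3 := by rw [Nat.card_zpowers, hz3]
  have hZk : zpowers z ≤ f.ker := zpowers_le.2 hzk
  let g : Q ⧸ zpowers z →* T := QuotientGroup.lift _ f hZk
  have hgf : ∀ a : Q, g (QuotientGroup.mk a) = f a := fun a => rfl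
  have hg : Function.Surjective g := fun t => by
    obtain ⟨a, rfl⟩ := hf t
    exact ⟨_, hgf a⟩
  have hlt : Nat.card (Q ⧸ zpowers z) < n := by
    have := (zpowers z).card_eq_card_quotient_mul_card_subgroup
    have h0 : 0 < Nat.card (Q ⧸ zpowers z) := Nat.card_pos
    rw [hZ, hn] at this
    omega
  have hginj := ih _ hlt (Q ⧸ zpowers z) rfl (hQ.to_quotient _) (QuotientGroup.mk s)
    ((card_cent_map_le (QuotientGroup.mk' (zpowers z)) (QuotientGroup.mk'_surjective _) s).trans hs)
    g hg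
  have hker : ∀ a : Q, f a = 1 → a ∈ zpowers z := by
    intro a ha
    refine (QuotientGroup.eq_one_iff a).1 (hginj ?_)
    rw [hgf, ha, map_one]
  have hQT : Nat.card (Q ⧸ zpowers z) = 81 := by
    rw [Nat.card_congr (Equiv.ofBijective g ⟨hginj, hg⟩), hT]
  have hQc : Nat.card Q = 243 := by
    rw [(zpowers z).card_eq_card_quotient_mul_card_subgroup, hQT, hZ]
  have hEi : E.index = 3 := by
    have := E.card_mul_index
    rw [hE, hT] at this
    omega
  have hBi : (E.comap f).index = 3 := by rw [index_comap_of_surjective _ hf, hEi]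
  have hB : Nat.card (E.comap f) = 81 := by
    have := (E.comap f).card_mul_index
    rw [hBi, hQc] at this
    omega
  have : (E.comap f).Normal := normal_of_index_eq_minFac_card (by rw [hBi, hQc]; norm_num)
  refine core3 (zpowers z) (E.comap f) s hZc hZ (hZk.trans (ker_le_comap _ _)) hB hBi ?_ ?_ hs
  · intro a ha b hb
    apply hker
    simp only [map_mul, map_inv]
    calc (f a)⁻¹ * (f b)⁻¹ * f a * f b = (f a)⁻¹ * (f b)⁻¹ * (f a * f b) := by group
      _ = 1 := by rw [hEc _ ha _ hb]; group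
  · intro a ha
    apply hker
    rw [map_pow]
    exact hE3 _ ha

/-- The shape of a `3`-group with a centralizer of order nine. -/
theorem qfacts {Q : Type*} [Group Q] [Finite Q] (hQ : IsPGroup 3 Q) (s : Q)
    (hs : Nat.card (centralizer ({s} : Set Q)) = 9) (h9 : Nat.card Q ≠ 9) :
    (_root_.commutator Q).index = 9 ∧ (∀ y : Q, y ^ 3 ∈ _root_.commutator Q) ∧
      s ∉ _root_.commutator Q ∧
      ∀ c ∈ _root_.commutator Q, ∃ a : Q, a⁻¹ * s * a * s⁻¹ = c := by
  classical
  have hδ : ∀ a : Q, a⁻¹ * s * a * s⁻¹ ∈ _root_.commutator Q := by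
    intro a
    have := commutator_mem_commutator (mem_top a⁻¹) (mem_top s)
    rwa [commutatorElement_def, inv_inv] at this
  have hnc : ¬ IsCyclic (Q ⧸ _root_.commutator Q) := by
    intro h
    have hc := H9.isCyclic_of_isCyclic_quotient_commutator hQ h
    apply h9
    have : centralizer ({s} : Set Q) = ⊤ := by
      refine eq_top_iff.2 fun a _ => mem_centralizer_singleton_iff.2 ?_
      let := IsCyclic.commGroup (α := Q)
      exact mul_comm a s
    rw [this, card_top] at hs
    exact hs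
  have h1 := card_le_delta s ⊤ (⊤ : Subgroup Q) (Set.range fun a : Q => a⁻¹ * s * a * s⁻¹)
    (fun _ h => h) (fun a _ => ⟨a, rfl⟩)
  rw [ncard_coe, card_top, top_inf_eq, hs] at h1
  have hsub : (Set.range fun a : Q => a⁻¹ * s * a * s⁻¹) ⊆ (_root_.commutator Q : Set Q) := by
    rintro _ ⟨a, rfl⟩; exact hδ a
  have h2 := Set.ncard_le_ncard hsub
  rw [ncard_coe] at h2
  have h3 := (_root_.commutator Q).card_mul_index
  have hpos : 0 < Nat.card (_root_.commutator Q) := Nat.card_pos
  have hle : (_root_.commutator Q).index ≤ 9 := by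
    by_contra hlt
    push Not at hlt
    nlinarith
  have hW : IsPGroup 3 (Q ⧸ _root_.commutator Q) := hQ.to_quotient _
  obtain ⟨k, hk⟩ := IsPGroup.iff_card.1 hW
  have hk' : (_root_.commutator Q).index = 3 ^ k := hk
  have hk2 : k = 2 := by
    have hk3 : k < 3 := by
      by_contra h
      push Not at h
      have := Nat.pow_le_pow_right (n := 3) (by norm_num) h
      omega
    interval_cases k
    · exact absurd (isCyclic_of_card_dvd_prime (p := 3) (by rw [hk]; norm_num)) hnc
    · exact absurd (isCyclic_of_card_dvd_prime (p := 3) (by rw [hk]; norm_num)) hnc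
    · rfl
  subst hk2
  have hi9 : (_root_.commutator Q).index = 9 := hk'
  have heq : (Set.range fun a : Q => a⁻¹ * s * a * s⁻¹) = (_root_.commutator Q : Set Q) := by
    refine Set.eq_of_subset_of_ncard_le hsub ?_
    rw [ncard_coe]
    rw [hi9] at h3
    omega
  have hsurj : ∀ c ∈ _root_.commutator Q, ∃ a : Q, a⁻¹ * s * a * s⁻¹ = c := by
    intro c hc
    have : c ∈ (Set.range fun a : Q => a⁻¹ * s * a * s⁻¹) := heq ▸ hc
    exact this
  refine ⟨hi9, ?_, ?_, hsurj⟩
  · intro y
    refine (QuotientGroup.eq_one_iff _).1 ?_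
    rw [QuotientGroup.mk_pow]
    have hd : orderOf (QuotientGroup.mk y : Q ⧸ _root_.commutator Q) ∣ 3 ^ 2 :=
      hk ▸ orderOf_dvd_natCard _
    obtain ⟨j, hj, hjy⟩ := (Nat.dvd_prime_pow Nat.prime_three).1 hd
    rw [← orderOf_dvd_iff_pow_eq_one, hjy]
    interval_cases j
    · norm_num
    · norm_num
    · exact absurd (isCyclic_of_orderOf_eq_card _ (hjy.trans hk.symm)) hnc
  · intro hsc
    obtain ⟨a, ha⟩ := hsurj s⁻¹ (inv_mem hsc)
    have h4 : a⁻¹ * s * a = 1 := by
      have := mul_right_cancel (ha.trans (one_mul s⁻¹).symm)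
      exact this
    have h5 : s = 1 := by
      calc s = a * (a⁻¹ * s * a) * a⁻¹ := by group
        _ = 1 := by rw [h4]; group
    apply h9
    have : centralizer ({s} : Set Q) = ⊤ := by
      refine eq_top_iff.2 fun a _ => mem_centralizer_singleton_iff.2 ?_
      rw [h5, mul_one, one_mul]
    rw [this, card_top] at hs
    exact hs

/-- a fixed-point-free-product set in a group of order nine and exponent three -/
theorem nine_set {V : Type*} [CommGroup V] [Finite V] (hV : Nat.card V = 9)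
    (h3 : ∀ v : V, v ^ 3 = 1) (O : Finset V) (h1 : ∀ v ∈ O, v ≠ 1) (hinv : ∀ v ∈ O, v⁻¹ ∉ O)
    (hO : ¬ 3 ∣ O.card) (hp : ∏ v ∈ O, v = 1) : False := by
  classical
  have := Fintype.ofFinite V
  have hsq : ∀ v : V, v * v = v⁻¹ := fun v => by
    rw [eq_inv_iff_mul_eq_one, ← h3 v]; simp only [pow_succ, pow_zero, one_mul]
  have hdisj : Disjoint O (O.image (·⁻¹)) := by
    refine Finset.disjoint_left.2 fun v hv hv' => ?_
    obtain ⟨w, hw, rfl⟩ := Finset.mem_image.1 hv'
    exact hinv w hw hv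
  have hn1 : (1 : V) ∉ O ∪ O.image (·⁻¹) := by
    intro h
    rcases Finset.mem_union.1 h with h | h
    · exact h1 1 h rfl
    · obtain ⟨w, hw, hw1⟩ := Finset.mem_image.1 h
      exact h1 w hw (inv_eq_one.1 hw1)
  have hcard : (insert 1 (O ∪ O.image (·⁻¹))).card = 2 * O.card + 1 := by
    rw [Finset.card_insert_of_notMem hn1, Finset.card_union_of_disjoint hdisj,
      Finset.card_image_of_injective _ inv_injective]
    ring
  have hF : Fintype.card V = 9 := by rw [← Nat.card_eq_fintype_card, hV]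
  have hle := Finset.card_le_univ (insert 1 (O ∪ O.image (·⁻¹)))
  rw [hcard, hF] at hle
  have hcases : O.card = 1 ∨ O.card = 2 ∨ O.card = 4 := by omega
  rcases hcases with h | h | h
  · obtain ⟨a, rfl⟩ := Finset.card_eq_one.1 h
    rw [Finset.prod_singleton] at hp
    exact h1 a (by simp) hp
  · obtain ⟨a, b, hab, rfl⟩ := Finset.card_eq_two.1 h
    rw [Finset.prod_pair hab] at hp
    refine hinv a (by simp) ?_
    rw [← eq_inv_of_mul_eq_one_right hp]; simp
  · have huniv : insert 1 (O ∪ O.image (·⁻¹)) = Finset.univ :=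
      Finset.eq_univ_of_card _ (by rw [hcard, hF, h])
    obtain ⟨a, b, c, d, hab, hac, had, hbc, hbd, hcd, rfl⟩ := Finset.card_eq_four.1 h
    rw [Finset.prod_insert (by simp [hab, hac, had]), Finset.prod_insert (by simp [hbc, hbd]),
      Finset.prod_pair hcd, ← mul_assoc] at hp
    have ha1 := h1 a (by simp)
    have hb1 := h1 b (by simp)
    have hc1 := h1 c (by simp)
    have hd1 := h1 d (by simp)
    have hm : a * b ∈ insert 1 (({a, b, c, d} : Finset V) ∪ ({a, b, c, d} : Finset V).image (·⁻¹)) :=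
      huniv ▸ Finset.mem_univ _
    simp only [Finset.mem_insert, Finset.mem_union, Finset.mem_singleton, Finset.image_insert,
      Finset.image_singleton] at hm
    rcases hm with e | (e | e | e | e) | (e | e | e | e)
    · refine hinv a (by simp) ?_
      rw [← eq_inv_of_mul_eq_one_right e]; simp
    · exact hb1 (mul_eq_left.1 e)
    · exact ha1 (mul_eq_right.1 e)
    · rw [e, ← mul_assoc, hsq, inv_mul_eq_one] at hp
      exact hcd hp
    · rw [e, mul_comm c d, ← mul_assoc, hsq, inv_mul_eq_one] at hp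
      exact hcd hp.symm
    · rw [← hsq a] at e
      exact hab (mul_left_cancel e).symm
    · rw [← hsq b] at e
      exact hab (mul_right_cancel e)
    · rw [e, inv_mul_cancel_left] at hp
      exact hd1 hp
    · rw [e, mul_comm c d, inv_mul_cancel_left] at hp
      exact hc1 hp

theorem invert_e9 {K : Type*} [Group K] [Finite K] (V : Subgroup K) [V.Normal]
    (hV9 : Nat.card V = 9) (h3 : ∀ v ∈ V, v ^ 3 = 1) (hcomm : ∀ a ∈ V, ∀ b ∈ V, a * b = b * a)
    (hi : ¬ 3 ∣ V.index) (hc : V ≤ _root_.commutator K) (x : K) (hx : x ∈ V) (hx1 : x ≠ 1) :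
    ∃ n : K, n * x * n⁻¹ = x⁻¹ := by
  classical
  by_contra hno
  push Not at hno
  have := Fintype.ofFinite V
  let inst : CommGroup V :=
    { (inferInstance : Group V) with mul_comm := fun a b => Subtype.ext (hcomm _ a.2 _ b.2) }
  have hcen : ∀ w ∈ V, (∀ g : K, g * w * g⁻¹ = w) → w = 1 := by
    intro w hw hg
    have key : ∀ (k : ℕ) (g₀ : K), g₀⁻¹ * w ^ k * g₀ ∈ V → g₀⁻¹ * w ^ k * g₀ = w ^ k := by
      intro k g₀ _
      have := hg g₀⁻¹
      rw [inv_inv] at this
      conv_rhs => rw [← this]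
      have h2 := conj_pow (a := g₀⁻¹) (b := w) (i := k)
      rw [inv_inv] at h2
      exact h2.symm
    have h1 := MonoidHom.transfer_eq_pow (MonoidHom.id V) w key
    have h2 : MonoidHom.transfer (MonoidHom.id V) w = 1 :=
      Abelianization.commutator_subset_ker _ (hc hw)
    rw [h2] at h1
    have h4 : w ^ V.index = 1 := (congrArg Subtype.val h1).symm
    have h5 : orderOf w ∣ Nat.gcd 3 V.index :=
      Nat.dvd_gcd (orderOf_dvd_of_pow_eq_one (h3 w hw)) (orderOf_dvd_of_pow_eq_one h4)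
    rw [(Nat.prime_three.coprime_iff_not_dvd.2 hi).gcd_eq_one, Nat.dvd_one] at h5
    exact orderOf_eq_one_iff.1 h5
  let φ : K →* MulAut V := MulAut.conjNormal
  have hφ : ∀ (g : K) (v : V), ((φ g v : V) : K) = g * v * g⁻¹ := fun g v => rfl
  let act : MulAction K V := MulAction.compHom V φ
  have hact : ∀ (g : K) (v : V), g • v = φ g v := fun _ _ => rfl
  let x' : V := ⟨x, hx⟩
  let O : Finset V := (MulAction.orbit K x').toFinset
  have hO : ∀ v, v ∈ O ↔ ∃ g : K, φ g x' = v := fun v => Set.mem_toFinset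
  have hOφ : ∀ (g : K), ∀ v ∈ O, φ g v ∈ O := by
    intro g v hv
    obtain ⟨h, rfl⟩ := (hO v).1 hv
    exact (hO _).2 ⟨g * h, by rw [map_mul]; rfl⟩
  refine nine_set hV9 (fun v => Subtype.ext (h3 _ v.2)) O ?_ ?_ ?_ ?_
  · intro v hv h
    obtain ⟨g, rfl⟩ := (hO v).1 hv
    exact hx1 (congrArg Subtype.val ((φ g).map_eq_one_iff.1 h))
  · intro v hv hv'
    obtain ⟨g, rfl⟩ := (hO v).1 hv
    obtain ⟨h, hh⟩ := (hO _).1 hv'
    have e : h * x * h⁻¹ = (g * x * g⁻¹)⁻¹ := congrArg Subtype.val hh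
    apply hno (g⁻¹ * h)
    calc g⁻¹ * h * x * (g⁻¹ * h)⁻¹ = g⁻¹ * (h * x * h⁻¹) * g := by group
      _ = x⁻¹ := by rw [e]; group
  · have h1 : O.card = (MulAction.stabilizer K x').index := by
      rw [MulAction.index_stabilizer, Set.ncard_eq_toFinset_card']
    have h2 : V ≤ MulAction.stabilizer K x' := by
      intro v hv
      refine Subtype.ext ?_
      show v * x * v⁻¹ = x
      rw [hcomm v hv x hx]; group
    rw [h1]
    exact fun h => hi (h.trans (index_dvd_of_le h2))
  · refine Subtype.ext (hcen _ (∏ v ∈ O, v).2 fun g => ?_)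
    rw [← hφ]
    refine congrArg Subtype.val ?_
    have h1 : φ g (∏ v ∈ O, v) = ∏ v ∈ O, φ g v := map_prod (φ g : V ≃* V) _ _
    rw [h1]
    refine Finset.prod_nbij' (fun v => φ g v) (fun v => φ g⁻¹ v) (hOφ g) (hOφ g⁻¹) ?_ ?_
      (fun _ _ => rfl)
    · intro v _
      show (φ g⁻¹ * φ g) v = v
      rw [← map_mul, inv_mul_cancel, map_one]; rfl
    · intro v _
      show (φ g * φ g⁻¹) v = v
      rw [← map_mul, mul_inv_cancel, map_one]; rfl

theorem partA {N : Type*} [Group N] [Finite N] (P : Subgroup N) [P.Normal] (hP : IsPGroup 3 P)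
    (hi : ¬ 3 ∣ P.index) (hc : P ≤ _root_.commutator N) (x : N) (hx : x ∈ P)
    (hC : Nat.card ↥(P ⊓ centralizer ({x} : Set N)) = 9) (h9 : Nat.card P ≠ 9) :
    ∃ n : N, n * x * n⁻¹ = x⁻¹ := by
  have hC' := card_cent_sub P P le_rfl x hx
  rw [subgroupOf_self, top_inf_eq, hC] at hC'
  obtain ⟨q1, q2, q3, q4⟩ := qfacts hP ⟨x, hx⟩ hC' h9
  let D : Subgroup N := (_root_.commutator P).map P.subtype
  have hDn : D.Normal := inferInstance
  have hD : ∀ y : P, (y : N) ∈ D ↔ y ∈ _root_.commutator P := fun y =>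
    mem_map_iff_mem P.subtype_injective
  have hDP : D ≤ P := map_subtype_le _
  let π : N →* N ⧸ D := QuotientGroup.mk' D
  have hπs : Function.Surjective π := QuotientGroup.mk'_surjective D
  have hπ : ∀ y : N, π y = 1 ↔ y ∈ D := fun y => QuotientGroup.eq_one_iff y
  have hker : π.ker = D := QuotientGroup.ker_mk' D
  have hVn : (P.map π).Normal := Normal.map inferInstance π hπs
  have hV9 : Nat.card (P.map π) = 9 := by
    rw [← relIndex_ker, hker, ← q1]
    show (D.subgroupOf P).index = _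
    congr 1
    ext y
    exact hD y
  obtain ⟨m, hm⟩ := invert_e9 (P.map π) hV9
    (by
      rintro _ ⟨y, hy, rfl⟩
      rw [← map_pow, hπ]
      exact (hD (⟨y, hy⟩ ^ 3)).2 (q2 _))
    (by
      rintro _ ⟨a, ha, rfl⟩ _ ⟨b, hb, rfl⟩
      have h1 : π (a * b * a⁻¹ * b⁻¹) = 1 :=
        (hπ _).2 ((hD (⟨a, ha⟩ * ⟨b, hb⟩ * ⟨a, ha⟩⁻¹ * ⟨b, hb⟩⁻¹)).2
          (commutator_mem_commutator (mem_top _) (mem_top _)))
      simp only [map_mul, map_inv] at h1
      calc π a * π b = (π a * π b * (π a)⁻¹ * (π b)⁻¹) * (π b * π a) := by group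
        _ = _ := by rw [h1, one_mul])
    (by rw [index_map_eq _ hπs (hker.le.trans hDP)]; exact hi)
    (by
      refine (map_mono hc).trans ?_
      rw [_root_.commutator_def, map_commutator]
      exact commutator_mono le_top le_top)
    (π x) ⟨x, hx, rfl⟩ (fun h => q3 ((hD ⟨x, hx⟩).1 ((hπ x).1 h)))
  obtain ⟨n, rfl⟩ := hπs m
  have h1 : n * x⁻¹ * n⁻¹ * x⁻¹ ∈ D := by
    rw [← hπ]
    simp only [map_mul, map_inv]
    calc π n * (π x)⁻¹ * (π n)⁻¹ * (π x)⁻¹ = (π n * π x * (π n)⁻¹)⁻¹ * (π x)⁻¹ := by group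
      _ = 1 := by rw [hm]; group
  obtain ⟨a, ha⟩ := q4 ⟨_, hDP h1⟩ ((hD ⟨_, hDP h1⟩).1 h1)
  have ha' : (a : N)⁻¹ * x * a * x⁻¹ = n * x⁻¹ * n⁻¹ * x⁻¹ := congrArg Subtype.val ha
  have ha2 : (a : N)⁻¹ * x * a = n * x⁻¹ * n⁻¹ := mul_right_cancel ha'
  refine ⟨a * n, ?_⟩
  calc a * n * x * (a * n)⁻¹ = a * (n * x⁻¹ * n⁻¹)⁻¹ * (a : N)⁻¹ := by group
    _ = x⁻¹ := by rw [← ha2]; group

theorem y3 : H9.FX.Y3Stmt.{u} := by
  intro G _ _ P x hG hx hC h9
  by_cases h : (P : Subgroup G) ⊓ _root_.commutator G = (P : Subgroup G) ⊓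
      ⁅normalizer ((P : Subgroup G) : Set G), normalizer ((P : Subgroup G) : Set G)⁆
  · right
    have hPN : (P : Subgroup G) ≤ normalizer ((P : Subgroup G) : Set G) := le_normalizer
    rw [hG, inf_top_eq] at h
    have hle : (P : Subgroup G) ≤
        ⁅normalizer ((P : Subgroup G) : Set G), normalizer ((P : Subgroup G) : Set G)⁆ :=
      h.le.trans inf_le_right
    have hn : ((P : Subgroup G).subgroupOf (normalizer ((P : Subgroup G) : Set G))).Normal :=
      normal_in_normalizer
    have hcard : Nat.card ((P : Subgroup G).subgroupOf (normalizer ((P : Subgroup G) : Set G))) =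
        Nat.card (P : Subgroup G) := Nat.card_congr (subgroupOfEquivOfLe hPN).toEquiv
    obtain ⟨n, hn⟩ := partA ((P : Subgroup G).subgroupOf (normalizer ((P : Subgroup G) : Set G)))
      (P.isPGroup'.of_equiv (subgroupOfEquivOfLe hPN).symm)
      (fun h3 => P.not_dvd_index (h3.trans (relIndex_dvd_index_of_le hPN)))
      (by
        intro y hy
        have h1 := hle hy
        rw [← map_subtype_commutator] at h1
        exact (mem_map_iff_mem (subtype_injective _)).1 h1)
      ⟨x, hPN hx⟩ hx (by rw [card_cent_sub _ _ hPN, hC]) (by rw [hcard]; exact h9)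
    exact ⟨n, n.2, congrArg Subtype.val hn⟩
  · left
    obtain ⟨T, f, hf⟩ := S2807.result P h
    obtain ⟨E, e1, e2, e3⟩ := exists_e27 T
    have hC' := card_cent_sub (P : Subgroup G) P le_rfl x hx
    rw [subgroupOf_self, top_inf_eq, hC] at hC'
    exact ⟨T, ⟨MulEquiv.ofBijective f ⟨inj_of_surj (card_syl9 T) E e1 e2 e3 _ _ rfl P.isPGroup'
      ⟨x, hx⟩ hC'.le f hf, hf⟩⟩⟩

end Cfsg.Agent.H20.FX
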