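import Mathlib
import Cfsg.Agent.H2.FXDefs

/-! Project FX, piece KEY: the cubic relation in the Hecke algebra of `L₂(13)`. -/

set_option autoImplicit false

namespace Cfsg.Agent.H20.FXKey

open Cfsg.Agent.H2FX

theorem tab : ∀ p ∈ [(1, 12, 0, 2), (2, 6, 1, 3), (3, 4, 1, 2), (4, 3, 2, 0), (5, 5, 0, 3),
    (6, 2, 2, 3), (7, 11, 2, 1), (8, 8, 0, 1), (9, 10, 2, 2), (10, 9, 1, 0), (11, 7, 1, 1),
    ((12, 1, 0, 0) : ℕ × ℕ × ℕ × ℕ)],
    gs * gu ^ p.1 * gs = gu ^ p.2.1 * gs * gc ^ p.2.2.1 * gt ^ p.2.2.2 * gu ^ p.2.1 := by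
  decide +kernel

theorem key : KeyStmt := by
  intro A _ φ _ R
  have l1 : ∀ (x : A) (n : ℕ), x * hE φ = hE φ → x ^ n * hE φ = hE φ := fun x n h => by
    induction n with
    | zero => simp
    | succ n ih => rw [pow_succ, mul_assoc, h, ih]
  have l2 : ∀ n : ℕ, hE φ * φ gu ^ n = hE φ := fun n => by
    induction n with
    | zero => simp
    | succ n ih => rw [pow_succ, ← mul_assoc, ih, R.Eu]
  have term : ∀ i a k l : ℕ, gs * gu ^ i * gs = gu ^ a * gs * gc ^ k * gt ^ l * gu ^ a →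
      hE φ * φ gs * φ gu ^ i * φ gs * hE φ = hE φ * φ gs * φ gc ^ k * hE φ := fun i a k l h => by
    have h1 := congrArg φ h
    simp only [map_mul, map_pow] at h1
    calc _ = hE φ * (φ gs * φ gu ^ i * φ gs) * hE φ := by simp only [mul_assoc]
      _ = hE φ * φ gu ^ a * φ gs * φ gc ^ k * (φ gt ^ l * (φ gu ^ a * hE φ)) := by
        rw [h1]; simp only [mul_assoc]
      _ = _ := by rw [l2, l1 _ _ R.uE, l1 _ _ R.tE]
  have k0 : hE φ * φ gs * φ gc ^ 0 * hE φ = hE φ * φ gs * hE φ := by rw [pow_zero, mul_one]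
  have k1 : hE φ * φ gs * φ gc ^ 1 * hE φ = φ gc ^ 2 * (hE φ * φ gs * hE φ) := by
    rw [pow_one, mul_assoc (hE φ), R.sc, pow_two, ← mul_assoc, ← mul_assoc, ← R.cE,
      mul_assoc (φ gc) (hE φ), ← R.cE]
    simp only [mul_assoc]
  have k2 : hE φ * φ gs * φ gc ^ 2 * hE φ = φ gc * (hE φ * φ gs * hE φ) := by
    rw [mul_assoc (hE φ), ← R.cs, ← mul_assoc, ← R.cE]
    simp only [mul_assoc]
  have z : hE φ * φ gs * φ gu ^ 0 * φ gs * hE φ = 26 * hE φ := by
    rw [pow_zero, mul_one, mul_assoc (hE φ), R.ss, mul_one, R.EE]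
  have e : hE φ * φ gs * hE φ * φ gs * hE φ =
      2 * ∑ i ∈ Finset.range 13, hE φ * φ gs * φ gu ^ i * φ gs * hE φ := by
    have e1 : hE φ * φ gs * (1 + φ gt) = 2 * (hE φ * φ gs) := by
      rw [mul_add, mul_one, mul_assoc, ← R.ts, ← mul_assoc, R.Et, two_mul]
    calc _ = hE φ * φ gs * (1 + φ gt) * hQ φ * φ gs * hE φ := by
          rw [mul_assoc (hE φ * φ gs) (1 + φ gt)]; rfl
      _ = _ := by
          rw [e1, hQ, ← Finset.sum_mul, ← Finset.sum_mul, ← Finset.mul_sum]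
          simp only [mul_assoc]
  have t := tab
  simp only [List.mem_cons, List.not_mem_nil, or_false, forall_eq_or_imp, forall_eq] at t
  obtain ⟨t1, t2, t3, t4, t5, t6, t7, t8, t9, t10, t11, t12⟩ := t
  rw [e]
  simp only [Finset.sum_range_succ, Finset.sum_range_zero, zero_add]
  rw [z, term _ _ _ _ t1, term _ _ _ _ t2, term _ _ _ _ t3, term _ _ _ _ t4, term _ _ _ _ t5,
    term _ _ _ _ t6, term _ _ _ _ t7, term _ _ _ _ t8, term _ _ _ _ t9, term _ _ _ _ t10,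
    term _ _ _ _ t11, term _ _ _ _ t12, k0, k1, k2]
  generalize hE φ * φ gs * hE φ = X
  noncomm_ring

end Cfsg.Agent.H20.FXKey
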