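import Mathlib
import Cfsg.Agent.H98.GbG
import Cfsg.Agent.H21.Tilde

/-! Project GB, piece OSI: unions of blocks are detected by the regular parts (Osima). -/

set_option autoImplicit false

namespace Cfsg.Agent.H20.GbOsi

open Cfsg Cfsg.Agent.H98.GB

universe u

theorem osi : OSIStmt.{u} := by
  intro G _ _ p _ M hM S
  have key : ∀ χ ψ : IrrCharacter G,
      classInner (pRegularPart p χ.1) ψ.1 = 0 ↔ H21.ti p χ.1 ψ.1 = 0 := fun χ ψ => by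
    rw [H21.ti_def, mul_eq_zero, or_iff_right (pow_ne_zero _ (Nat.cast_ne_zero.2 hM.1.ne_zero))]
  simp only [key]
  have hB : ∀ χ : IrrCharacter G, IsPBlock M (blockOf M χ.1) := fun χ => ⟨χ, rfl⟩
  have hs : ∀ χ : IrrCharacter G, χ ∈ blockOf M χ.1 := H21.self_mem_blockOf hM.2.1
  refine ⟨fun h χ hχ ψ hψ => H21.ti_eq_zero hM (hB χ) (hs χ) fun h1 => hψ (h χ hχ ψ
    ((H17.block_mem_iff hM.2.1 (hB χ) (hs χ) ψ).1 h1)), fun h χ hχ ψ e => ?_⟩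
  have h1 := (H17.block_mem_iff hM.2.1 (hB χ) (hs χ) ψ).2 e
  obtain ⟨χ0, h2, h3⟩ := H21.exists_height_zero (p := p) ⟨χ, hs χ⟩
  by_contra hψ
  by_cases h4 : χ0 ∈ S
  · exact H21.ti_ne_zero_of_height_zero hM (hB χ) h2 h3 h1 (h χ0 h4 ψ hψ)
  · exact H21.ti_ne_zero_of_height_zero hM (hB χ) h2 h3 (hs χ)
      ((H21.ti_symm_irr χ0 χ).trans (h χ hχ χ0 h4))

end Cfsg.Agent.H20.GbOsi
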