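import Cfsg.Agent.H98.GbL

/-! Project GB (S4536), piece RK1a: primitive elements belonging to one semisimple label. -/

set_option autoImplicit false
open Cfsg Finset
open scoped ComplexConjugate MatrixGroups

namespace Cfsg.Agent.H20.GbRk1a

open Cfsg.Agent.H98.GB

universe u

/-- The sums of matrix coefficients of the members of `S`. -/
def IE {G : Type u} [Group G] [Fintype G] (S : Set (IrrCharacter G)) : Submodule ℂ (G → ℂ) where
  carrier := {f | InE S f}
  add_mem' ha hb χ hχ g := by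
    simp only [Pi.add_apply, mul_add, sum_add_distrib, ha χ hχ g, hb χ hχ g, add_zero]
  zero_mem' χ _ g := by simp
  smul_mem' c f hf χ hχ g := by
    simp only [Pi.smul_apply, smul_eq_mul, mul_left_comm _ c, ← mul_sum, hf χ hχ g, mul_zero]

section
variable {A : Type*} [CommRing A] {Φ : Type} [Fintype Φ]

theorem mon_add (P : Φ → ℕ → A) (μ ν : Φ → Multiset ℕ) : mon P (μ + ν) = mon P μ * mon P ν := by
  simp only [mon, Pi.add_apply, Multiset.map_add, Multiset.prod_add, prod_mul_distrib]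

theorem wm_add (dg : Φ → ℕ) (μ ν : Φ → Multiset ℕ) : wm dg (μ + ν) = wm dg μ + wm dg ν := by
  simp only [wm, Pi.add_apply, Multiset.sum_add, mul_add, sum_add_distrib]

variable [DecidableEq Φ]

theorem mon_single (P : Φ → ℕ → A) (φ : Φ) (r : ℕ) : mon P (Pi.single φ {r}) = P φ r := by
  rw [mon, prod_eq_single φ (fun ψ _ h => by simp [Pi.single_eq_of_ne h]) (by simp)]
  simp

theorem wm_single (dg : Φ → ℕ) (φ : Φ) (r : ℕ) : wm dg (Pi.single φ {r}) = dg φ * r := by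
  rw [wm, sum_eq_single φ (fun ψ _ h => by simp [Pi.single_eq_of_ne h]) (by simp)]
  simp

theorem split {In : Φ → Prop} {dg : Φ → ℕ} {μ : Φ → Multiset ℕ} (h : MonOn In μ)
    (h0 : 0 < wm dg μ) : ∃ φ r ν, In φ ∧ 0 < r ∧ MonOn In ν ∧ μ = Pi.single φ {r} + ν := by
  obtain ⟨φ, hφ⟩ : ∃ φ, μ φ ≠ 0 := by
    by_contra! e
    simp [wm, e] at h0
  obtain ⟨r, hr⟩ := Multiset.exists_mem_of_ne_zero hφ
  obtain ⟨ν, hν⟩ := exists_add_of_le (show Pi.single φ {r} ≤ μ from fun ψ => by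
    by_cases e : ψ = φ
    · subst e; simpa using hr
    · simp [Pi.single_eq_of_ne e])
  refine ⟨φ, r, ν, by_contra fun e => hφ ((h φ).2 e), (h φ).1 r hr, fun ψ => ⟨fun s hs => ?_,
    fun e => ?_⟩, hν⟩
  · exact (h ψ).1 s (by rw [hν]; exact Multiset.mem_add.2 (Or.inr hs))
  · have := (h ψ).2 e
    rw [hν, Pi.add_apply, add_eq_zero] at this
    exact this.2

end

section
variable {F : Type u} [Field F] [Fintype F] [DecidableEq F] {η : Fˣ →* ℂˣ} (H : Hall η)

/-- The homogeneous elements of degree `m`. -/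
def HG (m : ℕ) : Submodule ℂ H.A where
  carrier := {x | H.Hg m x}
  add_mem' ha hb n hn := by rw [map_add, Pi.add_apply, ha n hn, hb n hn, add_zero]
  zero_mem' n _ := by rw [map_zero]; rfl
  smul_mem' c x hx n hn := by rw [map_smul, Pi.smul_apply, hx n hn, smul_zero]

/-- The component of degree `m`. -/
def evm (m : ℕ) : H.A →ₗ[ℂ] (GL (Fin m) F → ℂ) := (LinearMap.proj m).comp H.ev

/-- A primitive element in the span of primitive and decomposable elements. -/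
theorem prim_span (hF : H.Fock) {m : ℕ} {x : H.A} (hx : H.Pr m x) {S : Set H.A}
    (hS : ∀ y ∈ S, H.Pr m y) (h : x ∈ Submodule.span ℂ S ⊔ Submodule.span ℂ
      {d | ∃ a b y z, 0 < a ∧ 0 < b ∧ a + b = m ∧ H.Hg a y ∧ H.Hg b z ∧ d = y * z}) :
    x ∈ Submodule.span ℂ S := by
  obtain ⟨y1, h1, y2, h2, rfl⟩ := Submodule.mem_sup.1 h
  set D : Set H.A :=
    {d | ∃ a b y z, 0 < a ∧ 0 < b ∧ a + b = m ∧ H.Hg a y ∧ H.Hg b z ∧ d = y * z} with hD
  have k0 : ∀ w, H.Pr m w → ∀ d ∈ D, H.ip m d w = 0 := by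
    rintro w hw _ ⟨a, b, y, z, ha, hb, hab, hy, hz, rfl⟩
    exact (hF.pr_iff hw.2.1 hw.1).1 hw a b y z ha hb hab hy hz
  have k1 : ∀ d ∈ D, H.ip m d y1 = 0 := fun d hd => by
    refine Submodule.span_induction (p := fun w _ => H.ip m d w = 0) (fun w hw => k0 w (hS w hw) d hd)
      ?_ (fun a b _ _ ha hb => ?_) (fun c a _ ha => ?_) h1
    · rw [Hall.ip, map_zero]; exact H11.classInner_zero_right _
    · rw [Hall.ip] at ha hb ⊢
      rw [map_add, Pi.add_apply, H11.classInner_add_right, ha, hb, add_zero]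
    · rw [Hall.ip] at ha ⊢
      rw [map_smul, Pi.smul_apply, H11.classInner_smul_right, ha, mul_zero]
  have k2 : ∀ d ∈ D, H.ip m d y2 = 0 := fun d hd => by
    have e := k0 _ hx d hd
    have e1 := k1 d hd
    rw [Hall.ip] at e e1 ⊢
    rwa [map_add, Pi.add_apply, H11.classInner_add_right, e1, zero_add] at e
  have k3 : H.ip m y2 y2 = 0 := by
    refine Submodule.span_induction (p := fun w _ => H.ip m w y2 = 0) k2
      ?_ (fun a b _ _ ha hb => ?_) (fun c a _ ha => ?_) h2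
    · rw [Hall.ip, map_zero]; exact H11.classInner_zero_left _
    · rw [Hall.ip] at ha hb ⊢
      rw [map_add, Pi.add_apply, H11.classInner_add_left, ha, hb, add_zero]
    · rw [Hall.ip] at ha ⊢
      rw [map_smul, Pi.smul_apply, H11.classInner_smul_left, ha, mul_zero]
  have k4 : y2 ∈ HG H m := Submodule.span_le.2 (by
    rintro _ ⟨a, b, y, z, -, -, rfl, hy, hz, rfl⟩
    exact hF.hg_mul hy hz) h2
  rw [hF.ip_self k4 k3, add_zero]
  exact h1

end

theorem rk1a (hF : FOCKStmt.{u}) (hD : DECStmt.{u}) (hO : ONEStmt.{u}) (hM : MONStmt.{u})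
    (hT : MORTHStmt.{u}) (hc : TH2cStmt.{u}) (hI : IRRStmt.{u}) (hL : LABStmt.{u})
    (hG : GENStmt.{u}) (hP : PIMStmt.{u}) (hN : NWEHStmt.{u}) : RK1aStmt.{u} := by
  intro F _ _ _ C c HH In P hS Γ hIn j m hm
  have lab := hL F C
  have fk := fun i => hF F _ (HH i)
  have hS' : C.TwS c HH (fun φ => C.lp φ = Γ) P :=
    ⟨fun φ k h => hS.rf φ k (hIn φ h), fun φ k i h => hS.pr φ k i (hIn φ h),
      fun i n φ k φ' k' h h' => hS.gram i n φ k φ' k' (hIn φ h) (hIn φ' h'),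
      fun φ k i h => hS.del φ k i (hIn φ h), fun φ k h => hS.zero φ k (hIn φ h),
      fun φ k i h => hS.eE φ k i (hIn φ h)⟩
  have hV : C.Vac c HH (fun φ => C.lp φ = Γ) P 0 (fun _ => range C.N) fun _ => 1 := by
    refine ⟨?_, fun i => (fk i).hg_one, fun i => (fk i).ip_one, fun i => ?_,
      fun φ k i _ hk => (fk i).D_lt _ (fk i).hg_one (Nat.mul_pos (lab.dg_pos φ) hk), ?_⟩
    · obtain ⟨R, hR⟩ := (hG F).2.2 _ HH
      rw [← hR]
      exact R.one_mem
    · obtain ⟨T, h1, -⟩ := hP F _ (HH i) C.p C.hp C.hpF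
      rw [← h1, map_one]
    · have : sL C.N C.pp (fun _ => range C.N) = 1 :=
        prod_eq_one fun φ _ => (hN _).2.2.2.2.1 _ _
      rw [this, (HH 0).ev_one, C.H.ev_one]
  have key : ∀ Λ (h : C.IsLab m Λ), Λ ∈ C.Sup Γ →
      InE {⟨C.sC Λ m, (hI F C m hm Λ h).2.1⟩} ((HH j).ev (sL C.N (fun φ k => P φ k j) Λ) m) ∧
      ∀ f ∈ VS (dl (C.eta c) m ^ j) {⟨C.sC Λ m, (hI F C m hm Λ h).2.1⟩},
        ∃ a : ℂ, f = a • (HH j).ev (sL C.N (fun φ k => P φ k j) Λ) m := by
    intro Λ h hs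
    obtain ⟨θ, h1, h2, -, h3⟩ := hc F C c HH _ P hS' 0 _ _ hV
      ⟨fun _ => card_range _, by simp [wt, H19.wtS_range]⟩ m hm Λ h (funext fun φ => by
        rw [Ctx.rs]
        split_ifs with e
        · rfl
        · exact (hs φ e).symm)
    have e : C.rs (fun φ => C.lp φ = Γ) Λ = Λ := funext fun φ => by
      rw [Ctx.rs]
      split_ifs with e
      · rfl
      · exact (hs φ e).symm
    have h4 := h3 j
    rw [e, one_mul] at h4
    obtain ⟨h5, -, h6⟩ := (hO _ _ ⟨C.sC Λ m, (hI F C m hm Λ h).2.1⟩ h2 θ h1).2.2.2 j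
    rw [h4]
    exact ⟨h5.2, h6⟩
  have sys : (HH j).Sys C.dg (fun φ => C.lp φ = Γ) C.n0 (fun φ k => P φ k j) 0 1 :=
    ⟨lab.dg_pos, fun φ k h hk _ => hS'.pr φ k j h hk, (fk j).hg_one,
      fun φ k h hk _ => hV.vac φ k j h hk⟩
  have hg : ∀ μ, MonOn (fun φ => C.lp φ = Γ) μ → wm C.dg μ ≤ C.n0 →
      (HH j).Hg (wm C.dg μ) (mon (fun φ k => P φ k j) μ) := fun μ h h' => by
    have := (hT F _ (HH j) _ _ _ _ _ _ _ _ _ _ sys sys (hS'.gram j C.n0) μ μ h h h' h').1
    rwa [zero_add, one_mul] at this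
  refine ⟨fun μ h1 h2 => ?_, fun x hx hE => ?_⟩
  · have hle : ∀ φ, (μ φ).sum ≤ C.N := fun φ => by
      have a1 : C.dg φ * (μ φ).sum ≤ wm C.dg μ :=
        single_le_sum (f := fun φ => C.dg φ * (μ φ).sum) (fun _ _ => Nat.zero_le _) (mem_univ φ)
      have a2 := Nat.le_mul_of_pos_left (μ φ).sum (lab.dg_pos φ)
      have a3 : C.n0 ≤ C.N := Nat.le_mul_of_pos_left _ (Nat.succ_pos _)
      omega
    rw [(hM _ _ C.N _).2 μ fun φ => ⟨hle φ, (h1 φ).1⟩]
    change evm (HH j) m _ ∈ IE _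
    rw [map_sum]
    refine Submodule.sum_mem _ fun Λ hΛ => ?_
    rw [map_smul]
    refine Submodule.smul_mem _ _ ?_
    have b1 := fun φ => H19.mem_Lam'.1 (Fintype.mem_piFinset.1 hΛ φ)
    have b2 : C.IsLab m Λ := ⟨fun φ => (b1 φ).1, by
      rw [← h2]; exact sum_congr rfl fun φ _ => by rw [(b1 φ).2]⟩
    have b3 : Λ ∈ C.Sup Γ := fun φ e => by
      have := H19.eq_range_of_wtS (T := Λ φ) (by rw [(b1 φ).2, (h1 φ).2 e]; rfl)
      rwa [(b1 φ).1] at this
    exact fun χ hχ => (key Λ b2 b3).1 χ fun e => hχ ⟨Λ, b3, b2, by rw [e]⟩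
  · have c1 := (hD _).1 (dl (C.eta c) m ^ j) _ _ ⟨by rw [← dl_pow]; exact (HH j).tw x m, hE⟩
    have c2 : (HH j).ev x m ∈ (Submodule.span ℂ {y | ∃ μ, MonOn (fun φ => C.lp φ = Γ) μ ∧
        wm C.dg μ = m ∧ y = mon (fun φ k => P φ k j) μ}).map (evm (HH j) m) := by
      refine Submodule.span_le.2 ?_ c1
      rintro f ⟨⟨_, hχ⟩, ⟨Λ, b3, b2, rfl⟩, hf⟩
      obtain ⟨a, rfl⟩ := (key Λ b2 b3).2 f hf
      refine Submodule.smul_mem _ _ (Submodule.mem_map_of_mem (f := evm (HH j) m) ?_)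
      rw [(hM _ _ C.N _).1 Λ]
      refine Submodule.sum_mem _ fun μ hμ => Submodule.smul_mem _ _ (Submodule.subset_span ?_)
      have b1 := fun φ => H19.mem_Par.1 (Fintype.mem_piFinset.1 hμ φ)
      refine ⟨μ, fun φ => ⟨(b1 φ).2, fun e => ?_⟩, ?_, rfl⟩
      · have d1 := (b1 φ).1
        rw [b3 φ e, H19.wtS_range] at d1
        refine Multiset.eq_zero_of_forall_notMem fun r hr => ?_
        have := Multiset.single_le_sum (fun _ _ => Nat.zero_le _) r hr
        have := (b1 φ).2 r hr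
        omega
      · rw [← b2.2]; exact sum_congr rfl fun φ _ => by rw [(b1 φ).1]
    obtain ⟨y, hy, e⟩ := c2
    have c3 : y ∈ HG (HH j) m := Submodule.span_le.2 (by
      rintro _ ⟨μ, h1, rfl, rfl⟩
      exact hg μ h1 hm) hy
    obtain rfl : y = x := (HH j).inj (funext fun n => by
      by_cases h : n = m
      · subst h; exact e
      · rw [c3 n h, hx.1 n h])
    refine prim_span (HH j) (fk j) hx ?_ (Submodule.span_le.2 ?_ hy)
    · rintro _ ⟨φ, k, h1, h2, rfl⟩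
      have := hx.2.1
      rw [← h2] at this ⊢
      exact hS'.pr φ k j h1 (Nat.pos_of_mul_pos_left this)
    · rintro _ ⟨μ, h1, h2, rfl⟩
      obtain ⟨φ, r, ν, a1, a2, a3, rfl⟩ := split (dg := C.dg) h1 (h2 ▸ hx.2.1)
      rw [wm_add, wm_single] at h2
      rw [mon_add, mon_single]
      have a4 := hg ν a3 (by omega)
      rcases Nat.eq_zero_or_pos (wm C.dg ν) with e0 | e0
      · rw [e0] at a4 h2
        rw [(fk j).hg_zero a4, mul_smul_comm, mul_one]
        exact Submodule.mem_sup_left (Submodule.smul_mem _ _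
          (Submodule.subset_span ⟨φ, r, a1, h2, rfl⟩))
      · exact Submodule.mem_sup_right (Submodule.subset_span ⟨_, _, _, _,
          Nat.mul_pos (lab.dg_pos φ) a2, e0, h2, (hS'.pr φ r j a1 a2).1, a4, rfl⟩)

end Cfsg.Agent.H20.GbRk1a
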