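import Cfsg.Agent.H20.HSbA

/-! `HSbStmt`: the subgroup `4³ : L₃(2)`. -/

set_option autoImplicit false
set_option linter.unusedSectionVars false

namespace Cfsg.Agent.H20.HN

open Cfsg Subgroup Cfsg.Agent.H99.HN
open Cfsg.Agent.H4.J2S (F4)
open scoped Pointwise

universe u

variable {G : Type u} [Group G] [Finite G] {U : HB G} {π : G → M4} {M : Subgroup G} (h : U.All π M)

/-- the centralizer of `t` and `Af` -/
def Ch (U : HB G) : Subgroup G := centralizer {U.t} ⊓ centralizer (Af0.map U.ψ : Set G)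

theorem uu (U : HB G) : U.u * U.u = 1 := by rw [HB.u, ← map_mul, γ_rel.2.2.2.2.2.2.2.1, map_one]
theorem tt (U : HB G) : U.t * U.t = 1 := by rw [HB.t, ← map_mul, γ_rel.2.2.2.2.2.2.2.2.1, map_one]

theorem not_zp {x : A12} (hx : x ≠ 1 ∧ x ≠ u0) : U.ψ x ∉ zpowers U.u := fun m =>
  (mem_zp (uu U) m).elim (fun e => hx.1 (U.inj (e.trans (map_one _).symm))) fun e => hx.2 (U.inj e)

theorem A_Ch {a : A12} (ha : a ∈ Af0) : U.ψ a ∈ Ch U := by
  refine ⟨mem_centralizer_singleton_iff.2 ?_, ?_⟩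
  · rw [HB.t, ← map_mul, (Af0_facts ha).2.1, map_mul]
  · rintro _ ⟨b, hb, rfl⟩
    have := (Af0_facts (mul_mem hb ha)).1
    rw [← map_mul, ← map_mul, eq_inv_of_mul_eq_one_left this, mul_inv_rev,
      inv_eq_of_mul_eq_one_left (Af0_facts ha).1, inv_eq_of_mul_eq_one_left (Af0_facts hb).1]

theorem Gf.ct {γ : A12} (hγ : Gf γ) : U.ψ γ * U.t = U.t * U.ψ γ := by
  rw [HB.t, ← map_mul, hγ.2.1, map_mul]

theorem conj_Ch {γ : A12} (hγ : Gf γ) : U.ψ γ ∈ normalizer (Ch U : Set G) := by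
  have h1 : U.ψ γ ∈ centralizer {U.t} := mem_centralizer_singleton_iff.2 hγ.ct
  refine mem_normalizer_fintype fun c hc =>
    ⟨Subgroup.mul_mem _ (Subgroup.mul_mem _ h1 hc.1) (Subgroup.inv_mem _ h1), ?_⟩
  rintro _ ⟨a, ha, rfl⟩
  have := hc.2 _ (mem_map_of_mem _ ((mem_normalizer_iff''.1 (norm_Af0 hγ.1) a).1 ha))
  rw [map_mul, map_mul, map_inv] at this
  calc U.ψ a * (U.ψ γ * c * (U.ψ γ)⁻¹) = U.ψ γ * ((U.ψ γ)⁻¹ * U.ψ a * U.ψ γ * c) * (U.ψ γ)⁻¹ := by group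
    _ = _ := by rw [this]; group

include h

theorem EpE {a : A12} (ha : a ∈ Ep0) : U.ψ a ∈ U.E := mem_sup_left (mem_map_of_mem _ ha)

theorem tE : U.t ∈ U.E := by
  have : U.t ∈ V30.map U.ψ := mem_map_of_mem _ (subset_closure (by simp))
  rw [← h.ef.dV] at this
  refine mem_sup_right (pointwise_smul_le_pointwise_smul_iff.2 (map_mono ?_) this)
  exact closure_mono (by intro x; simp; tauto)

theorem piA {a : A12} (ha : a ∈ Af0) : π (U.ψ a) = nt (π (U.ψ a)).b :=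
  have := h.md.πA _ (mem_map_of_mem _ ha)
  M4.ext this.1 rfl this.2.1 this.2.2

theorem AE {a : A12} (ha : a ∈ Af0) : U.ψ a ∈ U.E := EpE h (Af0_Ep ha)

theorem ind : (π (U.ψ x2)).b ≠ 0 ∧ (π (U.ψ x4)).b ≠ 0 ∧ (π (U.ψ x2)).b + (π (U.ψ x4)).b ≠ 0 := by
  have k : ∀ {a : A12}, a ∈ Af0 → a ≠ 1 ∧ a ≠ u0 → (π (U.ψ a)).b ≠ 0 := fun ha hx e =>
    not_zp hx ((h.md.ker _ (AE h ha)).1 (by rw [piA h ha, e]; rfl))
  refine ⟨k x2A x_ne.1, k x4A x_ne.2.1, ?_⟩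
  have := k (mul_mem x2A x4A) x_ne.2.2
  rwa [map_mul, h.md.add _ (AE h x2A) _ (AE h x4A)] at this

theorem ChL {g : G} (hg : g ∈ Ch U) : g ∈ U.L := h.kl g (hg.2 _ (mem_map_of_mem _ uA)).symm

theorem act {g : G} (hg : g ∈ Ch U) : ∃ β, U.Act π g (ut β) (ut β) false := by
  obtain ⟨A, B, b, hA, -, H⟩ := h.ls.all g (ChL h hg)
  have fx : ∀ {e}, e ∈ U.E → g * e = e * g → π e = A * M4.tw b (π e) * B := fun he c => by
    rw [← H _ he, c, mul_inv_cancel_right]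
  have h1 := fx (tE h) (mem_centralizer_singleton_iff.1 hg.1)
  rw [h.md.πt, m8] at h1
  obtain rfl := m1 hA h1
  have h2 := fx (AE h x2A) (hg.2 _ (mem_map_of_mem _ x2A)).symm
  have h3 := fx (AE h x4A) (hg.2 _ (mem_map_of_mem _ x4A)).symm
  rw [piA h x2A] at h2
  rw [piA h x4A] at h3
  obtain ⟨rfl, e1, e2⟩ := m2 A hA _ _ (ind h).1 (ind h).2.1 (ind h).2.2 b h2 h3
  exact ⟨A.b, (congrArg₂ (fun X Y => U.Act π g X Y false) e1 e2).mp H⟩

theorem conjE {g e : G} (hg : g ∈ U.L) (he : e ∈ U.E) : g * e * g⁻¹ ∈ U.E :=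
  (mem_normalizer_iff.1 hg.2 e).1 he

theorem act_mul {g k : G} {β γ : F4} (hk : k ∈ U.L) (h1 : U.Act π g (ut β) (ut β) false)
    (h2 : U.Act π k (ut γ) (ut γ) false) : U.Act π (g * k) (ut (β + γ)) (ut (β + γ)) false :=
  fun e he => by
    rw [show g * k * e * (g * k)⁻¹ = g * (k * e * k⁻¹) * g⁻¹ by group, h1 _ (conjE h hk he), h2 e he]
    exact m3 _ _ _

theorem act_E {g : G} (hg : g ∈ U.L) (h1 : U.Act π g (ut 0) (ut 0) false) : g ∈ U.E :=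
  h.ls.ker g hg h1

theorem sq_u {e : G} (he : e ∈ U.E) (hq : (π e).q ≠ 0) : e * e = U.u :=
  (mem_zp (uu U) (h.ef.sq e he)).resolve_left fun k => hq ((h.md.sq e he).1 k)

theorem exists_g0 : ∃ g ∈ U.E, π g = sc .w ∧ g * g = U.u ∧ g ∈ Ch U ∧ g ∈ M := by
  obtain ⟨g, hg, e⟩ := h.md.sur (sc .w)
  have gg : g * g = U.u := sq_u h hg (by rw [e]; decide)
  have k : ∀ {b}, b ∈ U.E → b * b = 1 → (sc .w + π b).q ≠ 0 → g * b = b * g := fun {b} hb bb q => by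
    have := sq_u h (mul_mem hg hb) (by rwa [h.md.add _ hg _ hb, e])
    rw [← gg, mul_assoc, mul_right_inj] at this
    conv_lhs => rw [← this]
    rw [mul_assoc, mul_assoc, bb, mul_one]
  have gt := k (tE h) (tt U) (by rw [h.md.πt]; decide)
  refine ⟨g, hg, e, gg, ⟨mem_centralizer_singleton_iff.2 gt, ?_⟩,
    (h.k0.RM g hg gt).2 (by rw [e]; decide)⟩
  rintro _ ⟨a, ha, rfl⟩
  exact (k (AE h ha) (by rw [← map_mul, (Af0_facts ha).1, map_one])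
    (by rw [piA h ha]; exact (m6 _).2.1)).symm

theorem comm_g0 {g k : G} (hg : g ∈ U.E) (e : π g = sc .w) (gg : g * g = U.u) (hk : k ∈ Ch U) :
    k * g * k⁻¹ * g⁻¹ ∈ zpowers U.u := by
  obtain ⟨β, H⟩ := act h hk
  have h1 := conjE h (ChL h hk) hg
  have := (h.md.ker _ (mul_mem h1 hg)).1 (by
    rw [h.md.add _ h1 _ hg, H g hg, e]; exact (m6 β).1)
  have := mul_mem this (inv_mem (mem_zpowers U.u))
  rwa [← gg, show k * g * k⁻¹ * g * (g * g)⁻¹ = k * g * k⁻¹ * g⁻¹ by group, gg] at this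

theorem E_le {Y : Subgroup G} {g : G} (hg : g ∈ U.E) (e : π g = sc .w) (gg : g * g = U.u) (gY : g ∈ Y)
    (tY : U.t ∈ Y) (h2 : U.ψ x2 ∈ Y) (h4 : U.ψ x4 ∈ Y) {c : G} (hc : c ∈ U.E) (cC : c ∈ Ch U)
    (cM : c ∈ M) : c ∈ Y := by
  have k : ∀ {a : A12}, a ∈ Af0 → ((π c + nt (π (U.ψ a)).b).q = 0 ↔ (π c).q = 0) := fun {a} ha => by
    rw [← piA h ha, ← h.md.add _ hc _ (AE h ha), ← h.md.sq _ (mul_mem hc (AE h ha)), ← h.md.sq _ hc,
      (show Commute (U.ψ a) c from cC.2 _ (mem_map_of_mem _ ha)).mul_mul_mul_comm, ← map_mul,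
      (Af0_facts ha).1, map_one, mul_one]
  have h1 := m4 _ _ (ind h).1 (ind h).2.1 (ind h).2.2 (π c)
    ((h.k0.RM c hc (mem_centralizer_singleton_iff.1 cC.1)).1 cM) (k x2A) (k x4A)
  have p1 : π 1 = 0 := (h.md.ker _ (one_mem _)).2 (one_mem _)
  obtain ⟨y, yY, yE, ey⟩ : ∃ y ∈ Y, y ∈ U.E ∧ π y = sc (π c).a := by
    generalize (π c).a = α
    cases α
    · exact ⟨1, one_mem _, one_mem _, p1⟩
    · exact ⟨_, tY, tE h, h.md.πt⟩
    · exact ⟨_, gY, hg, e⟩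
    · exact ⟨_, mul_mem gY tY, mul_mem hg (tE h), by rw [h.md.add _ hg _ (tE h), e, h.md.πt]; decide⟩
  obtain ⟨x, xY, xE, ex⟩ : ∃ x ∈ Y, x ∈ U.E ∧ π x = nt (π c).b := by
    have k2 : ∀ {α β : F4}, α + β = 0 → nt β = nt α := fun {α β} => by revert α β; decide
    rcases m5 (π c).b _ _ (ind h).1 (ind h).2.1 (ind h).2.2 with l | l | l | l
    · exact ⟨1, one_mem _, one_mem _, p1.trans (k2 l)⟩
    · exact ⟨_, h2, AE h x2A, (piA h x2A).trans (k2 l)⟩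
    · exact ⟨_, h4, AE h x4A, (piA h x4A).trans (k2 l)⟩
    · refine ⟨_, mul_mem h2 h4, mul_mem (AE h x2A) (AE h x4A), ?_⟩
      rw [h.md.add _ (AE h x2A) _ (AE h x4A), piA h x2A, piA h x4A, m7]
      exact k2 l
  have h3 := (h.md.ker _ (mul_mem hc (mul_mem yE xE))).1 (by
    rw [h.md.add _ hc _ (mul_mem yE xE), h.md.add _ yE _ xE, ey, ex, h1])
  exact (mul_mem_cancel_right (mul_mem yY xY)).1
    (zpowers_le_of_mem (gg ▸ mul_mem gY gY : U.u ∈ Y) h3)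

theorem Ch_le {Y : Subgroup G} {g g1 g2 : G} (hg : g ∈ U.E) (e : π g = sc .w) (gg : g * g = U.u)
    (gY : g ∈ Y) (tY : U.t ∈ Y) (c1 : g1 ∈ Ch U ⊓ M) (c2 : g2 ∈ Ch U ⊓ M) (y1 : g1 ∈ Y) (y2 : g2 ∈ Y)
    (s1 : g1 * g1 = U.ψ x2) (s2 : g2 * g2 = U.ψ x4) (c12 : Commute g1 g2) : Ch U ⊓ M ≤ Y := by
  intro c hc
  obtain ⟨α, H⟩ := act h hc.1
  obtain ⟨β, H1⟩ := act h c1.1
  obtain ⟨γ, H2⟩ := act h c2.1
  have H3 := act_mul h (ChL h c2.1) H1 H2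
  have H0 : U.Act π 1 (ut 0) (ut 0) false := fun e _ => by
    have : ∀ X : M4, X = ut 0 * M4.tw false X * ut 0 := by decide +kernel
    rw [one_mul, inv_one, mul_one]; exact this _
  have k : ∀ {x : G} {δ : F4} {a : A12}, x ∈ Ch U ⊓ M → U.Act π x (ut δ) (ut δ) false →
      x * x = U.ψ a → a ≠ 1 ∧ a ≠ u0 → δ ≠ 0 := fun hx Hx s n l =>
    not_zp n (s ▸ h.ef.sq _ (act_E h (ChL h hx.1) (l ▸ Hx)))
  have fin : ∀ {x : G} {δ : F4}, x ∈ Ch U ⊓ M → x ∈ Y → U.Act π x (ut δ) (ut δ) false → α + δ = 0 →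
      c ∈ Y := fun hx xY Hx l => by
    have m := mul_mem hc hx
    exact (mul_mem_cancel_right xY).1 (E_le h hg e gg gY tY (s1 ▸ mul_mem y1 y1) (s2 ▸ mul_mem y2 y2)
      (act_E h (ChL h m.1) (l ▸ act_mul h (ChL h hx.1) H Hx)) m.1 m.2)
  rcases m5 α β γ (k c1 H1 s1 x_ne.1) (k c2 H2 s2 x_ne.2.1) (k (mul_mem c1 c2) H3
    (by rw [c12.symm.mul_mul_mul_comm, s1, s2, map_mul]) x_ne.2.2) with l | l | l | l
  exacts [fin (one_mem _) (one_mem _) H0 l, fin c1 y1 H1 l, fin c2 y2 H2 l,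
    fin (mul_mem c1 c2) (mul_mem y1 y2) H3 l]

theorem not_t {a : A12} (ha : a ∈ Af0) {m : G} (e : m * U.ψ a * m⁻¹ * (U.ψ a)⁻¹ = U.t) : False := by
  have h1 : IsConj U.t (U.t * U.ψ a) := h.ls.cls1 _ (mul_mem (tE h) (AE h ha)) (by
    rw [h.md.add _ (tE h) _ (AE h ha), h.md.πt, piA h ha]; exact (m6 _).2.2.1)
  have h2 : IsConj (U.ψ a) (U.t * U.ψ a) := isConj_iff.2 ⟨m, by rw [← e]; group⟩
  refine h.cl.nc (h1.trans (h2.symm.trans (IsConj.symm ?_)))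
  by_cases k : π (U.ψ a) = 0
  · rcases mem_zp (uu U) ((h.md.ker _ (AE h ha)).1 k) with l | l
    · rw [l] at e
      exact absurd (U.inj (e.symm.trans (by simp))) γ_rel.2.2.2.2.2.2.2.2.2.2.2
    · rw [l]
  · exact h.ls.cls0 _ (AE h ha) k (by rw [piA h ha]; exact (m6 _).2.2.2.1)

theorem sqM {g : G} (hg : g * U.t = U.t * g) : g * g ∈ M :=
  mul_self_mem_of_index_two (H := M.subgroupOf (centralizer {U.t})) h.k0.idx
    ⟨g, mem_centralizer_singleton_iff.2 hg⟩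

theorem EpM {a : A12} (ha : a ∈ Ep0) (c : a * t0 = t0 * a) : U.ψ a ∈ M := by
  have := h.md.πp _ (mem_map_of_mem U.ψ ha)
  exact (h.k0.RM _ (EpE h ha) (by rw [HB.t, ← map_mul, c, map_mul])).2
    (by rw [M4.tr, this.1, this.2, add_zero])

theorem AM {a : A12} (ha : a ∈ Af0) : U.ψ a ∈ M := EpM h (Af0_Ep ha) (Af0_facts ha).2.1

variable {X : Type u} [Group X] {p : M →* X} (hp : U.Pj p)

/-- the embedding of `Af0` -/
def κ (p : M →* X) : Af0 →* X :=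
  p.comp ((U.ψ.comp Af0.subtype).codRestrict M fun a => AM h a.2)

theorem κ_range : (κ h p).range = HB.im p (Af0.map U.ψ) := by
  ext x
  constructor
  · rintro ⟨a, rfl⟩
    exact ⟨_, mem_map_of_mem U.ψ a.2, rfl⟩
  · rintro ⟨⟨_, m⟩, ⟨a, ha, rfl⟩, rfl⟩
    exact ⟨⟨a, ha⟩, rfl⟩

include hp

theorem κ_inj : Function.Injective (κ h p) := (injective_iff_map_eq_one _).2 fun a e => by
  rcases mem_zp (tt U) ((hp.2 _).1 e) with l | l
  · exact Subtype.ext (U.inj (l.trans (map_one _).symm))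
  · exact absurd (U.inj l) (Af0_facts a.2).2.2

theorem cent_iff {m : M} :
    p m ∈ centralizer (HB.im p (Af0.map U.ψ) : Set X) ↔ (m : G) ∈ Ch U := by
  constructor
  · intro c
    refine ⟨h.k0.le m.2, ?_⟩
    rintro _ ⟨a, ha, rfl⟩
    have := c _ ⟨⟨_, AM h ha⟩, mem_map_of_mem U.ψ ha, rfl⟩
    have h1 : p (m * ⟨_, AM h ha⟩ * m⁻¹ * ⟨_, AM h ha⟩⁻¹) = 1 := by
      rw [map_mul, map_mul, map_mul, map_inv, map_inv, ← this]; group
    rcases mem_zp (tt U) ((hp.2 _).1 h1) with l | l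
    · exact (mul_inv_eq_iff_eq_mul.1 (mul_inv_eq_one.1 l)).symm
    · exact (not_t h ha l).elim
  · rintro c _ ⟨x, hx, rfl⟩
    rw [← map_mul, ← map_mul]
    exact congrArg p (Subtype.ext (c.2 _ hx))

theorem hsb_main : HSb (HB.im p (Af0.map U.ψ)) := by
  have : Finite X := Finite.of_surjective p hp.1
  obtain ⟨r2, r3, r7, q3, q7, e1, e2, -⟩ := γ_rel
  have m3 : U.ψ γ3 ∈ M := by
    rw [q3, map_mul]; exact sqM h (by rw [map_pow]; exact (Commute.pow_left gf3.ct 2).eq)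
  have m7 : U.ψ γ7 ∈ M := by
    rw [q7, map_mul]; exact sqM h (by rw [map_pow]; exact (Commute.pow_left gf7.ct 4).eq)
  have m2 : U.ψ γ2 ∈ M := EpM h (subset_closure (by simp [γ2])) gf2.2.1
  obtain ⟨g, hg, e, gg, gC, gM⟩ := exists_g0 h
  have cj : ∀ {x}, x ∈ Ch U ⊓ M → MulAut.conj (U.ψ γ3) x ∈ Ch U ⊓ M := fun {x} hx =>
    ⟨(mem_normalizer_iff.1 (conj_Ch gf3) x).1 hx.1, M.mul_mem (M.mul_mem m3 hx.2) (M.inv_mem m3)⟩
  have τ3 : ∀ x, MulAut.conj (U.ψ γ3) (MulAut.conj (U.ψ γ3) (MulAut.conj (U.ψ γ3) x)) = x := fun x => by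
    rw [← MulAut.mul_apply, ← MulAut.mul_apply, ← map_mul, ← map_mul, ← map_mul, ← map_mul, ← pow_three',
      r3, map_one, map_one, MulAut.one_apply]
  have τu : MulAut.conj (U.ψ γ3) U.u = U.ψ x2 := by
    rw [← e1, map_mul, map_mul, map_inv]; rfl
  have τx : MulAut.conj (U.ψ γ3) (U.ψ x2) = U.ψ x4 := by
    rw [← e2, map_mul, map_mul, map_inv]; rfl
  generalize MulAut.conj (U.ψ γ3) = τ at cj τ3 τu τx
  have c0 : g ∈ Ch U ⊓ M := ⟨gC, gM⟩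
  have c1 := cj c0
  have c2 := cj c1
  have s1 : τ g * τ g = U.ψ x2 := by rw [← map_mul, gg, τu]
  have s2 : τ (τ g) * τ (τ g) = U.ψ x4 := by rw [← map_mul, s1, τx]
  have k01 : Commute g (τ g) := by
    rcases mem_zp (uu U) (comm_g0 h hg e gg c1.1) with l | l
    · exact (mul_inv_eq_iff_eq_mul.1 (mul_inv_eq_one.1 l)).symm
    rcases mem_zp (uu U) (comm_g0 h hg e gg c2.1) with l2 | l2 <;> replace l2 := congrArg τ l2 <;>
      simp only [map_mul, map_inv, τ3, map_one, τu] at l2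
    · exact mul_inv_eq_iff_eq_mul.1 (mul_inv_eq_one.1 l2)
    · refine absurd (U.inj (?_ : U.u = U.ψ x2)) γ_rel.2.2.2.2.2.2.2.2.2.2.1
      rw [← l2, ← inv_eq_of_mul_eq_one_left (uu U), ← l]
      group
  have k12 : Commute (τ g) (τ (τ g)) := k01.map τ
  have k02 : Commute g (τ (τ g)) := by
    have := k12.map τ
    rw [τ3] at this
    exact this.symm
  have p4 : ∀ {x : M} {a : A12}, a ∈ Af0 → (x : G) * x = U.ψ a → p x ^ 4 = 1 := fun {x a} ha s => by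
    rw [← map_pow, show x ^ 4 = 1 from Subtype.ext ?_, map_one]
    rw [coe_pow, show 4 = 2 * 2 from rfl, pow_mul, pow_two (x : G), s, pow_two, ← map_mul,
      (Af0_facts ha).1, map_one, coe_one]
  have pc : ∀ {x y : M}, Commute (x : G) y → Commute (p x) (p y) := fun {x y} c =>
    Commute.map (show x * y = y * x from Subtype.ext c) p
  obtain ⟨f, hf, f0, f1, f2, f3⟩ := exists_hom4 (x := p ⟨_, gM⟩) (y := p ⟨_, c1.2⟩) (z := p ⟨_, c2.2⟩)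
    (pc k01) (pc k02) (pc k12) (p4 uA gg) (p4 x2A s1) (p4 x4A s2) fun i hi j hj k hk l => by
      have ev : ∀ i ∈ [0, 2], ∃ i' ∈ [0, 1], i = 2 * i' := by decide
      obtain ⟨i, hi', rfl⟩ := ev i hi
      obtain ⟨j, hj', rfl⟩ := ev j hj
      obtain ⟨k, hk', rfl⟩ := ev k hk
      rw [← map_pow, ← map_pow, ← map_pow, ← map_mul, ← map_mul, hp.2] at l
      simp only [coe_mul, coe_pow, pow_mul, pow_two, gg, s1, s2, HB.u, ← map_pow, ← map_mul] at l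
      obtain ⟨rfl, rfl, rfl⟩ := x_ind i hi' j hj' k hk' ((mem_zp (tt U) l).imp
        (fun l => U.inj (l.trans (map_one _).symm)) fun l => U.inj l)
      simp
  refine hsb_abs ?_ ?_ ?_ hf (le_antisymm (f3 _ ((cent_iff h hp).2 gC) ((cent_iff h hp).2 c1.1)
    ((cent_iff h hp).2 c2.1)) fun x hx => ?_) ?_
  · refine ⟨⟨fun x y => Subtype.ext ?_⟩⟩
    obtain ⟨m, ⟨a, ha, l⟩, l2⟩ := x.2
    have := (cent_iff h hp (m := m)).2 (by rw [show (m : G) = U.ψ a from l.symm]; exact A_Ch ha) y y.2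
    rw [l2] at this
    exact this.symm
  · rintro _ ⟨⟨_, m⟩, ⟨a, ha, rfl⟩, rfl⟩
    rw [← map_pow, show (⟨U.ψ a, m⟩ : M) ^ 2 = 1 from Subtype.ext ?_, map_one]
    rw [coe_pow, pow_two, ← map_mul, (Af0_facts ha).1, map_one, coe_one]
  · rw [← κ_range h, ← Nat.card_congr (MonoidHom.ofInjective (κ_inj h hp)).toEquiv, card_Af0]
  · obtain ⟨m, rfl⟩ := hp.1 x
    obtain ⟨m', h1, h2⟩ := Ch_le h (Y := (f.range.comap p).map M.subtype) hg e gg ⟨⟨_, gM⟩, f0, rfl⟩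
      ⟨⟨_, h.k0.tM⟩, by
        rw [SetLike.mem_coe, mem_comap, (hp.2 _).2 (mem_zpowers _)]; exact one_mem _, rfl⟩
      c1 c2 ⟨⟨_, c1.2⟩, f1, rfl⟩ ⟨⟨_, c2.2⟩, f2, rfl⟩ s1 s2 k12 ⟨(cent_iff h hp).1 hx, m.2⟩
    obtain rfl : m' = m := Subtype.ext h2
    exact h1
  · have key : ∀ {γ : A12} {q : ℕ}, Gf γ → U.ψ γ ∈ M → γ ^ q = 1 →
        ∃ n ∈ normalizer (HB.im p (Af0.map U.ψ) : Set X), n ^ q = 1 ∧
          n ∉ centralizer (HB.im p (Af0.map U.ψ) : Set X) := fun {γ q} hγ m r => by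
      refine ⟨p ⟨_, m⟩, mem_normalizer_fintype ?_, ?_, fun c => hγ.2.2 (U.inj ?_)⟩
      · rintro _ ⟨⟨_, m'⟩, ⟨a, ha, rfl⟩, rfl⟩
        refine ⟨⟨_, m⟩ * ⟨_, m'⟩ * ⟨_, m⟩⁻¹, ⟨_, (mem_normalizer_iff.1 (norm_Af0 hγ.1) a).1 ha, ?_⟩,
          by rw [map_mul, map_mul, map_inv]⟩
        rw [map_mul, map_mul, map_inv]; rfl
      · rw [← map_pow, show (⟨U.ψ γ, m⟩ : M) ^ q = 1 from Subtype.ext ?_, map_one]
        rw [coe_pow, ← map_pow, r, map_one, coe_one]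
      · rw [map_mul, map_mul]
        exact ((cent_iff h hp).1 c).2 _ (mem_map_of_mem _ x4A)
    intro q hq
    simp only [List.mem_cons, List.not_mem_nil, or_false] at hq
    rcases hq with rfl | rfl | rfl
    exacts [key gf2 m2 r2, key gf3 m3 r3, key gf7 m7 r7]

omit h hp in
theorem hsb : HSbStmt.{u} := fun _ _ _ _ _ _ h _ _ _ hp => hsb_main h hp

end Cfsg.Agent.H20.HN
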