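import Mathlib
import Cfsg.Agent.H89.L27Defs
import Cfsg.Agent.H50.E83Mu

/-! Project L27, piece ACT: the action of the component `A₂` of the centraliser. -/

set_option autoImplicit false
set_option maxRecDepth 100000

namespace Cfsg.Agent.H20.L27Act

open Equiv Cfsg.Lie H37 H40 H34 H29 Module Cfsg.Agent.H50.E83 Cfsg.Agent.H89.L27
open scoped Matrix

def g7 (r : ℕ) : ℤ :=
  ∑ j : Fin chevE8.rank, gt rcE8 r j * (([1, 0, 0, 0, 0, 1, 0, 0] : List ℕ).getD j 0 : ℕ)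

theorem f7_eq (r : Rt) : f7 r = g7 r := by
  simp only [f7, g7, vN, rc_eq C8 tabOKE8]

theorem chk : (∀ r ∈ A2, r < chevE8.nroots ∧ g7 r = 0 ∧ (∀ i < 6, co chevE8 r i = 0) ∧
    chevE8.chainEntry r 162 = [] ∧ 162 ≠ chevE8.neg r ∧
    ∀ s < 240, g7 s % 7 = 0 → ∀ e ∈ chevE8.chainEntry r s, e.1 ∈ A2) ∧ g7 162 = 1 := by
  decide +kernel

theorem eV_mem {s : ℕ} (hs : s ∈ A2) : eV chevE8 K s ∈ U8 :=
  ⟨fun _ _ => rfl, fun r hr => if_neg fun (e : (r : ℕ) = s) => hr (e ▸ hs)⟩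

theorem hR_mem {r : ℕ} (hr : r ∈ A2) : hR chevE8 K r ∈ U8 :=
  ⟨fun i hi => by
    change ((co chevE8 r i : ℤ) : K) = 0
    rw [(chk.1 r hr).2.2.1 i hi, Int.cast_zero], fun _ _ => rfl⟩

theorem chain_mem (t : K) (L : List (ℕ × ℤ)) (h : ∀ e ∈ L, e.1 ∈ A2) (a : K) :
    chainSum chevE8 K t a L ∈ U8 := by
  induction L generalizing a with
  | nil => exact U8.zero_mem
  | cons e L ih =>
    exact U8.add_mem (U8.smul_mem _ (eV_mem (h e (by simp)))) (ih (fun e he => h e (by simp [he])) _)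

theorem act_xg (r : ℕ) (t : K) (v : V) : act (C8.xg K r t) v = chevE8.x K r t *ᵥ v := by
  rw [act_apply, Cert.coe_xg, C8.V.coe_xG]

theorem gen_mem {r : ℕ} (hr : r ∈ A2) (t : K) {v : V}
    (hv : ∀ s : Rt, g7 s % 7 ≠ 0 → v (Sum.inr s) = 0) : act (C8.xg K r t) v - v ∈ U8 := by
  classical
  obtain ⟨h1, -, -, -, -, h2⟩ := chk.1 r hr
  change v ∈ U8.comap (act (C8.xg K r t) - 1)
  rw [pi_eq_sum_univ' v]
  refine Submodule.sum_mem _ fun w _ => ?_
  by_cases h0 : v w = 0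
  · rw [h0, zero_smul]; exact Submodule.zero_mem _
  refine Submodule.smul_mem _ _ ?_
  change act (C8.xg K r t) _ - _ ∈ U8
  rw [act_xg, Module.End.one_apply]
  rcases w with i | s
  · rw [← hV_eq_single, x_hV h1 t i.2, sub_sub_cancel_left]
    exact U8.neg_mem (U8.smul_mem _ (eV_mem hr))
  · rw [← eV_eq_single]
    by_cases hs : (s : ℕ) = chevE8.neg r
    · rw [hs, x_eV_neg C8.V.basic h1, add_sub_assoc, add_sub_cancel_left]
      exact U8.sub_mem (U8.smul_mem _ (hR_mem hr)) (U8.smul_mem _ (eV_mem hr))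
    · rw [x_eV C8.V.basic h1 t hs, add_sub_cancel_left]
      exact chain_mem t _ (h2 s s.2 (by_contra fun h => h0 (hv s h))) t

theorem actS : ActStmt := by
  intro ζ h hζ hl y hy
  have cm : ∀ z : GK, Commute h z → ∀ v ∈ eig h 1, act z v ∈ eig h 1 := fun z hz v hv => by
    rw [mem_eig, one_smul] at hv ⊢
    rw [← Module.End.mul_apply, ← map_mul, hz.eq, map_mul, Module.End.mul_apply, hv]
  have key : Commute h y ∧ (∀ v ∈ eig h 1, act y v - v ∈ U8) ∧
      act y (eV chevE8 K 162) = eV chevE8 K 162 := by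
    refine Subgroup.closure_induction (p := fun y _ => Commute h y ∧
      (∀ v ∈ eig h 1, act y v - v ∈ U8) ∧ act y (eV chevE8 K 162) = eV chevE8 K 162)
      ?_ ?_ ?_ ?_ hy
    · rintro _ ⟨r, hr, t, rfl⟩
      obtain ⟨h1, h2, -, h3, h4, -⟩ := chk.1 r hr
      refine ⟨?_, fun v hv => gen_mem hr t fun s hs => ?_, ?_⟩
      · have := hl.conj_xg ⟨r, h1⟩ t
        rw [f7_eq, h2, zpow_zero, Units.val_one, one_mul] at this
        exact mul_inv_eq_iff_eq_mul.1 this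
      · refine ((mem_eig_lab hl 1 v).1 hv).2 s fun e => hs ?_
        rw [Units.val_eq_one, ← zpow_zero ζ, zpow_eq_iff hζ, Int.cast_zero, f7_eq,
          ZMod.intCast_zmod_eq_zero_iff_dvd] at e
        exact Int.emod_eq_zero_of_dvd e
      · rw [act_xg, x_eV C8.V.basic h1 t h4, h3]
        exact add_zero _
    · exact ⟨Commute.one_right _, fun v _ => by simp, by simp⟩
    · rintro a b - - ⟨a1, a2, a3⟩ ⟨b1, b2, b3⟩
      refine ⟨a1.mul_right b1, fun v hv => ?_, by rw [map_mul, Module.End.mul_apply, b3, a3]⟩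
      have := U8.add_mem (a2 _ (cm b b1 v hv)) (b2 v hv)
      rwa [sub_add_sub_cancel, ← Module.End.mul_apply, ← map_mul] at this
    · rintro a - ⟨a1, a2, a3⟩
      refine ⟨a1.inv_right, fun v hv => ?_, by nth_rw 1 [← a3]; rw [act_inv]⟩
      have := U8.neg_mem (a2 _ (cm a⁻¹ a1.inv_right v hv))
      rwa [neg_sub, ← Module.End.mul_apply, ← map_mul, mul_inv_cancel, map_one,
        Module.End.one_apply] at this
  refine ⟨key.1, key.2.1, fun hz => ?_⟩
  obtain ⟨k, rfl⟩ : ∃ k : ℕ, h ^ k = y :=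
    (Submonoid.mem_powers_iff _ _).1 ((IsOfFinOrder.mem_powers_iff_mem_zpowers
      (isOfFinOrder_iff_pow_eq_one.2 ⟨7, by norm_num, hl.pow_eq_one hζ⟩)).2 hz)
  let s : Rt := ⟨162, by decide⟩
  have h1 := (act_lab (hl.pow k) (eV chevE8 K 162)).2 s
  have h2 : eV chevE8 K 162 (Sum.inr s) = 1 := by simp [eV, s]
  have h3 : f7 s = 1 := (f7_eq s).trans chk.2
  rw [key.2.2, h2, mul_one, h3, mul_one, eq_comm, Units.val_eq_one, ← zpow_zero ζ,
    zpow_eq_iff hζ] at h1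
  refine ((hl.pow k).eq_one_iff hζ).2 fun r => ?_
  rw [Int.cast_mul, h1]; simp

end Cfsg.Agent.H20.L27Act
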