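import Cfsg.Agent.H50.L81Defs
import Cfsg.Agent.H80.FvEnt
import Cfsg.Agent.H40.FvComm
import Cfsg.Agent.H34.FvStab
import Cfsg.Agent.H95.FvNact2
import Cfsg.Agent.H28.FvReg
import Cfsg.Agent.H47.FvTri

/-! The root support of a set of unipotent elements of `E₈`. -/

set_option autoImplicit false

namespace Cfsg.Agent.H20.L81Sup

open Equiv Cfsg.Lie H37 H40 H34 H29 H50.E83 H50.L81
open H42.Fv (al cp Sum2 Clo Pos Supp act_mul act_act_inv act_eq_ac clo_pos)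

theorem sub_cl (D : Set Rt) : D ⊆ cl D := fun _ hr _ _ h => h hr

theorem clo_cl (D : Set Rt) : Clo (cl D) := fun r hr s hs t h A hA hD =>
  hA r (hr A hA hD) s (hs A hA hD) t h

theorem ind_cl (D : Set Rt) : Ind (cl D) ⊆ D := fun r hr => by
  by_contra h
  exact (hr.1 (cl D \ {r}) (fun s hs s' hs' t e => ⟨clo_cl D s hs.1 s' hs'.1 t e,
    fun e' => hr.2 ⟨s, hs.1, s', hs'.1, (show t = r from e') ▸ e⟩⟩)
    fun s hs => ⟨sub_cl D hs, fun e => h ((show s = r from e) ▸ hs)⟩).2 rfl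

theorem sup : SupStmt := by
  intro n hn X hX
  obtain ⟨c, c0⟩ := H42.Fv.nact2 n hn
  have c1 := fun v => (c0 v).1
  have hw := P8.ν_mem n hn
  have stab := H34.FvS.stab H80.FvEnt.entS K Pos le_rfl clo_pos
  have e1 : ∀ x v, act x (act n v) = act n (act (n⁻¹ * x * n) v) := fun x v => by
    rw [← act_mul, ← act_mul, ← mul_assoc, mul_inv_cancel_left]
  have h1 : cl (DD X) ⊆ {r | (P8.ν n)⁻¹ r ∈ Pos} := fun r hr => hr _
    (fun s hs s' hs' t e => clo_pos ((P8.ν n)⁻¹ s) hs ((P8.ν n)⁻¹ s') hs' ((P8.ν n)⁻¹ t)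
      (e.W (inv_mem hw))) (by
      rintro s ⟨x, hx, h, hh, e⟩
      have a1 : Supp Pos (act n⁻¹ h) := fun t ht => by
        have := c1 (act n⁻¹ h) t
        rw [act_act_inv, hh] at this
        exact absurd this.symm (mul_ne_zero (c t).ne_zero ht)
      have a2 : Supp Pos (act (n⁻¹ * x * n) (act n⁻¹ h)) := by
        rw [act_eq_ac]
        exact (stab (act n⁻¹ h) a1 (n⁻¹ * x * n) (hX x hx)).1
      show (P8.ν n)⁻¹ s ∈ Pos
      refine a2 ((P8.ν n)⁻¹ s) fun e' => e ?_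
      have := c1 (act (n⁻¹ * x * n) (act n⁻¹ h)) ((P8.ν n)⁻¹ s)
      rw [← e1, act_act_inv, e', mul_zero] at this
      simpa using this)
  refine ⟨⟨clo_cl _, fun r => C8.R.ht ((P8.ν n)⁻¹ r), isAdd_ht.comp (inv_mem hw),
    fun r hr => (C8.R.ht_pos_iff _).2 (h1 hr)⟩, fun x hx => ?_, ind_cl _⟩
  obtain ⟨h, h0, hr⟩ := H28.FvR.reg
  have h2 := H47.FvTri.tri H80.FvEnt.entS H40.FvComm.filt Pos le_rfl {r | P8.ν n r ∈ cl (DD X)}
    clo_pos (fun s hs s' hs' t e => clo_cl (DD X) (P8.ν n s) hs (P8.ν n s') hs' (P8.ν n t) (e.W hw)) h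
    (fun r e => (h0 r e).elim) (fun r _ _ => hr r) _ (hX x hx) fun r _ hr' => by
      by_contra e
      have a3 : P8.ν n r ∉ cl (DD X) := hr'
      refine a3 (sub_cl (DD X) ⟨x, hx, act n h, fun s => ?_, ?_⟩)
      · have := c1 h ((P8.ν n)⁻¹ s)
        rw [show h (Sum.inr ((P8.ν n)⁻¹ s)) = 0 from by_contra fun e => h0 _ e, mul_zero] at this
        simpa using this
      · rw [e1, c1]
        exact mul_ne_zero (c r).ne_zero e
  have h3 : ∀ r ∈ Pos ∩ {r | P8.ν n r ∈ cl (DD X)}, P8.ν n r ∈ cl (DD X) := by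
    rintro r ⟨-, hr⟩
    simpa only [Set.mem_ofPred_eq] using hr
  have := Split.conj_U hn h3 h2
  simpa [mul_assoc] using this

end Cfsg.Agent.H20.L81Sup
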