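import Cfsg.Agent.H79.RbDefs

/-! Commutation rules in the Fock space. -/

set_option autoImplicit false

namespace Cfsg.Agent.H20.RB

open Cfsg.Agent.H79.RB MvPolynomial Finset

theorem shift_X (k : ℕ) : shift (X k) = Polynomial.C (X k) + Polynomial.X ^ (2 * k + 1) := by
  simp [shift]

theorem TT_X_mul (k j : ℕ) (P : Fk) :
    TT j (X k * P) = X k * TT j P + if 2 * k + 1 ≤ j then TT (j - (2 * k + 1)) P else 0 := by
  simp only [TT, LinearMap.comp_apply, AlgHom.toLinearMap_apply, LinearMap.restrictScalars_apply,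
    Polynomial.lcoeff_apply, map_mul, shift_X, add_mul, Polynomial.coeff_add,
    Polynomial.coeff_C_mul, Polynomial.coeff_X_pow_mul']

theorem pderiv_TT (i : ℕ) (P : Fk) (j : ℕ) : pderiv i (TT j P) = TT j (pderiv i P) := by
  induction P using MvPolynomial.induction_on generalizing j with
  | C a =>
    have : shift (C a) = Polynomial.C (C a) := by simp [shift]
    simp only [TT, LinearMap.comp_apply, AlgHom.toLinearMap_apply, LinearMap.restrictScalars_apply,
      Polynomial.lcoeff_apply, this, Polynomial.coeff_C, pderiv_C, map_zero]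
    split_ifs <;> simp
  | add P R h h' => simp only [map_add, h, h']
  | mul_X P k h =>
    rw [mul_comm, TT_X_mul, map_add, pderiv_mul, pderiv_mul, map_add, TT_X_mul, h, apply_ite (pderiv i),
      h, map_zero, add_assoc]
    congr 1
    by_cases e : k = i
    · simp [e]
    · simp [pderiv_X_of_ne e]

theorem AA_apply (i : ℕ) (P : Fk) : AA i P = (((2 * i + 1 : ℕ) : ℂ) / 2) • pderiv i P := rfl

theorem AA_TT (i j : ℕ) (P : Fk) : AA i (TT j P) = TT j (AA i P) := by
  rw [AA_apply, AA_apply, map_smul, pderiv_TT]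

theorem AA_mul (i : ℕ) (P R : Fk) : AA i (P * R) = AA i P * R + P * AA i R := by
  simp only [AA_apply, pderiv_mul, smul_add, smul_mul_assoc, mul_smul_comm]

theorem coeff_qz (a : ℤ) (m : ℕ →₀ ℕ) :
    coeff m (qz a) = if (wt m : ℤ) = a then (nrm m)⁻¹ else 0 := by
  unfold qz
  split_ifs with h h' h'
  · simp [qq, coeff_sum, coeff_monomial, mem_Mon, ← h']
  · simp only [qq, coeff_sum, coeff_monomial, sum_ite_eq', mem_Mon]
    rw [if_neg (by omega)]
  · omega
  · rfl

theorem nrm_succ (m : ℕ →₀ ℕ) (i : ℕ) :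
    nrm (m + Finsupp.single i 1) = nrm m * (((2 * i + 1 : ℕ) : ℂ) / 2 * (m i + 1)) := by
  have key (m : ℕ →₀ ℕ) : nrm m =
      ((((2 * i + 1 : ℕ) : ℂ) / 2) ^ m i * ((m i).factorial : ℂ)) * nrm (m.erase i) :=
    (Finsupp.mul_prod_erase' m i _ (by simp)).symm
  rw [key, key m, Finsupp.erase_add, Finsupp.erase_single, add_zero, Finsupp.add_apply,
    Finsupp.single_eq_same, Nat.factorial_succ]
  push_cast
  ring

theorem AA_qz (i : ℕ) (a : ℤ) : AA i (qz a) = qz (a - (2 * i + 1 : ℕ)) := by
  ext m
  rw [AA_apply, coeff_smul, coeff_pderiv, coeff_qz, coeff_qz, wt_add, wt_single, nrm_succ]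
  have h1 := nrm_ne_zero m
  have h2 : ((2 * i + 1 : ℕ) : ℂ) ≠ 0 := Nat.cast_ne_zero.2 (by omega)
  have h3 : (m i : ℂ) + 1 ≠ 0 := Nat.cast_add_one_ne_zero _
  split_ifs with h h' h'
  · rw [smul_eq_mul]; field_simp
  · omega
  · omega
  · simp

theorem commStmt (hb : BasicStmt) : CommStmt := by
  refine ⟨AA_TT, AA_qz, fun i a P => ?_, fun i a P => ?_⟩
  · have h (j : ℕ) (hj : (shift P).natDegree < j) : TT j P = 0 :=
      Polynomial.coeff_eq_zero_of_natDegree_lt hj
    rw [hb.2.2.2.2.2.2.1 a _ P h, hb.2.2.2.2.2.2.1 _ _ P h,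
      hb.2.2.2.2.2.2.1 a _ _ fun j hj => by rw [← AA_TT, h j hj, map_zero], map_sum,
      ← sum_add_distrib]
    refine sum_congr rfl fun j _ => ?_
    rw [map_smul, AA_mul, AA_qz, AA_TT, ← smul_add, add_comm, sub_add_eq_add_sub]
  · simp only [phi, LinearMap.comp_apply, AlgHom.toLinearMap_apply, map_mul, shift_X]
    generalize shift P = f
    induction f using Polynomial.induction_on' with
    | add f g h h' => simp only [mul_add, map_add, h, h']; abel
    | monomial j c =>
      rw [add_mul, Polynomial.C_mul_monomial, Polynomial.X_pow_mul_monomial, map_add]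
      simp only [Polynomial.lsum_apply]
      rw [Polynomial.sum_monomial_index _ _ (by simp), Polynomial.sum_monomial_index _ _ (by simp),
        Polynomial.sum_monomial_index _ _ (by simp), Polynomial.sum_monomial_index _ _ (by simp)]
      simp only [LinearMap.smul_apply, LinearMap.mulLeft_apply]
      rw [pow_add, (odd_two_mul_add_one i).neg_one_pow, Nat.cast_add j, add_right_comm a, add_assoc a,
        mul_neg, mul_one, neg_smul, neg_add_cancel_right, mul_smul_comm, mul_left_comm]

end Cfsg.Agent.H20.RB
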