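import Cfsg.Agent.H35.S4Defs

/-! Type III for `Sp₄(q)`: the groups `S` and `P`. -/

set_option autoImplicit false
set_option linter.unusedSectionVars false

namespace Cfsg.Agent.H20.S4L

open Cfsg Cfsg.Agent.H63 Cfsg.Agent.H63.SL Subgroup Cfsg.Agent.H35.S4
open scoped commutatorElement

universe u v

variable {F : Type v} [Field F] [Finite F] {G : Type u} [Group G] [Finite G] {L : Subgroup G}
  {x : ZMod 8 → F → G} {t : G} {A : Type v} [CommRing A] {j : F →+* A} {σ : A ≃+* A}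
  {y : ZMod 8 → A → G} {Yh : ZMod 8 → Subgroup G}

theorem add_zero' {B : Type*} [AddMonoid B] {f : B → G} (h : ∀ a b, f (a + b) = f a * f b) :
    f 0 = 1 := by simpa using h 0 0

theorem add_sq {B : Type*} [CommRing B] (h2 : (2 : B) = 0) {f : B → G}
    (h : ∀ a b, f (a + b) = f a * f b) (a : B) : f a * f a = 1 := by
  rw [← h, ← two_mul, h2, zero_mul, add_zero' h]

theorem eq_of_add {B : Type*} [CommRing B] (h2 : (2 : B) = 0) {a b : B} (h : a + b = 0) : a = b := by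
  linear_combination h - b * h2

theorem xmem (i : ZMod 8) (a : F) : x i a ∈ XR x i := subset_closure ⟨a, rfl⟩

theorem nrm {H : Subgroup G} {g : G} (h : ∀ s ∈ H, g * s * g⁻¹ ∈ H) : g ∈ N[H] :=
  H8.mem_normalizer_of_conj_smul_le fun s hs => by
    simpa [mul_assoc] using h _ (H8.mem_conj_smul.1 hs)

section
variable (hC : Ctx L x t)
include hC

theorem x0 (i : ZMod 8) : x i 0 = 1 := add_zero' (hC.mod.pin.add i)

theorem xx (i : ZMod 8) (a : F) : x i a * x i a = 1 := add_sq hC.mod.pin.two (hC.mod.pin.add i) a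

theorem xinv (i : ZMod 8) (a : F) : (x i a)⁻¹ = x i a := inv_eq_of_mul_eq_one_left (xx hC i a)

theorem tx (i : ZMod 8) (a : F) : Commute t (x i a) := hC.kb.tL _ (hC.kb.xL i a)

theorem tt : t * t = 1 := by rw [← sq, ← hC.tc.t2, pow_orderOf_eq_one]

theorem uq3 {a b c : F} (h : x 2 a * x 3 b * x 4 c = 1) : a = 0 ∧ b = 0 ∧ c = 0 := by
  have := hC.kp.uniq 2 a b c 0 (by rw [x0 hC, mul_one]; exact h)
  exact ⟨this.1, this.2.1, this.2.2.1⟩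

theorem lam0 {p : G} {i : ZMod 8} (h : p * t * p⁻¹ = t * x i 0) : Commute p t := by
  rw [x0 hC, mul_one] at h
  exact mul_inv_eq_iff_eq_mul.1 h

theorem cardY (hH : HatL L x t y Yh) {i : ZMod 8} (hi : ¬ sh i) :
    Nat.card (Yh i) = Nat.card F ^ 2 := by
  choose s hs e using hH.surj i hi
  have k (a c : F) : s a * x i c * t * (s a * x i c)⁻¹ = t * x i a := by
    rw [← e, mul_assoc (s a), ← (tx hC i c).eq]; group
  rw [sq, ← Nat.card_prod]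
  refine (Nat.card_eq_of_bijective (fun z : F × F => (⟨s z.1 * x i z.2,
    mul_mem (hs _) (hH.le i hi _)⟩ : Yh i)) ⟨fun z z' h => ?_, fun p => ?_⟩).symm
  · have h : s z.1 * x i z.2 = s z'.1 * x i z'.2 := congrArg Subtype.val h
    have inj {a b : F} (h : x i a = x i b) : a = b := eq_of_add hC.mod.pin.two
      (hC.mod.pin.inj i _ (by rw [hC.mod.pin.add, h, xx hC]))
    have h1 : z.1 = z'.1 := inj (mul_left_cancel ((k z.1 z.2).symm.trans (by rw [h, k])))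
    rw [h1] at h
    exact Prod.ext h1 (inj (mul_left_cancel h))
  · obtain ⟨-, -, ⟨a, ha, -⟩, -⟩ := (hH.mem i hi p).1 p.2
    obtain ⟨c, hc⟩ := hH.fix i hi ((s a)⁻¹ * p) (mul_mem (inv_mem (hs a)) p.2) (by
      have := ha.trans (e a).symm
      calc (s a)⁻¹ * p * t = (s a)⁻¹ * (p * t * (p : G)⁻¹) * p := by group
        _ = _ := by rw [this]; group)
    exact ⟨(a, c), Subtype.ext (by simp [← hc])⟩

variable (hD : DblS L x t j σ y)
include hD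

theorem y0 {i : ZMod 8} (hi : sh i) : y i 0 = 1 := add_zero' (hD.add i hi)

theorem yy {i : ZMod 8} (hi : sh i) (a : A) : y i a * y i a = 1 :=
  add_sq hD.quad.two (hD.add i hi) a

theorem yc {i : ZMod 8} (hi : sh i) (a b : A) : Commute (y i a) (y i b) := by
  rw [Commute, SemiconjBy, ← hD.add i hi, ← hD.add i hi, add_comm]

theorem extr (a : A) : ∃ n, j n = a + σ a :=
  let ⟨n, h⟩ := (hD.quad.fix (a + σ a)).1 (by rw [map_add, hD.quad.sq, add_comm]); ⟨n, h.symm⟩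

theorem exnm (a : A) : ∃ n, j n = a * σ a :=
  let ⟨n, h⟩ := (hD.quad.fix (a * σ a)).1 (by rw [map_mul, hD.quad.sq, mul_comm]); ⟨n, h.symm⟩

theorem lamy {b : A} {n : F} (h : j n = b + σ b) : y 3 b * t * (y 3 b)⁻¹ = t * x 3 n := by
  have := hD.conj 3 (by decide) (σ b)
  rw [hD.quad.sq] at this
  rw [← hD.res 3 (by decide), h, add_comm, hD.add 3 (by decide),
    inv_eq_of_mul_eq_one_left (yy hC hD (by decide) b)]
  conv_lhs => rw [← this]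
  rw [this]
  nth_rw 1 [← this]
  group

theorem yfix {b : A} (h : Commute t (y 3 b)) : ∃ n, b = j n := by
  refine (hD.quad.fix b).1 (eq_of_add hD.quad.two (hD.inj 3 (by decide) _ ?_))
  rw [hD.add 3 (by decide), ← hD.conj 3 (by decide), h.eq, mul_inv_cancel_right,
    yy hC hD (by decide)]

theorem c32 (a : A) (u : F) : Commute (y 3 a) (x 2 u) := (hD.c1 3 (by decide) a u).2

theorem c34 (a : A) (u : F) : Commute (y 3 a) (x 4 u) := (hD.c1 3 (by decide) a u).1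

theorem smul (a c a' c' : F) (b b' : A) : x 2 a * y 3 b * x 4 c * (x 2 a' * y 3 b' * x 4 c') =
    x 2 (a + a') * y 3 (b + b') * x 4 (c + c') := by
  have h24 : Commute (x 2 a') (x 4 c) := hC.mod.pin.c2 2 a' c
  rw [hC.mod.pin.add, hC.mod.pin.add, hD.add 3 (by decide)]
  calc _ = x 2 a * (y 3 b * x 4 c * x 2 a') * y 3 b' * x 4 c' := by group
    _ = x 2 a * x 2 a' * y 3 b * (x 4 c * y 3 b') * x 4 c' := by
      rw [((c32 hC hD b a').mul_left h24.symm).eq]; group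
    _ = _ := by rw [← (c34 hC hD b' c).eq]; group

/-- the group `S` -/
def SS : Subgroup G where
  carrier := {g | ∃ a b c, g = x 2 a * y 3 b * x 4 c}
  one_mem' := ⟨0, 0, 0, by rw [x0 hC, x0 hC, y0 hC hD (by decide)]; simp⟩
  mul_mem' := by
    rintro _ _ ⟨a, b, c, rfl⟩ ⟨a', b', c', rfl⟩
    exact ⟨_, _, _, smul hC hD ..⟩
  inv_mem' := by
    rintro _ ⟨a, b, c, rfl⟩
    refine ⟨a, b, c, inv_eq_of_mul_eq_one_left ?_⟩
    rw [smul hC hD, hC.mod.pin.add, hC.mod.pin.add, hD.add 3 (by decide), xx hC, xx hC,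
      yy hC hD (by decide)]
    simp

theorem sqS (g : G) (h : g ∈ SS hC hD) : g * g = 1 := by
  obtain ⟨a, b, c, rfl⟩ := h
  rw [smul hC hD, hC.mod.pin.add, hC.mod.pin.add, hD.add 3 (by decide), xx hC, xx hC,
    yy hC hD (by decide)]
  simp

theorem m2 (a : F) : x 2 a ∈ SS hC hD := ⟨a, 0, 0, by rw [x0 hC, y0 hC hD (by decide)]; simp⟩

theorem m3 (b : A) : y 3 b ∈ SS hC hD := ⟨0, b, 0, by rw [x0 hC, x0 hC]; simp⟩

theorem m4 (a : F) : x 4 a ∈ SS hC hD := ⟨0, 0, a, by rw [x0 hC, y0 hC hD (by decide)]; simp⟩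

theorem m3' (a : F) : x 3 a ∈ SS hC hD := hD.res 3 (by decide) a ▸ m3 hC hD _

theorem uqS (a : F) (b : A) (c : F) (h : x 2 a * y 3 b * x 4 c = 1) : a = 0 ∧ b = 0 ∧ c = 0 := by
  obtain ⟨n, rfl⟩ := yfix hC hD (b := b) (by
    have : y 3 b = (x 2 a)⁻¹ * (x 4 c)⁻¹ := by rw [← mul_one (x 2 a)⁻¹, ← h]; group
    rw [this]
    exact (tx hC 2 a).inv_right.mul_right (tx hC 4 c).inv_right)
  rw [hD.res 3 (by decide)] at h
  obtain ⟨rfl, rfl, rfl⟩ := uq3 hC h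
  exact ⟨rfl, map_zero j, rfl⟩

theorem cS {g : G} (h2 : ∀ a, Commute g (x 2 a)) (h3 : ∀ a, Commute g (y 3 a))
    (h4 : ∀ a, Commute g (x 4 a)) : g ∈ C[SS hC hD] := by
  rintro _ ⟨a, b, c, rfl⟩
  exact (((h2 a).mul_right (h3 b)).mul_right (h4 c)).eq.symm

theorem nS {g : G} (h2 : ∀ a, ⁅g, x 2 a⁆ ∈ SS hC hD) (h3 : ∀ a, ⁅g, y 3 a⁆ ∈ SS hC hD)
    (h4 : ∀ a, ⁅g, x 4 a⁆ ∈ SS hC hD) : g ∈ N[SS hC hD] := nrm (by
  rintro _ ⟨a, b, c, rfl⟩
  have : g * (x 2 a * y 3 b * x 4 c) * g⁻¹ =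
      ⁅g, x 2 a⁆ * x 2 a * (⁅g, y 3 b⁆ * y 3 b) * (⁅g, x 4 c⁆ * x 4 c) := by
    simp only [commutatorElement_def]; group
  rw [this]
  exact mul_mem (mul_mem (mul_mem (h2 a) (m2 hC hD a)) (mul_mem (h3 b) (m3 hC hD b)))
    (mul_mem (h4 c) (m4 hC hD c)))

theorem n1 (a : A) : y 1 a ∈ N[SS hC hD] := by
  refine nS hC hD (fun u => ?_) (fun b => ?_) fun u => ?_
  · rw [(show Commute (y 1 a) (x 2 u) from (hD.c1 1 (by decide) a u).1).commutator_eq]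
    exact one_mem _
  · obtain ⟨n, hn⟩ := extr hC hD (a * b)
    rw [show ⁅y 1 a, y 3 b⁆ = x 2 n from hD.s2 1 (by decide) a b n hn]
    exact m2 hC hD n
  · obtain ⟨n, hn⟩ := exnm hC hD a
    rw [show ⁅y 1 a, x 4 u⁆ = x 2 _ * y 3 _ from (hD.s3 1 (by decide) a n hn u).1]
    exact mul_mem (m2 hC hD _) (m3 hC hD _)

theorem n5 (a : A) : y 5 a ∈ N[SS hC hD] := by
  refine nS hC hD (fun u => ?_) (fun b => ?_) fun u => ?_
  · obtain ⟨n, hn⟩ := exnm hC hD a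
    rw [show ⁅y 5 a, x 2 u⁆ = x 4 _ * y 3 _ from (hD.s3 5 (by decide) a n hn u).2]
    exact mul_mem (m4 hC hD _) (m3 hC hD _)
  · obtain ⟨n, hn⟩ := extr hC hD (b * a)
    rw [← commutatorElement_inv, show ⁅y 3 b, y 5 a⁆ = x 4 n from hD.s2 3 (by decide) b a n hn]
    exact inv_mem (m4 hC hD n)
  · rw [(show Commute (y 5 a) (x 4 u) from (hD.c1 5 (by decide) a u).2).commutator_eq]
    exact one_mem _

theorem nH : HH x L ≤ N[SS hC hD] := fun h hh => by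
  obtain ⟨α, β, e⟩ := hC.kp.memH h hh
  refine nS hC hD (fun u => ?_) (fun b => ?_) fun u => ?_ <;> rw [commutatorElement_def]
  · rw [e]; exact mul_mem (m2 hC hD _) (inv_mem (m2 hC hD _))
  · rw [hD.tor h hh.1 α β e 3 (by decide)]; exact mul_mem (m3 hC hD _) (inv_mem (m3 hC hD _))
  · rw [e]; exact mul_mem (m4 hC hD _) (inv_mem (m4 hC hD _))

theorem nK : KK x 1 ≤ L ⊓ N[SS hC hD] := by
  refine sup_le ((closure_le _).2 ?_) ((closure_le _).2 ?_) <;> rintro _ ⟨a, rfl⟩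
  · exact ⟨hC.kb.xL _ _, hD.res 1 (by decide) a ▸ n1 hC hD _⟩
  · exact ⟨hC.kb.xL _ _, (show y 5 (j a) = x (1 + 4) a from hD.res 5 (by decide) a) ▸ n5 hC hD _⟩

variable (hH : HatL L x t y Yh)
include hH

theorem cY2 {p : G} (hp : p ∈ Yh 2) : p ∈ C[SS hC hD] :=
  cS hC hD (fun a => hH.com 2 (by decide) p hp _ (hH.le 2 (by decide) a))
    (fun a => (hH.cy 2 (by decide) p hp a).1) fun a =>
    (hH.cK 2 (by decide) hp _ (mem_sup_left (xmem 4 a)) : _ = _).symm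

theorem cY4 {p : G} (hp : p ∈ Yh 4) : p ∈ C[SS hC hD] :=
  cS hC hD (fun a => (hH.cK 4 (by decide) hp _ (mem_sup_right (xmem 2 a)) : _ = _).symm)
    (fun a => (hH.cy 4 (by decide) p hp a).2) fun a =>
    hH.com 4 (by decide) p hp _ (hH.le 4 (by decide) a)

theorem pmul {p q p' q' : G} (hq : q ∈ Yh 2) (hp' : p' ∈ Yh 4) (b b' : A) :
    ∃ c, p * y 3 b * p' * (q * y 3 b' * q') = p * q * y 3 c * (p' * q') := by
  obtain ⟨n, hn⟩ := (hC.kp.memX 3 _).1 (hH.l2 2 (by decide) q hq p' hp')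
  rw [← hD.res 3 (by decide)] at hn
  have k : p' * q = y 3 (j n) * q * p' := by
    rw [← inv_eq_of_mul_eq_one_left (yy hC hD (by decide) (j n)), ← hn, commutatorElement_def]
    group
  refine ⟨b + j n + b', ?_⟩
  calc _ = p * y 3 b * (p' * q) * y 3 b' * q' := by group
    _ = p * (y 3 b * y 3 (j n) * q) * (y 3 b' * p') * q' := by
      rw [k, cY4 hC hD hH hp' _ (m3 hC hD b')]; group
    _ = _ := by
      rw [cY2 hC hD hH hq _ (mul_mem (m3 hC hD _) (m3 hC hD _)), hD.add 3 (by decide),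
        hD.add 3 (by decide)]
      group

/-- the group `P` -/
def PP : Subgroup G :=
  have m : ∀ {g g' : G}, (∃ p ∈ Yh 2, ∃ b, ∃ p' ∈ Yh 4, g = p * y 3 b * p') →
      (∃ p ∈ Yh 2, ∃ b, ∃ p' ∈ Yh 4, g' = p * y 3 b * p') →
      ∃ p ∈ Yh 2, ∃ b, ∃ p' ∈ Yh 4, g * g' = p * y 3 b * p' := by
    rintro _ _ ⟨p, hp, b, p', hp', rfl⟩ ⟨q, hq, b', q', hq', rfl⟩
    obtain ⟨c, e⟩ := pmul (p := p) (q' := q') hC hD hH hq hp' b b'
    exact ⟨_, mul_mem hp hq, c, _, mul_mem hp' hq', e⟩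
  { carrier := {g | ∃ p ∈ Yh 2, ∃ b, ∃ p' ∈ Yh 4, g = p * y 3 b * p'}
    one_mem' := ⟨1, one_mem _, 0, 1, one_mem _, by simp [y0 hC hD (show sh 3 by decide)]⟩
    mul_mem' := m
    inv_mem' := by
      rintro _ ⟨p, hp, b, p', hp', rfl⟩
      have := m ⟨1, one_mem _, 0, p'⁻¹, inv_mem hp', rfl⟩ ⟨p⁻¹, inv_mem hp, b, 1, one_mem _, rfl⟩
      rw [← cY2 hC hD hH (inv_mem hp) _ (m3 hC hD b), y0 hC hD (by decide),
        ← inv_eq_of_mul_eq_one_left (yy hC hD (by decide) b)] at this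
      simpa [mul_assoc] using this }

theorem SP : SS hC hD ≤ PP hC hD hH := by
  rintro _ ⟨a, b, c, rfl⟩
  exact ⟨_, hH.le 2 (by decide) a, b, _, hH.le 4 (by decide) c, rfl⟩

theorem cP : PP hC hD hH ≤ C[SS hC hD] := by
  rintro _ ⟨p, hp, b, p', hp', rfl⟩
  exact mul_mem (mul_mem (cY2 hC hD hH hp) (cS hC hD (c32 hC hD b) (yc hC hD (by decide) b)
    (c34 hC hD b))) (cY4 hC hD hH hp')

theorem lamP {p p' : G} (hp : p ∈ Yh 2) {b : A} {w n w' : F} (h2 : p * t * p⁻¹ = t * x 2 w)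
    (h3 : j n = b + σ b) (h4 : p' * t * p'⁻¹ = t * x 4 w') :
    p * y 3 b * p' * t * (p * y 3 b * p')⁻¹ = t * (x 2 w * x 3 n * x 4 w') := by
  calc _ = p * (y 3 b * (p' * t * p'⁻¹) * (y 3 b)⁻¹) * p⁻¹ := by group
    _ = p * (y 3 b * t * (y 3 b)⁻¹ * x 4 w') * p⁻¹ := by
      rw [h4, mul_assoc _ (y 3 b)⁻¹, (c34 hC hD b w').inv_left.eq]; group
    _ = p * t * (x 3 n * x 4 w' * p⁻¹) := by rw [lamy hC hD h3]; group
    _ = _ := by
      rw [cY2 hC hD hH (inv_mem hp) _ (mul_mem (m3' hC hD _) (m4 hC hD _)), ← mul_assoc, h2]; group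

theorem uqP (p : G) (hp : p ∈ Yh 2) (p' : G) (hp' : p' ∈ Yh 4) (h : p * p' ∈ SS hC hD) :
    p ∈ XR x 2 ∧ p' ∈ XR x 4 := by
  obtain ⟨-, -, ⟨w, h2, -⟩, -⟩ := (hH.mem 2 (by decide) p).1 hp
  obtain ⟨-, -, ⟨w', h4, -⟩, -⟩ := (hH.mem 4 (by decide) p').1 hp'
  obtain ⟨a, b, c, e⟩ := h
  obtain ⟨n, hn⟩ := extr hC hD b
  have k {i : ZMod 8} (a : F) : x i a * t * (x i a)⁻¹ = t * x i 0 := by
    rw [x0 hC, ← (tx hC i a).eq]; group
  have e1 := lamP hC hD hH hp h2 (b := 0) (n := 0) (by simp) h4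
  rw [y0 hC hD (by decide), mul_one, e,
    lamP hC hD hH (hH.le 2 (by decide) a) (k a) hn (k c), mul_left_cancel_iff,
    ← hD.res 3 (by decide), ← hD.res 3 (by decide)] at e1
  have := sqS hC hD _ ⟨w, j 0, w', rfl⟩
  nth_rw 1 [← e1] at this
  rw [smul hC hD] at this
  obtain ⟨a1, -, a2⟩ := uqS hC hD _ _ _ this
  rw [zero_add] at a1 a2
  subst a1 a2
  exact ⟨(hC.kp.memX _ _).2 (hH.fix 2 (by decide) p hp (lam0 hC h2)),
    (hC.kp.memX _ _).2 (hH.fix 4 (by decide) p' hp' (lam0 hC h4))⟩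

theorem sqP (g : G) (h : g ∈ PP hC hD hH) : g * g ∈ SS hC hD := by
  obtain ⟨p, hp, b, p', hp', rfl⟩ := h
  obtain ⟨c, e⟩ := pmul (p := p) (q' := p') hC hD hH hp hp' b b
  obtain ⟨-, -, ⟨w, -, h2⟩, -⟩ := (hH.mem 2 (by decide) p).1 hp
  obtain ⟨-, -, ⟨w', -, h4⟩, -⟩ := (hH.mem 4 (by decide) p').1 hp'
  exact ⟨_, c, _, by rw [e, h2, h4]⟩

theorem tP (g : G) (h : g ∈ PP hC hD hH) : ⁅g, t⁆ ∈ SS hC hD := by
  obtain ⟨p, hp, b, p', hp', rfl⟩ := h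
  obtain ⟨-, -, ⟨w, h2, -⟩, -⟩ := (hH.mem 2 (by decide) p).1 hp
  obtain ⟨-, -, ⟨w', h4, -⟩, -⟩ := (hH.mem 4 (by decide) p').1 hp'
  obtain ⟨n, hn⟩ := extr hC hD b
  rw [commutatorElement_def, lamP hC hD hH hp h2 hn h4,
    (((tx hC 2 w).mul_right (tx hC 3 n)).mul_right (tx hC 4 w')).eq, mul_inv_cancel_right]
  exact mul_mem (mul_mem (m2 hC hD _) (m3' hC hD _)) (m4 hC hD _)

theorem oddP : OddC L t (PP hC hD hH) := by
  rintro k h1 h2 h3 _ ⟨p, hp, b, p', hp', rfl⟩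
  exact ((hH.odd 2 (by decide) k h1 h2 h3 p hp).mul_right
    (hD.odd 3 (by decide) k h1 h2 h3 _ ⟨b, rfl⟩)).mul_right (hH.odd 4 (by decide) k h1 h2 h3 p' hp')

theorem fixO (g : G) (hg : g ∈ C[SS hC hD]) (h : ⁅g, t⁆ ∈ SS hC hD) :
    ∃ p ∈ PP hC hD hH, ∃ o ∈ Od L t, g = p * o := by
  have ct : Commute t ⁅g, t⁆ := by
    have e := sqS hC hD _ h
    have e' : ⁅g, t⁆ * t * (⁅g, t⁆ * t) = 1 := by
      calc _ = g * (t * t) * g⁻¹ := by rw [commutatorElement_def]; group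
        _ = 1 := by rw [tt hC]; group
    have e1 : t * ⁅g, t⁆ * t = ⁅g, t⁆ := mul_left_cancel (a := ⁅g, t⁆) (by rw [e, ← e']; group)
    calc t * ⁅g, t⁆ = t * ⁅g, t⁆ * t * t := by rw [mul_assoc _ t t, tt hC, mul_one]
      _ = _ := by rw [e1]
  obtain ⟨a, b, c, e⟩ := h
  obtain ⟨n, rfl⟩ := yfix hC hD (b := b) (by
    have : y 3 b = (x 2 a)⁻¹ * ⁅g, t⁆ * (x 4 c)⁻¹ := by rw [e]; group
    rw [this]
    exact ((tx hC 2 a).inv_right.mul_right ct).mul_right (tx hC 4 c).inv_right)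
  obtain ⟨p, hp, h2⟩ := hH.surj 2 (by decide) a
  obtain ⟨p', hp', h4⟩ := hH.surj 4 (by decide) c
  obtain ⟨ω, hω⟩ := hD.quad.tr
  have h5 := lamP hC hD hH hp h2 (b := j n * ω) (n := n) (by
    rw [map_mul, hω, (hD.quad.fix _).2 ⟨n, rfl⟩]
    linear_combination (-j n * ω) * hD.quad.two) h4
  have hP : p * y 3 (j n * ω) * p' ∈ PP hC hD hH := ⟨p, hp, _, p', hp', rfl⟩
  generalize p * y 3 (j n * ω) * p' = r at h5 hP
  rw [← hD.res 3 (by decide), ← e, ct.eq] at h5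
  have hc := mul_mem (inv_mem (cP hC hD hH hP)) hg
  have AS : A3 x 3 ≤ SS hC hD := fun v hv => by
    obtain ⟨a, b, c, rfl⟩ := (hC.kp.memA 3 v).1 hv
    exact mul_mem (mul_mem (m2 hC hD _) (m3' hC hD _)) (m4 hC hD _)
  obtain ⟨v, hv, o, ho, k | k⟩ := hC.kb.cA 3 (r⁻¹ * g) (by
    calc r⁻¹ * g * t = r⁻¹ * (⁅g, t⁆ * t) * g := by rw [commutatorElement_def]; group
      _ = _ := by rw [← h5]; group) (centralizer_le AS hc)
  · exact ⟨r * v, mul_mem hP (SP hC hD hH (AS hv)), o, ho, by rw [mul_assoc, ← k]; group⟩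
  · have c1 : Commute (r⁻¹ * g) (y 3 ω) := (hc _ (m3 hC hD ω)).symm
    have c2 : Commute v (y 3 ω) := (cP hC hD hH (SP hC hD hH (AS hv)) _ (m3 hC hD ω)).symm
    have c3 := hD.odd 3 (by decide) o ho.1 ho.2.1 ho.2.2 _ ⟨ω, rfl⟩
    obtain ⟨m, rfl⟩ := yfix hC hD (b := ω) (by
      have : t = r⁻¹ * g * o⁻¹ * v⁻¹ := by rw [k]; group
      rw [this]
      exact (c1.mul_left c3.inv_left).mul_left c2.inv_left)
    rw [(hD.quad.fix _).2 ⟨m, rfl⟩, left_eq_add] at hω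
    have := hD.res 3 (by decide) 1
    rw [map_one, hω, y0 hC hD (by decide)] at this
    exact absurd (hC.mod.pin.inj 3 1 this.symm) one_ne_zero

theorem p4 (g : G) (h : g ∈ PP hC hD hH) : g ^ 2 ^ 2 = 1 := by
  rw [← sqS hC hD _ (sqP hC hD hH g h), ← sq, ← sq, ← pow_mul]; rfl

theorem fix (g : G) (hg : g ∈ C[SS hC hD]) (h2 : Is2 g) (h : ⁅g, t⁆ ∈ SS hC hD) :
    g ∈ PP hC hD hH := by
  obtain ⟨p, hp, o, ho, rfl⟩ := fixO hC hD hH g hg h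
  obtain ⟨k, hk⟩ := h2
  have : o ^ 2 ^ (k + 2) = 1 := by
    have := congrArg (· ^ 2 ^ 2) hk
    simp only [← pow_mul, one_pow] at this
    rwa [(oddP hC hD hH o ho.1 ho.2.1 ho.2.2 p hp).symm.mul_pow, mul_comm (2 ^ k), pow_mul,
      p4 hC hD hH p hp, one_pow, one_mul, mul_comm, ← pow_add] at this
  rw [orderOf_eq_one_iff.1 (((Nat.coprime_two_right.2 ho.2.2).pow_right _).eq_one_of_dvd
    (orderOf_dvd_of_pow_eq_one this)), mul_one]
  exact hp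

theorem nP : L ⊓ N[SS hC hD] ≤ N[PP hC hD hH] := fun h hh => nrm fun g hg => by
  refine fix hC hD hH _ (fun s hs => ?_) ⟨2, by rw [conj_pow, p4 hC hD hH g hg]; simp⟩ ?_
  · have := cP hC hD hH hg _ ((mem_normalizer_iff.1 (inv_mem hh.2) s).1 hs)
    calc s * (h * g * h⁻¹) = h * (h⁻¹ * s * h⁻¹⁻¹ * g) * h⁻¹ := by group
      _ = _ := by rw [this]; group
  · have := (mem_normalizer_iff.1 hh.2 _).1 (tP hC hD hH g hg)
    rwa [conjugate_commutatorElement, ← (hC.kb.tL h hh.1).eq, mul_inv_cancel_right] at this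

theorem trP (g : G) (h : g ∈ PP hC hD hH) :
    ∃ k ∈ KK x 1, ∃ p ∈ Yh 2, p⁻¹ * (k * g * k⁻¹) ∈ SS hC hD := by
  obtain ⟨p, hp, b, p', hp', rfl⟩ := h
  obtain ⟨cA, -, ⟨w, h2, -⟩, -⟩ := (hH.mem 2 (by decide) p).1 hp
  obtain ⟨-, -, ⟨w', h4, -⟩, -⟩ := (hH.mem 4 (by decide) p').1 hp'
  by_cases h0 : w' = 0
  · subst h0
    obtain ⟨c, rfl⟩ := hH.fix 4 (by decide) p' hp' (lam0 hC h4)
    exact ⟨1, one_mem _, p, hp, by simpa [mul_assoc] using mul_mem (m3 hC hD b) (m4 hC hD c)⟩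
  obtain ⟨s, hs⟩ := hC.kb.root (w / w')
  obtain ⟨q, hq, b', k1, -, k2⟩ := hH.l3 p' hp' w' h4 s
  rw [hs, div_mul_cancel₀ _ h0] at k1
  obtain ⟨c, hc⟩ := hH.fix 2 (by decide) (p * q) (mul_mem hp hq) (lam0 hC (i := 2) (by
    calc _ = p * (q * t * q⁻¹) * p⁻¹ := by group
      _ = p * t * p⁻¹ * x 2 w := by
        rw [k1, mul_assoc _ p⁻¹, ← cY2 hC hD hH (inv_mem hp) _ (m2 hC hD w)]; group
      _ = _ := by rw [h2, mul_assoc, xx hC, x0 hC]))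
  have m1 : x 1 s ∈ KK x 1 := mem_sup_left (xmem 1 s)
  have mn : n2 x 1 ∈ KK x 1 := mul_mem (mul_mem (mem_sup_left (xmem 1 1))
    (mem_sup_right (xmem _ 1))) (mem_sup_left (xmem 1 1))
  refine ⟨_, mul_mem mn m1, n2 x 1 * p' * (n2 x 1)⁻¹, (hH.mem 2 (by decide) _).2
    (hC.kb.hatN 1 1 4 p' ((hH.mem 4 (by decide) _).1 hp')), ?_⟩
  have k3 : x 1 s * p = p * x 1 s := cA _ (mem_sup_left (mem_sup_left (xmem 1 s)))
  have k4 := (mem_normalizer_iff.1 (nK hC hD m1).2 _).1 (m3 hC hD b)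
  have k5 := (mem_normalizer_iff.1 (nK hC hD mn).2 _).1
    (mul_mem (mul_mem (m2 hC hD c) k4) (m3 hC hD b'))
  convert k5 using 1
  calc _ = n2 x 1 * (p'⁻¹ * ((x 1 s * p) * (x 1 s)⁻¹ * (x 1 s * y 3 b * (x 1 s)⁻¹) *
        (x 1 s * p' * (x 1 s)⁻¹))) * (n2 x 1)⁻¹ := by group
    _ = n2 x 1 * (p'⁻¹ * (p * (x 1 s * y 3 b * (x 1 s)⁻¹ * q) * p' * y 3 b')) * (n2 x 1)⁻¹ := by
      rw [k2, k3]; group
    _ = n2 x 1 * (p'⁻¹ * (x 2 c * (x 1 s * y 3 b * (x 1 s)⁻¹) * p') * y 3 b') * (n2 x 1)⁻¹ := by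
      rw [cY2 hC hD hH hq _ k4, ← hc]; group
    _ = _ := by rw [cY4 hC hD hH hp' _ (mul_mem (m2 hC hD c) k4)]; group

theorem upP (a : A) (s : F) (h : y 1 a * t * (y 1 a)⁻¹ = t * x 1 s) (p : G) (hp : p ∈ Yh 4) (w : F)
    (h4 : p * t * p⁻¹ = t * x 4 w) : ∃ p' ∈ Yh 2, p' * t * p'⁻¹ = t * x 2 (s ^ 2 * w) ∧
      p'⁻¹ * (t⁻¹ * (y 1 a * p * (y 1 a)⁻¹ * t * (y 1 a * p * (y 1 a)⁻¹)⁻¹)) ∈ SS hC hD := by
  obtain ⟨q, hq, b, k1, -, k2⟩ := hH.l3 p hp w h4 s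
  refine ⟨q, hq, k1, ?_⟩
  have i1 := inv_eq_of_mul_eq_one_left (yy hC hD (show sh 1 by decide) a)
  have k3 : (y 1 a)⁻¹ * t * y 1 a = t * x 1 s := by rw [← h, i1]
  have k4 : p * x 1 s * p⁻¹ = x 1 s * q * y 3 b := by
    calc _ = (x 1 s)⁻¹ * (x 1 s * p * (x 1 s)⁻¹) * p⁻¹ := by nth_rw 1 [← xinv hC 1 s]; group
      _ = _ := by rw [k2, xinv hC, mul_assoc q, ← cY4 hC hD hH hp _ (m3 hC hD b)]; group
  have k5 : Commute (y 1 a) (x 1 s * q) :=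
    (hD.res 1 (by decide) s ▸ yc hC hD (by decide) a (j s)).mul_right
      (show Commute q (y 1 a) from (hH.cy 2 (by decide) q hq a).2).symm
  have k6 := (mem_normalizer_iff.1 (nK hC hD (mem_sup_left (xmem 1 s))).2 _).1
    ((mem_normalizer_iff.1 (n1 hC hD a) _).1 (m4 hC hD w))
  convert mul_mem k6 ((mem_normalizer_iff.1 (n1 hC hD a) _).1 (m3 hC hD b)) using 1
  calc _ = q⁻¹ * t⁻¹ * y 1 a * (p * ((y 1 a)⁻¹ * t * y 1 a) * p⁻¹) * (y 1 a)⁻¹ := by group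
    _ = q⁻¹ * t⁻¹ * y 1 a * (p * t * p⁻¹) * (p * x 1 s * p⁻¹) * (y 1 a)⁻¹ := by rw [k3]; group
    _ = q⁻¹ * t⁻¹ * (y 1 a * t * (y 1 a)⁻¹) * (y 1 a * x 4 w * (y 1 a)⁻¹) *
        (y 1 a * (x 1 s * q)) * y 3 b * (y 1 a)⁻¹ := by rw [h4, k4]; group
    _ = q⁻¹ * (x 1 s * (y 1 a * x 4 w * (y 1 a)⁻¹) * (x 1 s)⁻¹ * q) *
        (y 1 a * y 3 b * (y 1 a)⁻¹) := by rw [h, k5.eq, xinv hC]; group
    _ = _ := by rw [cY2 hC hD hH hq _ k6]; group

theorem cardP : Nat.card (PP hC hD hH) = Nat.card F ^ 6 := by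
  rw [← Nat.card_eq_of_bijective (fun z : Yh 2 × A × Yh 4 =>
    (⟨z.1 * y 3 z.2.1 * z.2.2, _, z.1.2, _, _, z.2.2.2, rfl⟩ : PP hC hD hH)) ⟨?_, ?_⟩,
    Nat.card_prod, Nat.card_prod, cardY hC hH (by decide), cardY hC hH (by decide), hD.quad.card]
  · ring
  · rintro ⟨p, b, p'⟩ ⟨q, b', q'⟩ h
    have h : (p : G) * y 3 b * p' = q * y 3 b' * q' := congrArg Subtype.val h
    have hr := mul_mem (inv_mem q.2) p.2
    have hr' := mul_mem p'.2 (inv_mem q'.2)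
    have e : (q : G)⁻¹ * p * y 3 (b + b') * (p' * (q' : G)⁻¹) = 1 := by
      rw [hD.add 3 (by decide), ← yy hC hD (show sh 3 by decide) b']
      calc _ = (q : G)⁻¹ * p * y 3 b * (y 3 b' * (p' * (q' : G)⁻¹)) := by group
        _ = (q : G)⁻¹ * (p * y 3 b * p') * (q' : G)⁻¹ * y 3 b' := by
          rw [cY4 hC hD hH hr' _ (m3 hC hD b')]; group
        _ = _ := by rw [h]; group
    obtain ⟨k1, k2⟩ := uqP hC hD hH _ hr _ hr' (by
      rw [mul_assoc, cY4 hC hD hH hr' _ (m3 hC hD _), ← mul_assoc, mul_eq_one_iff_eq_inv] at e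
      exact e ▸ inv_mem (m3 hC hD _))
    obtain ⟨a, k1⟩ := (hC.kp.memX _ _).1 k1
    obtain ⟨c, k2⟩ := (hC.kp.memX _ _).1 k2
    rw [k1, k2] at e
    obtain ⟨rfl, k3, rfl⟩ := uqS hC hD _ _ _ e
    rw [x0 hC] at k1 k2
    rw [Subtype.ext (inv_mul_eq_one.1 k1), Subtype.ext (mul_inv_eq_one.1 k2),
      eq_of_add hD.quad.two k3]
  · rintro ⟨_, p, hp, b, p', hp', rfl⟩
    exact ⟨(⟨p, hp⟩, b, ⟨p', hp'⟩), rfl⟩

omit hH in
theorem cardS : Nat.card (SS hC hD) = Nat.card F ^ 4 := by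
  rw [← Nat.card_eq_of_bijective (fun z : F × A × F =>
    (⟨x 2 z.1 * y 3 z.2.1 * x 4 z.2.2, _, _, _, rfl⟩ : SS hC hD)) ⟨?_, ?_⟩,
    Nat.card_prod, Nat.card_prod, hD.quad.card]
  · ring
  · rintro ⟨a, b, c⟩ ⟨a', b', c'⟩ h
    have h : x 2 a * y 3 b * x 4 c = x 2 a' * y 3 b' * x 4 c' := congrArg Subtype.val h
    have := sqS hC hD _ ⟨a, b, c, rfl⟩
    nth_rw 2 [h] at this
    rw [smul hC hD] at this
    obtain ⟨k1, k2, k3⟩ := uqS hC hD _ _ _ this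
    rw [eq_of_add hC.mod.pin.two k1, eq_of_add hD.quad.two k2, eq_of_add hC.mod.pin.two k3]
  · rintro ⟨_, a, b, c, rfl⟩
    exact ⟨(a, b, c), rfl⟩

end

theorem lv1 : Lv1Stmt.{u, v} := by
  intro F _ _ G _ _ L x t hC A _ j σ y Yh hD hH
  refine ⟨SS hC hD, PP hC hD hH, fun _ => Iff.rfl, uqS hC hD, sqS hC hD, cardS hC hD,
    ⟨nS hC hD (fun a => ?_) (fun a => ?_) fun a => ?_, nH hC hD, fun a => ⟨n1 hC hD a, n5 hC hD a⟩⟩,
    fun _ => Iff.rfl, uqP hC hD hH, SP hC hD hH, cP hC hD hH, sqP hC hD hH, fun g h g' h' => ?_,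
    tP hC hD hH, cardP hC hD hH, oddP hC hD hH, ⟨nrm fun g h => ?_,
      (le_inf inf_le_left (nH hC hD)).trans (nP hC hD hH), (nK hC hD).trans (nP hC hD hH)⟩,
    fixO hC hD hH, fix hC hD hH, trP hC hD hH, upP hC hD hH⟩
  · rw [(tx hC 2 a).commutator_eq]; exact one_mem _
  · rw [commutatorElement_def, hD.conj 3 (by decide)]
    exact mul_mem (m3 hC hD _) (inv_mem (m3 hC hD _))
  · rw [(tx hC 4 a).commutator_eq]; exact one_mem _
  · convert mul_mem (mul_mem (sqP hC hD hH _ (mul_mem h h'))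
      (sqP hC hD hH _ (mul_mem (mul_mem (inv_mem h') (inv_mem h)) h')))
      (sqP hC hD hH _ (inv_mem h')) using 1
    simp [commutatorElement_def, mul_assoc]
  · convert mul_mem (inv_mem (SP hC hD hH (tP hC hD hH g h))) h using 1
    simp [commutatorElement_def, mul_assoc]

end Cfsg.Agent.H20.S4L
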