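import Cfsg.Agent.H58.SWDefs
import Cfsg.Agent.H11.GroupUtil

/-! Project SW: invariance of primitive idempotents, eigenvalues on blocks, minimal subgroups. -/

set_option autoImplicit false

namespace Cfsg.Agent.H20.SwEig

open Matrix Cfsg Cfsg.Agent.H58.SW
open scoped commutatorElement

section
variable {F : Type} [Field F] {n : ℕ}

theorem span_comm {A : Subgroup (Gl n F)} (hA : Ab A) {x y : Mt n F} (hx : x ∈ spanG A)
    (hy : y ∈ spanG A) : x * y = y * x := by
  induction hx using Submodule.span_induction with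
  | mem x hx =>
    obtain ⟨a, ha, rfl⟩ := hx
    induction hy using Submodule.span_induction with
    | mem y hy =>
      obtain ⟨b, hb, rfl⟩ := hy
      exact congrArg Units.val (hA a ha b hb).eq
    | zero => simp
    | add y z _ _ h1 h2 => rw [mul_add, add_mul, h1, h2]
    | smul s y _ h => rw [mul_smul_comm, smul_mul_assoc, h]
  | zero => simp
  | add x z _ _ h1 h2 => rw [mul_add, add_mul, h1, h2]
  | smul s x _ h => rw [mul_smul_comm, smul_mul_assoc, h]

theorem pres {A : Subgroup (Gl n F)} {E : Finset (Mt n F)} (hE : Prim A E) (φ : Mt n F → Mt n F)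
    (hi : Function.Injective φ) (h0 : φ 0 = 0) (hm : ∀ x ∈ spanG A, φ x ∈ spanG A)
    (hs : ∀ x ∈ spanG A, ∃ y ∈ spanG A, φ y = x)
    (hmul : ∀ x ∈ spanG A, ∀ y ∈ spanG A, φ (x * y) = φ x * φ y) : ∀ e ∈ E, φ e ∈ E := by
  intro e he
  obtain ⟨e1, e2, e3, e4⟩ := (hE.chz e).1 he
  refine (hE.chz _).2 ⟨hm e e1, by rw [← hmul e e1 e e1, e2], fun h => e3 (hi (h.trans h0.symm)),
    fun f hf f2 f3 => ?_⟩
  obtain ⟨y, hy, rfl⟩ := hs f hf
  rcases e4 y hy (hi (by rw [hmul y hy y hy, f2])) (hi (by rw [hmul y hy e e1, f3])) with rfl | rfl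
  · exact .inl h0
  · exact .inr rfl

theorem sum_mul_mem {E : Finset (Mt n F)} (hE : Fam E) (lam : Mt n F → F) {e : Mt n F}
    (he : e ∈ E) : (∑ f ∈ E, lam f • f) * e = lam e • e := by
  rw [Finset.sum_mul, Finset.sum_eq_single e (fun f hf h => by
    rw [smul_mul_assoc, hE.orth f hf e he h, smul_zero]) (fun h => absurd he h), smul_mul_assoc,
    hE.idem e he]

end

theorem idem2 (hKA : KAStmt) (hKT : KTStmt) : Idem2Stmt := by
  intro F _ _ _ n c H A E hS hA hI hE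
  have ka := hKA F n c
  have kt := hKT F n c
  refine ⟨fun ψ hψ t ht => pres hE t.ap (kt.bij t).1 (kt.zero t) (kt.span H A hI ψ hψ t ht)
    (kt.surj H _ (kt.span H A hI) ψ hψ t ht) fun x hx y hy => ?_, fun hu => ?_⟩
  · cases h : t.neg
    · exact kt.mul t h x y
    · rw [span_comm hA hx hy, kt.mul' t h]
  have h0 : c.st 0 = 0 := by
    have := ka.st_sub hu 0 0
    rwa [sub_self, sub_self] at this
  have hm : ∀ x ∈ spanG A, c.st x ∈ spanG A := fun x hx => by
    induction hx using Submodule.span_induction with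
    | mem x hx =>
      obtain ⟨a, ha, rfl⟩ := hx
      have h := (ka.mem_St a).1 (hS ha) hu
      refine Submodule.subset_span ⟨a⁻¹, A.inv_mem ha, ?_⟩
      show ((a⁻¹ : Gl n F) : Mt n F) = c.st (a : Mt n F)
      exact Units.inv_eq_of_mul_eq_one_left h
    | zero => rw [h0]; exact zero_mem _
    | add x z _ _ h1 h2 => rw [ka.st_add hu]; exact add_mem h1 h2
    | smul s x _ h => rw [ka.st_smul]; exact Submodule.smul_mem _ _ h
  exact pres hE c.st (Function.LeftInverse.injective (ka.st_st hu)) h0 hm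
    (fun x hx => ⟨_, hm x hx, ka.st_st hu x⟩)
    fun x hx y hy => by rw [span_comm hA hx hy, ka.st_mul hu]

theorem eig (hKA : KAStmt) : EigStmt := by
  intro F _ _ _ n c H A E m hS hD
  have ka := hKA F n c
  have hE := hD.blk.fam
  have p1 : ∀ x ∈ A, ∃ lam : Mt n F → F, (∀ e ∈ E, c.ZV (lam e)) ∧
      (x : Mt n F) = ∑ e ∈ E, lam e • e := fun x hx => by
    have h : (x : Mt n F) ∈ spanG A := Submodule.subset_span ⟨x, hx, rfl⟩
    rw [hD.sp] at h
    obtain ⟨lam, -, hl⟩ := Submodule.mem_span_finset.1 h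
    refine ⟨lam, fun e he => ?_, hl.symm⟩
    have h1 : (x : Mt n F) * e = lam e • e := by rw [← hl, sum_mul_mem hE lam he]
    refine ⟨fun h0 => hE.ne0 e he ?_, fun hu => ?_⟩
    · rw [h0, zero_smul] at h1
      exact (Units.mul_right_eq_zero x).1 h1
    · have h2 := congrArg c.st h1
      rw [ka.st_mul hu, ka.st_smul, hD.blk.sf hu e he] at h2
      have h3 : e = lam e ^ (c.q + 1) • e := by
        calc e = e * (c.st x * (x : Mt n F)) * e := by
              rw [(ka.mem_St x).1 (hS hx) hu, mul_one, hE.idem e he]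
          _ = (e * c.st x) * ((x : Mt n F) * e) := by simp only [mul_assoc]
          _ = _ := by rw [h2, h1, smul_mul_smul_comm, hE.idem e he, pow_succ]
      by_contra h4
      have : (lam e ^ (c.q + 1) - 1) • e = 0 := by rw [sub_smul, one_smul, ← h3, sub_self]
      exact hE.ne0 e he ((smul_eq_zero.1 this).resolve_left (sub_ne_zero.2 h4))
  have p2 : ∀ e1 ∈ E, ∀ e2 ∈ E, e1 ≠ e2 → ∃ x ∈ A, ∃ lam : Mt n F → F, (∀ e ∈ E, c.ZV (lam e)) ∧
      (x : Mt n F) = ∑ e ∈ E, lam e • e ∧ lam e1 ≠ lam e2 := fun e1 h1 e2 h2 hne => by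
    by_contra hc
    push Not at hc
    have key : ∀ b ∈ spanG A, ∃ a : F, b * e1 = a • e1 ∧ b * e2 = a • e2 := fun b hb => by
      induction hb using Submodule.span_induction with
      | mem x hx =>
        obtain ⟨x, hx, rfl⟩ := hx
        obtain ⟨lam, l1, l2⟩ := p1 x hx
        refine ⟨lam e1, ?_, ?_⟩
        · show (x : Mt n F) * e1 = _
          rw [l2, sum_mul_mem hE lam h1]
        · show (x : Mt n F) * e2 = _
          rw [hc x hx lam l1 l2, l2, sum_mul_mem hE lam h2]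
      | zero => exact ⟨0, by simp, by simp⟩
      | add x z _ _ a1 a2 =>
        obtain ⟨a, a3, a4⟩ := a1
        obtain ⟨b, b3, b4⟩ := a2
        exact ⟨a + b, by rw [add_mul, a3, b3, add_smul], by rw [add_mul, a4, b4, add_smul]⟩
      | smul s x _ h =>
        obtain ⟨a, a3, a4⟩ := h
        exact ⟨s * a, by rw [smul_mul_assoc, a3, smul_smul], by rw [smul_mul_assoc, a4, smul_smul]⟩
    obtain ⟨a, a1, a2⟩ := key e1 (by rw [hD.sp]; exact Submodule.subset_span h1)
    rw [hE.orth e1 h1 e2 h2 hne] at a2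
    rw [hE.idem e1 h1, (smul_eq_zero.1 a2.symm).resolve_right (hE.ne0 e2 h2), zero_smul] at a1
    exact hE.ne0 e1 h1 a1
  refine ⟨p1, p2, ?_⟩
  obtain ⟨e1, h1, e2, h2, hne⟩ := Finset.one_lt_card.1 hD.blk.two
  obtain ⟨x, -, lam, l1, -, l2⟩ := p2 e1 h1 e2 h2 hne
  rw [← ka.card_ZV, Finite.one_lt_card_iff_nontrivial]
  exact ⟨⟨_, l1 e1 h1⟩, ⟨_, l1 e2 h2⟩, fun h => l2 (congrArg Subtype.val h)⟩

theorem min (hKA : KAStmt) (hKT : KTStmt) : MinStmt := by
  intro F _ _ _ n c r H Q hL X hZ hX hI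
  have ka := hKA F n c
  have kt := hKT F n c
  have := Fact.mk hL.prime
  obtain ⟨A, ⟨a1, a2, a3⟩, hm⟩ := (wellFounded_lt (α := Subgroup (Gl n F))).has_min
    {B | c.Z < B ∧ B ≤ X ∧ InvG H B} ⟨X, hZ, le_rfl, hI⟩
  have mn : ∀ B : Subgroup (Gl n F), c.Z < B → B ≤ A → InvG H B → B = A := fun B b1 b2 b3 =>
    (b2.lt_or_eq).resolve_left (hm B ⟨b1, b2.trans a2, b3⟩)
  have aQ : A ≤ Q := a2.trans hX
  have nZ : c.Z.Normal := ⟨fun z hz g => by
    rw [← (ka.zcomm z hz g).eq, mul_inv_cancel_right]; exact hz⟩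
  let π := QuotientGroup.mk' c.Z
  have k1 : ∀ x, π x = 1 ↔ x ∈ c.Z := fun x => QuotientGroup.eq_one_iff x
  have k2 : ∀ g x, Commute (π g) (π x) ↔ ⁅g, x⁆ ∈ c.Z := fun g x => by
    rw [← k1, map_commutatorElement, commutatorElement_eq_one_iff_commute]
  let B : Subgroup (Gl n F) :=
    { carrier := {x | x ∈ A ∧ π x ^ r = 1 ∧ ∀ g ∈ Q, Commute (π g) (π x)}
      one_mem' := ⟨one_mem _, by simp, fun g _ => by simp⟩
      mul_mem' := fun {x y} hx hy => ⟨mul_mem hx.1 hy.1, by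
        rw [map_mul, (hy.2.2 x (aQ hx.1)).mul_pow, hx.2.1, hy.2.1, one_mul], fun g hg => by
        rw [map_mul]; exact (hx.2.2 g hg).mul_right (hy.2.2 g hg)⟩
      inv_mem' := fun {x} hx => ⟨inv_mem hx.1, by rw [map_inv, inv_pow, hx.2.1, inv_one],
        fun g hg => by rw [map_inv]; exact (hx.2.2 g hg).inv_right⟩ }
  have hP : IsPGroup r (Q.map π) := fun g => by
    obtain ⟨_, x, hx, rfl⟩ := g
    obtain ⟨k, hk⟩ := hL.rgrp x hx
    exact ⟨k, Subtype.ext (by simpa only [Subgroup.coe_pow, Subgroup.coe_one, ← map_pow, k1] using hk)⟩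
  have : ((A.map π).subgroupOf (Q.map π)).Normal := ⟨fun x hx g => by
    obtain ⟨_, g, hg, rfl⟩ := g
    obtain ⟨y, hy, e⟩ := hx
    refine ⟨g * y * g⁻¹, kt.hatG H A a3 g (hL.qh hg) y hy, ?_⟩
    rw [map_mul, map_mul, map_inv, e]
    rfl⟩
  obtain ⟨x, hx, hxZ⟩ := SetLike.exists_of_lt a1
  obtain ⟨⟨_, w0, hw0, rfl⟩, ⟨w, hw, e⟩, w2, w3⟩ := H11.exists_mem_center_orderOf_eq_prime hP
    ((A.map π).subgroupOf (Q.map π)) (fun h => hxZ ((k1 x).1 (congrArg Subtype.val
      ((Subgroup.eq_bot_iff_forall _).1 h ⟨π x, x, aQ hx, rfl⟩ ⟨x, hx, rfl⟩))))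
  have e : π w = π w0 := e
  rw [← Subgroup.orderOf_coe] at w3
  have w3 : orderOf (π w) = r := e ▸ w3
  have hB : B = A := by
    refine mn B (lt_of_le_of_ne (fun z hz => ⟨a1.le hz, by rw [(k1 z).2 hz, one_pow],
      fun g _ => by rw [(k1 z).2 hz]; exact Commute.one_right _⟩) fun h => ?_) (fun x hx => hx.1)
      fun ψ hψ y hy => ⟨a3 ψ hψ y hy.1, ?_, fun g hg => ?_⟩
    · have : w ∈ B := ⟨hw, w3 ▸ pow_orderOf_eq_one _, fun g hg => by
        rw [e]
        exact congrArg Subtype.val (Subgroup.mem_center_iff.1 w2 ⟨π g, g, hg, rfl⟩)⟩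
      rw [← h, ← k1] at this
      rw [this, orderOf_one] at w3
      exact hL.prime.one_lt.ne w3
    · rw [← map_pow, k1, ← map_pow, (kt.pres ψ (hL.std ψ hψ) _).2.2, ← k1, map_pow]
      exact hy.2.1
    · have := (k2 _ _).1 (hy.2.2 _ (hL.inv ψ⁻¹ (inv_mem hψ) g hg))
      rw [← (kt.pres ψ (hL.std ψ hψ) _).2.2, map_commutatorElement] at this
      rw [k2]
      simpa using this
  refine ⟨A, a2, a1, aQ, a3, mn, fun x hx => ?_, fun x hx g hg => ?_⟩
  · rw [← hB] at hx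
    rw [← k1, map_pow]
    exact hx.2.1
  · rw [← hB] at hx
    exact (k2 g x).1 (hx.2.2 g hg)

end Cfsg.Agent.H20.SwEig
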