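import Mathlib
import Cfsg.Agent.H41.U6Defs

/-!
# Fixed points of centralisers on the group of the clique in `2·U₆(2)`
-/

set_option autoImplicit false
set_option maxRecDepth 100000

universe u

namespace Cfsg.Agent.H20.U6F

open Cfsg.Agent.H41 Cfsg.Agent.H41.Rec Cfsg.Agent.H42 Cfsg.Agent.H45 Cfsg.Agent.H60 Equiv

/-- The two permutations of the clique. -/
def sg : List ℕ := J21.sl.map Prod.snd

/-- Their codes. -/
def cs : List ℕ := [32167872525556384620605577310224, 633865629142361202314544099329]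

/-- The permutation of a word. -/
noncomputable def pw (w : List ℕ) (j : ℕ) : ℕ := List.rec j (fun i _ ih => fld 5 (sg.getD i 0) ih) w

/-- The common fixed vectors of the words are `0` and `r`. -/
noncomputable def fx (r : ℕ) (ws : List (List ℕ)) : Bool :=
  allB (fun y => iteB (allL (fun w => Nat.beq (linW 9 cs w y) y) ws) (anyL (Nat.beq y) [0, r]) true)
    (Nat.pow 2 9)

theorem fx_a : fx 1 [[1]] = true := by decide +kernel

theorem fx_b : fx 3 [[0, 1, 0, 0, 0, 1, 0, 0], [0, 1, 0, 1, 0, 1, 1, 0, 0, 1]] = true := by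
  decide +kernel

theorem fx_c : fx 49 [[0, 1, 0, 1, 0, 0, 1, 1, 0, 1, 0, 0, 1], [1, 0, 0, 0, 1, 0, 1, 1, 0, 0, 1, 0, 0]] =
    true := by decide +kernel

theorem cov : mapK (fun r => Rec.dfs 9 cs (Nat.pow 2 9) (pt r) [r]) [1, 3, 49] (fun os =>
    sub (ones (Nat.pow 2 9)) (Nat.lor 1 (orL os))) = true := by decide +kernel

section
variable {Q : Type u} [Group Q] {ρ : Q →* Perm (Fin 693)} {d : Q}

/-- The basis of the group of the clique. -/
noncomputable abbrev eb (i : ℕ) : Perm (Fin 693) := L21.F.T (sB J21.B i)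

/-- The property transported along the orbits. -/
def P (ρ : Q →* Perm (Fin 693)) (y : ℕ) : Prop :=
  y < 2 ^ 9 ∧ ∀ v, ρ v = th eb 9 y → ∀ l, ρ l ∈ sp eb 9 → (∀ g, Commute g v → Commute g l) →
    ρ l = 1 ∨ ρ l = ρ v

theorem P_lin {g : Q} {c : ℕ} (h : Cd eb 9 (ρ g) c) {y : ℕ} (hy : P ρ y) : P ρ (lin 9 c y) := by
  have he : CI eb 9 := J21.cq.ci
  refine ⟨h.lt y, fun v hv l hl hc => ?_⟩
  rw [← h.conj he] at hv
  have b4 := hy.2 (g⁻¹ * v * g) (by rw [map_mul, map_mul, map_inv, hv]; group) (g⁻¹ * l * g) (by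
      rw [map_mul, map_mul, map_inv]
      refine conj_surj (g := ρ g) (fun a ha => ?_) _ hl
      obtain ⟨y, -, rfl⟩ := he.mem_sp.mp ha
      exact h.conj he y ▸ th_mem_sp _) fun a h1 => by
    have h2 : Commute (g * a * g⁻¹) v := by
      simpa [mul_assoc] using h1.map (MulAut.conj g)
    simpa [mul_assoc] using (hc _ h2).map (MulAut.conj g⁻¹)
  simp only [map_mul, map_inv] at b4
  rcases b4 with b4 | b4
  · left
    calc ρ l = ρ g * ((ρ g)⁻¹ * ρ l * ρ g) * (ρ g)⁻¹ := by group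
      _ = 1 := by rw [b4]; group
  · right
    exact mul_left_cancel (mul_right_cancel b4)

theorem pw_conj {γ : ℕ → Q} {f : ℕ → Q}
    (hγ : ∀ i < 2, ∀ j < 21, fld 5 (sg.getD i 0) j < 21 ∧ γ i * f j * (γ i)⁻¹ = f (fld 5 (sg.getD i 0) j))
    {w : List ℕ} (hw : ∀ i ∈ w, i < 2) {j : ℕ} (hj : j < 21) :
    pw w j < 21 ∧ wp γ w * f j * (wp γ w)⁻¹ = f (pw w j) := by
  induction w with
  | nil => exact ⟨hj, by simp [pw]⟩
  | cons i w ih =>
    obtain ⟨h1, h2⟩ := ih fun j hj => hw j (by simp [hj])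
    obtain ⟨h3, h4⟩ := hγ i (hw i (by simp)) _ h1
    refine ⟨h3, ?_⟩
    change _ = f (fld 5 (sg.getD i 0) (pw w j))
    rw [← h4, ← h2, wp_cons]
    group

theorem P_base (h : Ex L21.F ρ d) {ψ : Fin 693 → Q} (L : Lf L21.F ρ ψ) {γ : ℕ → Q}
    (hγ : ∀ i < 2, ∀ j < 21, fld 5 (sg.getD i 0) j < 21 ∧
      ρ (γ i) (sB J21.B j) = sB J21.B (fld 5 (sg.getD i 0) j))
    (hc : ∀ i < cs.length, Cd eb 9 (ρ (γ i)) (cs.getD i 0)) {r : ℕ} {J : List ℕ} {ws : List (List ℕ)}
    (hr : r < 2 ^ 9) (hJ : ∀ j ∈ J, j < 21) (hJr : (J.map (fld 12 J21.V)).foldr Nat.xor 0 = r)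
    (hw : ∀ w ∈ ws, (∀ i ∈ w, i < 2) ∧ (J.map (pw w)).Perm J) (H : fx r ws = true) : P ρ r := by
  have he : CI eb 9 := J21.cq.ci
  have hi : Ind eb 9 := J21.cq.ind
  refine ⟨hr, fun v hv l hl hcl => ?_⟩
  set f : ℕ → Q := fun j => ψ (sB J21.B j) with hf
  have h1 : ρ (J.map f).prod = th eb 9 r := by
    rw [map_list_prod, List.map_map, ← hJr]
    refine he.prod_eq fun j hj => ?_
    rw [Function.comp_apply, hf, L.rho]
    exact J21.cq.rel j (hJ j hj)
  have h2 : ∀ w ∈ ws, Commute (wp γ w) v := fun w hw' => by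
    have h3 : Commute (wp γ w) (J.map f).prod := by
      have h4 : wp γ w * (J.map f).prod * (wp γ w)⁻¹ = ((J.map (pw w)).map f).prod := by
        rw [List.map_map]
        refine (map_list_prod (MulAut.conj (wp γ w)) _).trans ?_
        rw [List.map_map]
        congr 1
        refine List.map_congr_left fun j hj => ?_
        refine (pw_conj (fun i hi j hj => ⟨(hγ i hi j hj).1, ?_⟩) (hw w hw').1 (hJ j hj)).2
        rw [hf]
        simp only
        rw [← (hγ i hi j hj).2, L.eqv]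
      rw [← (((hw w hw').2.symm.map f).prod_eq' ?_)] at h4
      · exact mul_inv_eq_iff_eq_mul.mp h4
      · rw [List.pairwise_map]
        exact List.pairwise_of_forall_mem_list fun a ha b hb =>
          L.comm (J21.cq.cl a (hJ a ha) b (hJ b hb))
    rcases h.eq_or (hv.trans h1.symm) with e | e
    · rwa [e]
    · rw [e]
      exact h3.mul_right (h.comm _)
  obtain ⟨y, hy, e⟩ := he.mem_sp.mp hl
  have h5 := of_allB H hy
  rw [iteB_eq, if_pos (allL_iff.mpr fun w hw' => beq_iff.mpr (by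
    obtain ⟨h3, h4⟩ := linW_conj he hc (w := w) (hw w hw').1 hy
    refine hi _ h3 _ hy ?_
    rw [← h4, ← map_wp, e, ((hcl _ (h2 w hw')).map ρ).eq, mul_inv_cancel_right]))] at h5
  obtain ⟨a, ha, h3⟩ := anyL_iff.mp h5
  obtain rfl := beq_iff.mp h3
  simp only [List.mem_cons, List.not_mem_nil, or_false] at ha
  rcases ha with rfl | rfl
  · exact .inl (e ▸ th_zero _ _)
  · exact .inr (e.symm.trans hv.symm)

end

theorem fix : U6S.FixStmt.{u} := by
  intro Q _ _ ρ d h v hv l hl hc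
  obtain ⟨ψ, L⟩ := mo21.lf h
  have he : CI eb 9 := J21.cq.ci
  have h0 : ∀ i, ∃ g : Q, i < 2 → ∀ j < 21, fld 5 (sg.getD i 0) j < 21 ∧
      ρ g (sB J21.B j) = sB J21.B (fld 5 (sg.getD i 0) j) := fun i => by
    by_cases hi : i < 2
    · obtain ⟨g, hg, e⟩ := J21.sig (sg.getD i 0) (by
        interval_cases i
        exacts [List.mem_cons_self, List.mem_cons_of_mem _ List.mem_cons_self])
      obtain ⟨g, rfl⟩ := h.surj hg
      exact ⟨g, fun _ => e⟩
    · exact ⟨1, fun h => absurd h hi⟩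
  choose γ hγ using h0
  have hcd : ∀ i < cs.length, Cd eb 9 (ρ (γ i)) (cs.getD i 0) := fun i hi =>
    H99.F22.O21.cd_of (L.aut _) (fun j hj => (hγ i hi j hj).2)
      ((by decide +kernel : ∀ i < 2, ∀ j < 9, fld 5 (sg.getD i 0) j < 21 ∧
        fld 12 (cs.getD i 0) j = fld 12 J21.V (fld 5 (sg.getD i 0) j)) i hi)
  have hP : ∀ r ∈ [1, 3, 49], P ρ r := by
    intro r hr
    simp only [List.mem_cons, List.not_mem_nil, or_false] at hr
    rcases hr with rfl | rfl | rfl
    · exact P_base h L hγ hcd (J := [0]) (by norm_num) (by decide) (by decide +kernel)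
        (by decide +kernel) fx_a
    · exact P_base h L hγ hcd (J := [0, 1]) (by norm_num) (by decide) (by decide +kernel)
        (by decide +kernel) fx_b
    · exact P_base h L hγ hcd (J := [0, 4, 5]) (by norm_num) (by decide) (by decide +kernel)
        (by decide +kernel) fx_c
  obtain ⟨y, hy, e⟩ := he.mem_sp.mp hv
  have hR := cov
  rw [mapK_eq] at hR
  have h10 := testBit_of_sub hR (p := y) (by rw [testBit_ones]; exact decide_eq_true hy)
  change (1 ||| _).testBit y = true at h10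
  rw [Nat.testBit_or, Bool.or_eq_true, testBit_orL] at h10
  rcases h10 with h10 | ⟨o, ho, h10⟩
  · rw [show (1 : ℕ) = H41.pt 0 from rfl, testBit_pt, decide_eq_true_iff] at h10
    subst h10
    exact .inl (e ▸ th_zero _ _)
  right
  obtain ⟨r, hr, rfl⟩ := List.mem_map.mp ho
  refine (dfs_sound (P := P ρ) (fun c hc y hy => ?_) _ _ _ (fun y hy => ?_)
    (by simpa using hP r hr) y h10).2 v e.symm l hl hc
  · obtain ⟨i, hi, rfl⟩ := List.getElem_of_mem hc
    have := hcd i hi
    rw [List.getD_eq_getElem _ _ hi] at this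
    exact P_lin this hy
  · rw [testBit_pt, decide_eq_true_iff] at hy
    exact hy ▸ hP r hr

end Cfsg.Agent.H20.U6F
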