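import Mathlib
import Cfsg.Agent.H63.Frob

/-!
Weight elements for elementary abelian `2`-groups of automorphisms of a group of odd order.
-/

set_option autoImplicit false
set_option linter.unusedSectionVars false

namespace Cfsg.Agent.H20.Wt

open Subgroup

variable {P : Type*} [Group P] [Finite P]

theorem exists_rt (hodd : Odd (Nat.card P)) (x : P) : ∃ r ∈ zpowers x, r * r = x := by
  obtain ⟨k, hk⟩ := hodd
  refine ⟨x ^ (k + 1), pow_mem (mem_zpowers x) _, ?_⟩
  rw [← pow_add, show k + 1 + (k + 1) = Nat.card P + 1 by omega, pow_succ, pow_card_eq_one', one_mul]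

theorem sq_inj (hodd : Odd (Nat.card P)) {a b : P} (h : a * a = b * b) : a = b := by
  obtain ⟨k, hk⟩ := hodd
  have key : ∀ x : P, (x * x) ^ (k + 1) = x := fun x => by
    rw [← pow_two, ← pow_mul, show 2 * (k + 1) = Nat.card P + 1 by omega, pow_succ,
      pow_card_eq_one', one_mul]
  rw [← key a, h, key b]

theorem eq_one_of_inv (hodd : Odd (Nat.card P)) {a : P} (h : a = a⁻¹) : a = 1 :=
  sq_inj hodd (by rw [mul_one]; nth_rewrite 1 [h]; exact inv_mul_cancel a)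

/-- midpoints -/
theorem mid (hodd : Odd (Nat.card P)) (T : MulAut P) (hT : ∀ x, T (T x) = x) (y : P) :
    ∃ n u : P, y = n * u * n ∧ T n = n ∧ T u = u⁻¹ ∧
      (∀ C : Subgroup P, y ∈ C → T y ∈ C → n ∈ C ∧ u ∈ C) ∧
      ∀ U : MulAut P, (∀ x, U (T x) = T (U x)) → (U y = y ∨ U y = y⁻¹) →
        (U n = n ∨ U n = n⁻¹) ∧ (U u = u ∨ U u = u⁻¹) := by
  obtain ⟨r, hr, hrr⟩ := exists_rt hodd (T y * y⁻¹)
  have hm : r * y * y⁻¹ * (r * y) = T y := by
    calc r * y * y⁻¹ * (r * y) = r * r * y := by group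
      _ = T y := by rw [hrr]; group
  have uniq : ∀ m, m * y⁻¹ * m = T y → m = r * y := by
    intro m h
    have : m * y⁻¹ = r := sq_inj hodd (by rw [hrr, ← h]; group)
    rw [← this]; group
  obtain ⟨n, hn, hnn⟩ := exists_rt hodd (r * y)
  have hTm : T (r * y) = r * y := by
    apply uniq
    have h1 := congrArg T hm
    rw [map_mul, map_mul, map_inv, hT] at h1
    calc T (r * y) * y⁻¹ * T (r * y)
        = T (r * y) * (T (r * y) * (T y)⁻¹ * T (r * y))⁻¹ * T (r * y) := by rw [h1]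
      _ = T y := by group
  have hTn : T n = n := sq_inj hodd (by rw [← map_mul, hnn, hTm])
  refine ⟨n, n⁻¹ * y * n⁻¹, by group, hTn, ?_, ?_, ?_⟩
  · rw [map_mul, map_mul, map_inv, hTn, ← hm, ← hnn]; group
  · intro C hy hTy
    have h1 : r ∈ C := zpowers_le.2 (C.mul_mem hTy (C.inv_mem hy)) hr
    have h2 : n ∈ C := zpowers_le.2 (C.mul_mem h1 hy) hn
    exact ⟨h2, C.mul_mem (C.mul_mem (C.inv_mem h2) hy) (C.inv_mem h2)⟩
  · intro U hU hy
    have h1 := congrArg U hm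
    rw [map_mul, map_mul, map_inv, hU] at h1
    rcases hy with hy | hy
    · rw [hy] at h1
      have h2 := uniq _ h1
      have h3 : U n = n := sq_inj hodd (by rw [← map_mul, hnn, h2])
      exact ⟨Or.inl h3, Or.inl (by rw [map_mul, map_mul, map_inv, h3, hy])⟩
    · rw [hy, map_inv, inv_inv] at h1
      have h2 := uniq (U (r * y))⁻¹ (by
        rw [← inv_inv (T y), ← h1]; group)
      have h3 : U n = n⁻¹ := sq_inj hodd (by
        rw [← map_mul, hnn, ← mul_inv_rev, hnn]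
        exact inv_eq_iff_eq_inv.1 h2)
      exact ⟨Or.inr h3, Or.inr (by rw [map_mul, map_mul, map_inv, h3, hy]; group)⟩

/-- invariant subgroups are generated by weight elements -/
theorem gen (hodd : Odd (Nat.card P)) (I : Subgroup (MulAut P))
    (hc : ∀ T ∈ I, ∀ U ∈ I, ∀ x, U (T x) = T (U x)) (h2 : ∀ T ∈ I, ∀ x, T (T x) = x)
    (C D : Subgroup P) (hC : ∀ T ∈ I, ∀ x ∈ C, T x ∈ C)
    (hD : ∀ x ∈ C, (∀ T ∈ I, T x = x ∨ T x = x⁻¹) → x ∈ D) : C ≤ D := by
  classical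
  have key : ∀ s : Finset (MulAut P), (∀ T ∈ s, T ∈ I) → ∀ D : Subgroup P,
      (∀ x ∈ C, (∀ T ∈ s, T x = x ∨ T x = x⁻¹) → x ∈ D) → C ≤ D := by
    intro s
    induction s using Finset.induction_on with
    | empty => exact fun _ D h x hx => h x hx (by simp)
    | insert T s _ ih =>
      intro hs D h
      have hT := hs T (Finset.mem_insert_self _ _)
      refine ih (fun U hU => hs U (Finset.mem_insert_of_mem hU)) D fun y hy hw => ?_
      obtain ⟨n, u, e, hn, hu, hm, hU⟩ := mid hodd T (h2 T hT) y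
      obtain ⟨hnC, huC⟩ := hm C hy (hC T hT y hy)
      have h1 : n ∈ D := h n hnC fun U hU' => by
        rcases Finset.mem_insert.1 hU' with rfl | hU'
        · exact Or.inl hn
        · exact (hU U (hc T hT U (hs U (Finset.mem_insert_of_mem hU'))) (hw U hU')).1
      have h3 : u ∈ D := h u huC fun U hU' => by
        rcases Finset.mem_insert.1 hU' with rfl | hU'
        · exact Or.inr hu
        · exact (hU U (hc T hT U (hs U (Finset.mem_insert_of_mem hU'))) (hw U hU')).2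
      rw [e]
      exact D.mul_mem (D.mul_mem h1 h3) h1
  refine key (Set.toFinite (I : Set (MulAut P))).toFinset (fun T hT => by simpa using hT) D
    fun x hx h => hD x hx fun T hT => h T (by simpa using hT)

theorem half (K : Subgroup (MulAut P)) (x : P) (hx : ∀ T ∈ K, T x = x ∨ T x = x⁻¹)
    (T : MulAut P) (hT : T ∈ K) (hTx : T x ≠ x) :
    Nat.card ↥(K ⊓ MulAction.stabilizer (MulAut P) x) * 2 = Nat.card K := by
  have h1 : T x = x⁻¹ := (hx T hT).resolve_left hTx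
  have h2 : x⁻¹ ≠ x := h1 ▸ hTx
  have h3 : ((MulAction.stabilizer (MulAut P) x).subgroupOf K).index = 2 := by
    refine index_eq_two_iff.2 ⟨⟨T, hT⟩, fun b => ?_⟩
    have e1 : b * ⟨T, hT⟩ ∈ (MulAction.stabilizer (MulAut P) x).subgroupOf K ↔
        (b.1 x)⁻¹ = x := by
      rw [mem_subgroupOf, MulAction.mem_stabilizer_iff]
      show b.1 (T x) = x ↔ _
      rw [h1, map_inv]
    have e2 : b ∈ (MulAction.stabilizer (MulAut P) x).subgroupOf K ↔ b.1 x = x := Iff.rfl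
    rw [e1, e2]
    rcases hx b.1 b.2 with h | h
    · rw [h]; exact Or.inr ⟨rfl, h2⟩
    · rw [h, inv_inv]; exact Or.inl ⟨rfl, h2⟩
  have h4 := ((MulAction.stabilizer (MulAut P) x).subgroupOf K).card_mul_index
  rw [h3, ← inf_subgroupOf_left,
    Nat.card_congr (subgroupOfEquivOfLe (inf_le_left :
      K ⊓ MulAction.stabilizer (MulAut P) x ≤ K)).toEquiv] at h4
  exact h4

theorem half_le (K : Subgroup (MulAut P)) (x : P) (hx : ∀ T ∈ K, T x = x ∨ T x = x⁻¹) :
    Nat.card K ≤ Nat.card ↥(K ⊓ MulAction.stabilizer (MulAut P) x) * 2 := by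
  by_cases h : ∃ T ∈ K, T x ≠ x
  · obtain ⟨T, hT, hTx⟩ := h
    exact (half K x hx T hT hTx).ge
  · push Not at h
    have : K ⊓ MulAction.stabilizer (MulAut P) x = K := inf_eq_left.2 fun T hT => h T hT
    rw [this]; omega

theorem step (hodd : Odd (Nat.card P)) (I : Subgroup (MulAut P))
    (hc : ∀ T ∈ I, ∀ U ∈ I, ∀ x, U (T x) = T (U x)) (h2 : ∀ T ∈ I, ∀ x, T (T x) = x)
    (K : Subgroup (MulAut P)) (hK : K ≤ I) (h1 : Nat.card K ≠ 1) :
    ∃ x : P, (∀ T ∈ I, T x = x ∨ T x = x⁻¹) ∧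
      Nat.card ↥(K ⊓ MulAction.stabilizer (MulAut P) x) * 2 = Nat.card K := by
  obtain ⟨⟨T, hT⟩, hT1⟩ := ne_bot_iff_exists_ne_one.1 (fun h => h1 (card_eq_one.2 h))
  by_contra hne
  push Not at hne
  apply hT1
  have := gen hodd I hc h2 ⊤ (T.toMonoidHom.eqLocus (MonoidHom.id P)) (fun _ _ _ _ => mem_top _)
    (fun x _ hx => by
      by_contra h
      exact hne x hx (half K x (fun U hU => hx U (hK hU)) T hT h))
  exact Subtype.ext (MulEquiv.ext fun x => this (mem_top x))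

theorem nc {p : ℕ} (hp : p.Prime) (hP : IsPGroup p P) (U V : MulAut P) (x y : P) (hx : U x = x)
    (hy : U y = y) (h1 : V x = x⁻¹) (h2 : x ≠ x⁻¹) (h3 : V y = y) (h4 : y ≠ y⁻¹) :
    ¬ ∃ g : P, ∀ x : P, (U x = x ↔ x ∈ zpowers g) := by
  rintro ⟨g, hg⟩
  rcases H63.le_total_of_isCyclic_of_isPGroup hp (inferInstance : IsCyclic (zpowers g))
    (hP.to_subgroup _) (zpowers_le.2 ((hg x).1 hx)) (zpowers_le.2 ((hg y).1 hy)) with h | h
  · obtain ⟨k, hk⟩ := mem_zpowers_iff.1 (h (mem_zpowers x))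
    apply h2
    rw [← h1, ← hk, map_zpow, h3]
  · obtain ⟨k, hk⟩ := mem_zpowers_iff.1 (h (mem_zpowers y))
    apply h4
    rw [← h3]
    conv_rhs => rw [h3]
    rw [← hk, map_zpow, h1, inv_zpow]

theorem not_two {p : ℕ} (hp : p.Prime) (hodd : Odd (Nat.card P)) (hP : IsPGroup p P)
    (hcomm : ∀ a b : P, a * b = b * a) (T1 T2 : MulAut P) (x1 x2 x3 : P) (n1 : x1 ≠ 1)
    (n2 : x2 ≠ 1) (n3 : x3 ≠ 1) (h11 : T1 x1 = x1⁻¹) (h12 : T1 x2 = x2) (h13 : T1 x3 = x3)
    (h22 : T2 x2 = x2⁻¹) (h21 : T2 x1 = x1) (h23 : T2 x3 = x3) :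
    ¬ ∃ a b : P, closure {a, b} = ⊤ := by
  rintro ⟨a, b, hab⟩
  have : Fact p.Prime := ⟨hp⟩
  let inst : CommGroup P := { (inferInstance : Group P) with mul_comm := hcomm }
  have hy : ∀ x : P, x ≠ 1 → ∃ y ∈ zpowers x, orderOf y = p := by
    intro x hx
    obtain ⟨k, hk⟩ := (IsPGroup.iff_orderOf.1 hP) x
    have hk0 : k ≠ 0 := by
      rintro rfl
      exact hx (orderOf_eq_one_iff.1 (by simpa using hk))
    refine ⟨x ^ (orderOf x / p), pow_mem (mem_zpowers x) _, ?_⟩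
    exact orderOf_pow_orderOf_div (orderOf_pos x).ne' (hk ▸ dvd_pow_self p hk0)
  obtain ⟨y1, m1, o1⟩ := hy x1 n1
  obtain ⟨y2, m2, o2⟩ := hy x2 n2
  obtain ⟨y3, m3, o3⟩ := hy x3 n3
  have hfix : ∀ (T : MulAut P) (x y : P), y ∈ zpowers x → T x = x → ∀ z : zpowers y, T z = z := by
    intro T x y hy hx z
    obtain ⟨k, hk⟩ := mem_zpowers_iff.1 (zpowers_le.2 hy z.2)
    rw [← hk, map_zpow, hx]
  have hinv : ∀ (T : MulAut P) (x y : P), y ∈ zpowers x → T x = x⁻¹ →
      ∀ z : zpowers y, T z = (z : P)⁻¹ := by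
    intro T x y hy hx z
    obtain ⟨k, hk⟩ := mem_zpowers_iff.1 (zpowers_le.2 hy z.2)
    rw [← hk, map_zpow, hx, inv_zpow]
  have hpw : ∀ y : P, orderOf y = p → ∀ z : zpowers y, (z : P) ^ p = 1 := by
    intro y hy z
    rw [← orderOf_dvd_iff_pow_eq_one, ← hy]
    exact orderOf_dvd_of_mem_zpowers z.2
  let f : P →* P := powMonoidHom p
  let F : zpowers y1 × zpowers y2 × zpowers y3 → f.ker := fun z =>
    ⟨z.1 * z.2.1 * z.2.2, by
      show ((z.1 : P) * z.2.1 * z.2.2) ^ p = 1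
      rw [mul_pow, mul_pow, hpw _ o1, hpw _ o2, hpw _ o3, one_mul, one_mul]⟩
  have hF : Function.Injective F := by
    rintro ⟨a1, a2, a3⟩ ⟨b1, b2, b3⟩ h
    have e : (a1 : P) * a2 * a3 = b1 * b2 * b3 := congrArg Subtype.val h
    have e1 := congrArg T1 e
    have e2 := congrArg T2 e
    simp only [map_mul, hinv T1 _ _ m1 h11, hfix T1 _ _ m2 h12, hfix T1 _ _ m3 h13,
      hinv T2 _ _ m2 h22, hfix T2 _ _ m1 h21, hfix T2 _ _ m3 h23] at e1 e2
    have f1 : (a1 : P) = b1 := sq_inj hodd (by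
      calc (a1 : P) * a1 = (a1 * a2 * a3) * ((a1 : P)⁻¹ * a2 * a3)⁻¹ := by group
        _ = b1 * b1 := by rw [e, e1]; group)
    rw [f1, mul_assoc, mul_assoc, mul_right_inj] at e e2
    have f2 : (a2 : P) = b2 := sq_inj hodd (by
      calc (a2 : P) * a2 = (a2 * a3) * ((a2 : P)⁻¹ * a3)⁻¹ := by group
        _ = b2 * b2 := by rw [e, e2]; group)
    rw [f2, mul_right_inj] at e
    exact Prod.ext (Subtype.ext f1) (Prod.ext (Subtype.ext f2) (Subtype.ext e))
  have c1 := Nat.card_le_card_of_injective F hF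
  rw [Nat.card_prod, Nat.card_prod, Nat.card_zpowers, Nat.card_zpowers, Nat.card_zpowers, o1, o2,
    o3] at c1
  have c2 : Nat.card f.ker = f.range.index := by
    have e1 := f.ker.card_mul_index
    have e2 := f.range.index_mul_card
    rw [index_ker, ← e2] at e1
    exact Nat.eq_of_mul_eq_mul_right Nat.card_pos e1
  let G : zpowers (a : P ⧸ f.range) × zpowers (b : P ⧸ f.range) → P ⧸ f.range :=
    fun z => z.1 * z.2
  have hG : Function.Surjective G := by
    intro q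
    obtain ⟨x, rfl⟩ := QuotientGroup.mk_surjective q
    obtain ⟨m, n, e⟩ := mem_closure_pair.1 (hab ▸ mem_top x : x ∈ closure {a, b})
    exact ⟨(⟨_, zpow_mem (mem_zpowers _) m⟩, ⟨_, zpow_mem (mem_zpowers _) n⟩), by
      rw [← e]; rfl⟩
  have c3 := Nat.card_le_card_of_surjective G hG
  have ho : ∀ x : P, orderOf (x : P ⧸ f.range) ≤ p := fun x =>
    Nat.le_of_dvd hp.pos (orderOf_dvd_of_pow_eq_one (by
      rw [← QuotientGroup.mk_pow, QuotientGroup.eq_one_iff]; exact ⟨x, rfl⟩))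
  rw [Nat.card_prod, Nat.card_zpowers, Nat.card_zpowers] at c3
  have c4 : f.range.index ≤ p * p := c3.trans (Nat.mul_le_mul (ho a) (ho b))
  have := hp.two_le
  rw [c2] at c1
  nlinarith

end Cfsg.Agent.H20.Wt
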